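import Cfsg.Agent.Co.I

/-! General tools for essential subgroups: chains, the offender lemma, pigeonhole. -/

set_option autoImplicit false
open Equiv
open scoped commutatorElement

namespace Cfsg.Agent.Co
open Cfsg.Fus Cfsg.FusionSystem

theorem strEmb_le_of_mem {G : Type*} [Group G] {p : ℕ} [Fact p.Prime] {N B U Y : Subgroup G}
    (h : StrEmbMod p N B Y) (hB : FinMod N B) (hU : U ≤ B) (hp : IsPMod p N U) {x : G}
    (hx : x ∈ U) (hxY : x ∈ Y) (hxN : x ∉ N) : U ≤ Y := by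
  obtain ⟨V, hV, hs⟩ := h.exists_sylMod hB
  obtain ⟨χ, hχ, hc⟩ := hs.conj U hU hp
  have key : ∀ σ ∈ U, χ * σ * χ⁻¹ ∈ Y := fun σ hσ => by
    obtain ⟨u, hu, hu'⟩ := hc σ hσ
    have h1 := Y.mul_mem (hV hu) (h.ge ⟨hu', B.mul_mem (B.inv_mem (hs.le hu))
      (B.mul_mem (B.mul_mem hχ (hU hσ)) (B.inv_mem hχ))⟩)
    simpa [mul_assoc] using h1
  have hχY := h.mem x hxY hxN (hp x hx) χ hχ (key x hx)
  intro σ hσ
  simpa [mul_assoc] using Y.mul_mem (Y.mul_mem (Y.inv_mem hχY) (key σ hσ)) hχY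

section Gen
variable {Ω : Type*} [Group Ω]

/-- `σ` acts trivially on the factors of the descending chain `B ≥ l₀ ≥ l₁ ≥ … ≥ 1`. -/
def Ch (σ : Ω → Ω) : Subgroup Ω → List (Subgroup Ω) → Prop
  | B, [] => ∀ x ∈ B, σ x = x
  | B, A :: l => A ≤ B ∧ (∀ x ∈ B, x⁻¹ * σ x ∈ A) ∧ Ch σ A l

def chS : Subgroup Ω → List (Subgroup Ω) → Subgroup (Perm Ω)
  | B, [] => fixP B
  | B, A :: l => trivOn A B ⊓ chS A l

theorem pow_of_chS {p : ℕ} [Fact p.Prime] {σ : Perm Ω} : ∀ (l : List (Subgroup Ω)) (B : Subgroup Ω)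
    [Finite B], IsPGroup p B → (∃ τ : Ω → Ω, Ch τ B l) → σ ∈ chS B l → ∃ k, σ ^ p ^ k ∈ fixP B
  | [], _, _, _, _, h => ⟨0, by rw [pow_zero, pow_one]; exact h⟩
  | A :: l, B, _, hB, ⟨τ, hτ⟩, h => by
    have := finite_of_le hτ.1
    obtain ⟨k, hk⟩ := pow_of_chS l A (isPGroup_of_le hB hτ.1) ⟨τ, hτ.2.2⟩ h.2
    exact exists_pow_mem_fixP_of_trivOn hB h.1 (fixP_anti inf_le_left hk)

theorem mem_chS {σ : Perm Ω} : ∀ (l : List (Subgroup Ω)) (B : Subgroup Ω) [Finite B],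
    HomOn σ B → Ch σ B l → σ ∈ chS B l
  | [], _, _, _, h => h
  | A :: l, B, _, hh, h => by
    have := finite_of_le h.1
    refine ⟨mem_trivOn.2 ⟨⟨hh, mem_setStab_of_finite fun x hx => ?_⟩, h.2.1⟩,
      mem_chS l A (hh.mono h.1) h.2.2⟩
    simpa using B.mul_mem hx (h.1 (h.2.1 x hx))

theorem Ch.congr {σ τ : Ω → Ω} : ∀ {l : List (Subgroup Ω)} {B : Subgroup Ω},
    Ch σ B l → (∀ x ∈ B, τ x = σ x) → Ch τ B l
  | [], _, h, e => fun x hx => (e x hx).trans (h x hx)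
  | _ :: _, _, h, e => ⟨h.1, fun x hx => by rw [e x hx]; exact h.2.1 x hx,
      h.2.2.congr fun x hx => e x (h.1 hx)⟩

theorem Ch.conj {σ φ : Perm Ω} : ∀ {l : List (Subgroup Ω)} {B : Subgroup Ω},
    Ch σ B l → HomOn φ B → (∀ A ∈ B :: l, φ ∈ setStab A) → Ch ⇑(φ * σ * φ⁻¹) B l
  | [], B, h, _, hs => fun x hx => by
      have := ((setStab B).inv_mem (hs B (by simp)) x).2 hx
      rw [Perm.mul_apply, Perm.mul_apply, h _ this, perm_apply_inv_self]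
  | A :: l, B, h, hh, hs => by
    refine ⟨h.1, fun x hx => ?_, h.2.2.conj (hh.mono h.1) fun C hC => hs C (List.mem_cons_of_mem _ hC)⟩
    have h1 := ((setStab B).inv_mem (hs B (by simp)) x).2 hx
    have h2 := h.2.1 _ h1
    have h3 := (hs A (by simp) _).2 h2
    have h4 : σ (φ⁻¹ x) ∈ B := by simpa using B.mul_mem h1 (h.1 h2)
    rw [hh (B.inv_mem h1) h4, hh.map_inv h1] at h3
    simpa using h3

theorem card_le_of_sep {β : Type*} [Finite β] {K H : Subgroup Ω} [Finite K] (ψ : Ω → β)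
    (h : ∀ x ∈ K, ∀ y ∈ K, ψ x = ψ y → x⁻¹ * y ∈ H) :
    Nat.card K ≤ Nat.card β * Nat.card (H.subgroupOf K) := by
  rw [Subgroup.card_eq_card_quotient_mul_card_subgroup (H.subgroupOf K)]
  refine Nat.mul_le_mul_right _ (Nat.card_le_card_of_injective (fun q => ψ (q.out : K)) ?_)
  intro q q' e
  rw [← q.out_eq, ← q'.out_eq]
  exact QuotientGroup.eq.2 (h _ q.out.2 _ q'.out.2 e)

theorem dep {β ι : Type*} [Finite β] [Finite ι] {K K' : Subgroup Ω} [Finite K] [Finite K']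
    (hc : Nat.card K ≤ Nat.card K') (ψ : Ω → β)
    (h : ∀ x ∈ K', ∀ y ∈ K', ψ x = ψ y → x⁻¹ * y ∈ K) (f : ι → Ω) (hf : ∀ i, f i ∈ K)
    (hι : Nat.card β < Nat.card ι) : ∃ i j, i ≠ j ∧ (f i)⁻¹ * f j ∈ K' := by
  have h1 := card_le_of_sep ψ h
  have h2 : Nat.card (K.subgroupOf K') = Nat.card (K'.subgroupOf K) := by
    rw [← Subgroup.inf_subgroupOf_right K K', ← Subgroup.inf_subgroupOf_right K' K,
      L.card_subgroupOf_of_le inf_le_right, L.card_subgroupOf_of_le inf_le_right, inf_comm]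
  have h3 := Subgroup.card_eq_card_quotient_mul_card_subgroup (K'.subgroupOf K)
  have h4 : Nat.card (K ⧸ K'.subgroupOf K) ≤ Nat.card β := by
    refine Nat.le_of_mul_le_mul_right (c := Nat.card (K'.subgroupOf K)) ?_ Nat.card_pos
    rw [← h3, ← h2]; exact hc.trans h1
  by_contra hne
  push Not at hne
  have := Nat.card_le_card_of_injective
    (fun i => (QuotientGroup.mk (⟨f i, hf i⟩ : K) : K ⧸ K'.subgroupOf K)) fun i j e => by
      by_contra hij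
      exact hne i j hij (QuotientGroup.eq (s := K'.subgroupOf K).1 e)
  omega

end Gen

variable {F : FusionSystem (⊤ : Subgroup Sy)} {E : Subgroup Sy} {Y : Subgroup (Perm Sy)}

theorem innS_of_ch (h : F.IsFullyAutomized 3 E) {l : List (Subgroup Sy)}
    (hI : ∀ g ∈ Subgroup.normalizer (E : Set Sy), Ch (cj g) E l) {σ : Perm Sy} (hσ : F.Iso E E σ)
    (h1 : Ch σ E l) : ∃ g ∈ Subgroup.normalizer (E : Set Sy), ∀ x ∈ E, σ x = g * x * g⁻¹ := by
  have := (h.le_innS (A := F.stab E ⊓ chS E l) (fun u hu => ?_) inf_le_left fun τ hτ =>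
    pow_of_chS l E (isP_Sy.to_subgroup _) ⟨_, h1⟩ hτ.2).le ⟨hσ.mem_stab, mem_chS l E hσ.homOn h1⟩
  · obtain ⟨g, -, b, c⟩ := mem_innS.1 this
    exact ⟨g, b, c⟩
  · obtain ⟨g, -, b, c⟩ := mem_innS.1 hu
    have hi := (mem_stab le_top).1 (F.innS_le_stab le_top hu)
    exact ⟨hi.mem_stab, mem_chS l E hi.homOn ((hI g b).congr c)⟩

/-- an essential subgroup with its strongly embedded subgroup -/
structure Es (F : FusionSystem (⊤ : Subgroup Sy)) (E : Subgroup Sy) (Y : Subgroup (Perm Sy)) :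
    Prop where
  sat : F.IsSaturated 3
  ess : F.IsEssential 3 E
  str : StrEmbMod 3 (innS E E) (F.stab E) Y
  le : innS ⊤ E ≤ Y

theorem exists_es (hF : F.IsSaturated 3) (h : F.IsEssential 3 E) : ∃ Y, Es F E Y := by
  obtain ⟨Y, h1, h2⟩ := h.exists_strEmb isP_top
  exact ⟨Y, hF, h, h1, h2⟩

namespace Es

theorem cen (h : Es F E Y) {g : Sy} (hg : ∀ x ∈ E, x * g = g * x) : g ∈ E :=
  h.ess.isCentric.centralizerIn_le ⟨trivial, fun x hx => hg x hx⟩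

theorem fa (h : Es F E Y) : F.IsFullyAutomized 3 E :=
  h.ess.isFullyNormalized.isFullyAutomized h.sat isP_top

theorem exists_out (h : Es F E Y) : ∃ φ, F.Iso E E φ ∧ φ ∉ Y := by
  by_contra hc
  push Not at hc
  exact h.str.ne (le_antisymm h.str.le fun σ hσ => hc σ ((mem_stab le_top).1 hσ))

theorem cj_mem (h : Es F E Y) {g : Sy} (hg : g ∈ Subgroup.normalizer (E : Set Sy)) : cj g ∈ Y :=
  h.le (cj_mem_innS trivial hg)

theorem cj_not (h : Es F E Y) {g : Sy} (hg : g ∉ E) : cj g ∉ innS E E := fun hc =>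
  hg (h.ess.isCentric.mem_of_cj_mem_innS trivial hc)

theorem pm (g : Sy) : ∃ k : ℕ, cj g ^ 3 ^ k ∈ innS E E := by
  obtain ⟨k, hk⟩ := isP_Sy g
  exact ⟨k, by rw [← map_pow, hk, map_one]; exact Subgroup.one_mem _⟩

theorem conj_not (h : Es F E Y) {g : Sy} (hn : g ∈ Subgroup.normalizer (E : Set Sy)) (hg : g ∉ E)
    {φ : Perm Sy} (hφ : F.Iso E E φ) (hY : φ ∉ Y) : φ * cj g * φ⁻¹ ∉ Y := fun hc =>
  hY (h.str.mem _ (h.cj_mem hn) (h.cj_not hg) (pm g) φ hφ.mem_stab hc)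

/-- The offender lemma. -/
theorem off (h : Es F E Y) {g g' : Sy} (hn : g ∈ Subgroup.normalizer (E : Set Sy)) (hg : g ∉ E)
    (hn' : g' ∈ Subgroup.normalizer (E : Set Sy)) (hg' : g' ∉ E)
    {φ : Perm Sy} (hφ : F.Iso E E φ) (hY : φ ∉ Y) (l : List (Subgroup Sy)) (h1 : Ch (cj g) E l)
    (h2 : Ch ⇑(φ * cj g' * φ⁻¹) E l) : False := by
  have i1 := F.iso_cj le_top trivial hn
  have i2 := hφ.conj (F.iso_cj le_top trivial hn')
  refine h.conj_not hn' hg' hφ hY (strEmb_le_of_mem h.str (F.finMod_innS le_top)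
    (U := F.stab E ⊓ chS E l) inf_le_left (fun σ hσ => ?_)
    ⟨i1.mem_stab, mem_chS l E i1.homOn h1⟩ (h.cj_mem hn) (h.cj_not hg)
    ⟨i2.mem_stab, mem_chS l E i2.homOn h2⟩)
  obtain ⟨k, hk⟩ := pow_of_chS l E (isP_Sy.to_subgroup _) ⟨_, h1⟩ hσ.2
  exact ⟨k, fixP_le_liftAut _ _ hk⟩

/-- The chain lemma. -/
theorem rad (h : Es F E Y) {g : Sy} (hn : g ∈ Subgroup.normalizer (E : Set Sy))
    (l : List (Subgroup Sy)) (h1 : Ch (cj g) E l)
    (hl : ∀ φ, F.Iso E E φ → ∀ A ∈ l, ∀ x ∈ A, φ x ∈ A) : g ∈ E := by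
  by_contra hg
  obtain ⟨φ, hφ, hY⟩ := h.exists_out
  refine h.off hn hg hn hg hφ hY l h1 (h1.conj hφ.homOn fun A hA => ?_)
  rcases List.mem_cons.1 hA with rfl | hA
  · exact hφ.mem_setStab
  · exact mem_setStab_of_finite (hl φ hφ A hA)

end Es
end Cfsg.Agent.Co
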