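import Cfsg.Agent.Co.B0

/-! Offender lemmas for `E ⊓ J` and its image `D` under `φ ∉ Y`. -/

set_option autoImplicit false
open Equiv
open scoped commutatorElement

namespace Cfsg.Agent.Co
open Cfsg.Fus Cfsg.FusionSystem

theorem mem_sup_norm {G : Type*} [Group G] {A B : Subgroup G}
    (h : A ≤ Subgroup.normalizer (B : Set G)) {x : G} (hx : x ∈ A ⊔ B) :
    ∃ a ∈ A, ∃ b ∈ B, x = a * b := by
  have : x ∈ ((A ⊔ B : Subgroup G) : Set G) := hx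
  rw [Subgroup.coe_mul_of_left_le_normalizer_right A B h] at this
  obtain ⟨a, ha, b, hb, e⟩ := this
  exact ⟨a, ha, b, hb, e.symm⟩

theorem J_comm {x y : Sy} (hx : x ∈ J) (hy : y ∈ J) : x * y = y * x := by
  simp only [mem_J] at hx hy; ext <;> simp [hx, hy] <;> ring

theorem h3 : (3 : K3) = 0 := rfl

theorem J_cube {x : Sy} (hx : x ∈ J) : x * x * x = 1 := by
  simp only [mem_J] at hx
  ext <;> simp [hx] <;> (rw [← two_mul, ← add_one_mul]; exact mul_eq_zero_of_left rfl _)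

theorem J_conj {x : Sy} (hx : x ∈ J) (g : Sy) : g * x * g⁻¹ ∈ J := by
  simp only [mem_J] at hx ⊢; simp [hx]

theorem J_conj' {x : Sy} (hx : x ∈ J) (g : Sy) : g⁻¹ * x * g ∈ J := by
  simpa using J_conj hx g⁻¹

/-- `y⁻¹ · x y x⁻¹` -/
def bt (x y : Sy) : Sy := y⁻¹ * (x * y * x⁻¹)

theorem bt_mem {x : Sy} (hx : x ∈ J) (y : Sy) : bt x y ∈ J := by
  have := J.mul_mem (J_conj' hx y) (J.inv_mem hx)
  simpa [bt, mul_assoc] using this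

theorem bt_eq {x : Sy} (hx : x ∈ J) (y : Sy) : bt x y =
    jv (-2 * y.a * x.q + y.a ^ 2 * x.r + 2 * (y.a * y.b - y.z) * x.s
        - 2 * y.a * (y.a * y.b - y.z) * x.t + (y.a * y.b - y.z) ^ 2 * x.u)
      (-y.a * x.r - y.b * x.s + (2 * y.a * y.b - y.z) * x.t - (y.a * y.b - y.z) * y.b * x.u)
      (-2 * y.b * x.t + y.b ^ 2 * x.u) (-y.a * x.t + (y.a * y.b - y.z) * x.u) (-y.b * x.u) 0 := by
  simp only [mem_J] at hx
  ext <;> simp [bt, hx] <;> ring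

theorem bt_mul_left {x x' : Sy} (hx : x ∈ J) (hx' : x' ∈ J) (y : Sy) :
    bt (x * x') y = bt x y * bt x' y := by
  rw [bt_eq hx, bt_eq hx', bt_eq (J.mul_mem hx hx')]
  simp only [mem_J] at hx hx'
  ext <;> simp [hx] <;> ring

theorem bt_inv_left {x : Sy} (hx : x ∈ J) (y : Sy) : bt x⁻¹ y = (bt x y)⁻¹ := by
  rw [bt_eq hx, bt_eq (J.inv_mem hx)]
  simp only [mem_J] at hx
  ext <;> simp [hx] <;> ring

theorem bt_J {x y : Sy} (hx : x ∈ J) (hy : y ∈ J) : bt x y = 1 := by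
  rw [bt, J_comm hx hy]; group

theorem mem_norm_of_bt {E : Subgroup Sy} {x : Sy} (h : ∀ e ∈ E, bt x e ∈ E) :
    x ∈ Subgroup.normalizer (E : Set Sy) :=
  mem_normalizer_of_finite fun e he => by simpa [bt] using E.mul_mem he (h e he)

theorem bt_of_norm {E : Subgroup Sy} {x e : Sy} (h : x ∈ Subgroup.normalizer (E : Set Sy))
    (he : e ∈ E) : bt x e ∈ E :=
  E.mul_mem (E.inv_mem he) (conj_mem_of_mem_normalizer h he)

variable {F : FusionSystem (⊤ : Subgroup Sy)} {E D : Subgroup Sy} {Y : Subgroup (Perm Sy)}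
  {φ : Perm Sy}

/-- `D = φ(E ⊓ J)` for `φ ∉ Y`. -/
structure Pr (F : FusionSystem (⊤ : Subgroup Sy)) (E : Subgroup Sy) (Y : Subgroup (Perm Sy))
    (φ : Perm Sy) (D : Subgroup Sy) : Prop extends Es F E Y where
  iso : F.Iso E E φ
  out : φ ∉ Y
  mem : ∀ y, y ∈ D ↔ φ⁻¹ y ∈ E ∧ φ⁻¹ y ∈ J

theorem Es.pr (h : Es F E Y) (hφ : F.Iso E E φ) (hY : φ ∉ Y) : Pr F E Y φ (img φ (E ⊓ J)) :=
  ⟨h, hφ, hY, fun _ => (hφ.homOn.mono inf_le_left).mem_img_perm⟩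

/-- the elements of `J` normalising `E` outside `E` -/
def Ao (E : Subgroup Sy) (x : Sy) : Prop := x ∈ J ∧ x ∈ Subgroup.normalizer (E : Set Sy) ∧ x ∉ E

namespace Pr

theorem dle (h : Pr F E Y φ D) : D ≤ E := fun y hy => (h.iso.inv_mem_iff y).1 ((h.mem y).1 hy).1

theorem hi (h : Pr F E Y φ D) : HomOn ⇑φ⁻¹ E := h.iso.symm.homOn

theorem app (h : Pr F E Y φ D) {m : Sy} (h1 : m ∈ E) (h2 : m ∈ J) : φ m ∈ D :=
  (h.mem _).2 (by simpa using ⟨h1, h2⟩)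

theorem comm (h : Pr F E Y φ D) {y y' : Sy} (hy : y ∈ D) (hy' : y' ∈ D) : y * y' = y' * y := by
  apply φ⁻¹.injective
  rw [h.hi (h.dle hy) (h.dle hy'), h.hi (h.dle hy') (h.dle hy),
    J_comm ((h.mem y).1 hy).2 ((h.mem y').1 hy').2]

theorem cube (h : Pr F E Y φ D) {y : Sy} (hy : y ∈ D) : y * y * y = 1 := by
  apply φ⁻¹.injective
  rw [h.hi (E.mul_mem (h.dle hy) (h.dle hy)) (h.dle hy), h.hi (h.dle hy) (h.dle hy), h.hi.map_one,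
    J_cube ((h.mem y).1 hy).2]

theorem conj (h : Pr F E Y φ D) {e y : Sy} (he : e ∈ E) (hy : y ∈ D) : e * y * e⁻¹ ∈ D := by
  rw [h.mem, h.hi.map_conj he (h.dle hy)]
  exact ⟨E.mul_mem (E.mul_mem (h.iso.inv_mem he) ((h.mem y).1 hy).1) (E.inv_mem (h.iso.inv_mem he)),
    J_conj ((h.mem y).1 hy).2 _⟩

theorem conj' (h : Pr F E Y φ D) {e y : Sy} (he : e ∈ E) (hy : y ∈ D) : e⁻¹ * y * e ∈ D := by
  simpa using h.conj (E.inv_mem he) hy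

theorem bt_E (h : Pr F E Y φ D) {e y : Sy} (he : e ∈ E) (hy : y ∈ D) : bt e y ∈ D :=
  D.mul_mem (D.inv_mem hy) (h.conj he hy)

theorem card (h : Pr F E Y φ D) : Nat.card ↥(E ⊓ J) ≤ Nat.card D :=
  (h.iso.isMap.mono inf_le_left).card_le fun _ hx => h.app hx.1 hx.2

/-- pigeonhole: `|E ⊓ J : D ⊓ J| = |D J / J|`. -/
theorem dp (h : Pr F E Y φ D) {β ι : Type} [Finite β] [Finite ι] (ψ : Sy → β)
    (hψ : ∀ x ∈ D, ∀ y ∈ D, ψ x = ψ y → x⁻¹ * y ∈ J) (f : ι → Sy) (hf : ∀ i, f i ∈ E ⊓ J)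
    (hι : Nat.card β < Nat.card ι) : ∃ i j, i ≠ j ∧ (f i)⁻¹ * f j ∈ D :=
  dep h.card ψ (fun x hx y hy e => ⟨E.mul_mem (E.inv_mem (h.dle hx)) (h.dle hy), hψ x hx y hy e⟩)
    f hf hι

theorem sfix (h : Pr F E Y φ D) {x y : Sy} (hx : x ∈ J) (hy : y ∈ D) :
    (φ * cj x * φ⁻¹) y = y := by
  rw [Perm.mul_apply, Perm.mul_apply, cj_apply, J_comm hx ((h.mem y).1 hy).2]; simp

theorem shom (h : Pr F E Y φ D) {x : Sy} (hx : Ao E x) : HomOn ⇑(φ * cj x * φ⁻¹) E :=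
  (h.iso.conj (F.iso_cj le_top trivial hx.2.1)).homOn

theorem sdiff (h : Pr F E Y φ D) {x e : Sy} (hx : Ao E x) (he : e ∈ E) :
    e⁻¹ * (φ * cj x * φ⁻¹) e ∈ D := by
  have h1 := h.iso.inv_mem he
  have h2 := h.app (bt_of_norm hx.2.1 h1) (bt_mem hx.1 _)
  rw [bt, h.iso.homOn (E.inv_mem h1) (conj_mem_of_mem_normalizer hx.2.1 h1),
    h.iso.homOn.map_inv h1] at h2
  simpa using h2

theorem offA (h : Pr F E Y φ D) {x x' : Sy} (hx : Ao E x) (hx' : Ao E x') {W D1 : Subgroup Sy}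
    (hW : W ≤ E ⊓ J) (hD1 : D1 ≤ D) (hD : D ⊓ J ≤ D1) (hb : ∀ y ∈ D, bt x y ∈ W)
    (hg : ∀ w ∈ W, w⁻¹ * (φ * cj x' * φ⁻¹) w ∈ D1) (hb1 : ∀ y ∈ D1, bt x y ∈ D) : False := by
  have nD : ∀ {V : Subgroup Sy}, V ≤ E → V ≤ Subgroup.normalizer (D : Set Sy) := fun hV v hv =>
    mem_normalizer_of_finite fun y hy => h.conj (hV hv) hy
  have nD1 : W ≤ Subgroup.normalizer (D1 : Set Sy) := fun w hw =>
    mem_norm_of_bt fun y hy => hD ⟨h.bt_E (hW hw).1 (hD1 hy), bt_mem (hW hw).2 _⟩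
  have e1 : ∀ w ∈ E ⊓ J, ∀ y, (w * y)⁻¹ * cj x (w * y) = bt x y := fun w hw y => by
    rw [cj_apply, bt, ← mul_assoc x, J_comm hx.1 hw.2]; group
  have e2 : ∀ w ∈ E ⊓ J, ∀ y ∈ D, (w * y)⁻¹ * (φ * cj x' * φ⁻¹) (w * y) =
      w⁻¹ * (φ * cj x' * φ⁻¹) w := fun w hw y hy => by
    rw [h.shom hx' hw.1 (h.dle hy), h.sfix hx'.1 hy, mul_inv_rev, mul_assoc, ← mul_assoc w⁻¹,
      h.comm (h.sdiff hx' hw.1) hy]; group
  refine h.off hx.2.1 hx.2.2 hx'.2.1 hx'.2.2 h.iso h.out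
    [E ⊓ J ⊔ D, W ⊔ D, W ⊔ D1, D1, D ⊓ J] ⟨sup_le inf_le_left h.dle, fun e he =>
      Subgroup.mem_sup_left ⟨bt_of_norm hx.2.1 he, bt_mem hx.1 e⟩, sup_le_sup_right hW _,
      fun v hv => ?_, sup_le_sup_left hD1 _, fun v hv => ?_, le_sup_right, fun v hv => ?_, hD,
      fun y hy => ⟨hb1 y hy, bt_mem hx.1 y⟩, fun y hy => ?_⟩
    ⟨sup_le inf_le_left h.dle, fun e he => Subgroup.mem_sup_right (h.sdiff hx' he),
      sup_le_sup_right hW _, fun v hv => Subgroup.mem_sup_right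
        (h.sdiff hx' (sup_le inf_le_left h.dle hv)), sup_le_sup_left hD1 _, fun v hv => ?_,
      le_sup_right, fun v hv => ?_, hD, fun y hy => ?_, fun y hy => h.sfix hx'.1 hy.1⟩
  · obtain ⟨w, hw, y, hy, rfl⟩ := mem_sup_norm (nD inf_le_left) hv
    rw [e1 w hw]; exact Subgroup.mem_sup_left (hb y hy)
  · obtain ⟨w, hw, y, hy, rfl⟩ := mem_sup_norm (nD (hW.trans inf_le_left)) hv
    rw [e1 w (hW hw)]; exact Subgroup.mem_sup_left (hb y hy)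
  · obtain ⟨w, hw, y, hy, rfl⟩ := mem_sup_norm nD1 hv
    rw [e1 w (hW hw)]; exact hD ⟨hb1 y hy, bt_mem hx.1 y⟩
  · rw [cj_apply, J_comm hx.1 hy.2]; simp
  · obtain ⟨w, hw, y, hy, rfl⟩ := mem_sup_norm (nD (hW.trans inf_le_left)) hv
    rw [e2 w (hW hw) y hy]; exact Subgroup.mem_sup_right (hg w hw)
  · obtain ⟨w, hw, y, hy, rfl⟩ := mem_sup_norm nD1 hv
    rw [e2 w (hW hw) y (hD1 hy)]; exact hg w hw
  · rw [h.sfix hx'.1 (hD1 hy)]; simp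

theorem off0 (h : Pr F E Y φ D) {x : Sy} (hx : Ao E x) (hb : ∀ y ∈ D, bt x y ∈ D) : False :=
  h.offA hx hx (W := D ⊓ J) (D1 := D) (inf_le_inf_right _ h.dle) le_rfl inf_le_left
    (fun y hy => ⟨hb y hy, bt_mem hx.1 y⟩) (fun w hw => h.sdiff hx (h.dle hw.1)) hb

/-- the subgroup `{x ∈ J | [x, y] ∈ D for y ∈ D with P y}` -/
def db (D : Subgroup Sy) (P : Sy → Prop) : Subgroup Sy where
  carrier := {x | x ∈ J ∧ ∀ y ∈ D, P y → bt x y ∈ D}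
  one_mem' := ⟨J.one_mem, fun y _ _ => by simp [bt]⟩
  mul_mem' := fun {x x'} hx hx' => ⟨J.mul_mem hx.1 hx'.1, fun y hy hp => by
    rw [bt_mul_left hx.1 hx'.1]; exact D.mul_mem (hx.2 y hy hp) (hx'.2 y hy hp)⟩
  inv_mem' := fun {x} hx => ⟨J.inv_mem hx.1, fun y hy hp => by
    rw [bt_inv_left hx.1]; exact D.inv_mem (hx.2 y hy hp)⟩

theorem db_le (h : Pr F E Y φ D) {P : Sy → Prop} (hP : ∀ e ∈ E, ∀ y, P y → P (e⁻¹ * y * e))
    (hf : ∀ x, Ao E x → (∀ y ∈ D, P y → bt x y ∈ D) → False) {x : Sy} (hx : x ∈ J)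
    (hb : ∀ y ∈ D, P y → bt x y ∈ D) : x ∈ E := by
  by_contra hne
  obtain ⟨g, hg, hn, hE⟩ := exists_mem_normalizer_of_not_le isP_top (P := E) (Q := db D P) le_top
    le_top (fun e he => mem_normalizer_of_finite fun x hx => ⟨J_conj hx.1 e, fun y hy hp => by
      have := h.conj he (hx.2 _ (h.conj' he hy) (hP e he y hp))
      rwa [show e * bt x (e⁻¹ * y * e) * e⁻¹ = bt (e * x * e⁻¹) y by simp only [bt]; group]
        at this⟩) (fun hle => hne (hle ⟨hx, hb⟩))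
  exact hf g ⟨hg.1, hn, hE⟩ hg.2

theorem mem0 (h : Pr F E Y φ D) {x : Sy} (hx : x ∈ J) (hb : ∀ y ∈ D, bt x y ∈ D) : x ∈ E :=
  h.db_le (P := fun _ => True) (fun _ _ _ _ => trivial)
    (fun x hx hb => h.off0 hx fun y hy => hb y hy trivial) hx fun y hy _ => hb y hy

/-- singular `β_x` and two independent offenders -/
theorem offB (h : Pr F E Y φ D) {x x1 x2 w1 : Sy} (hx : Ao E x) (hx1 : x1 ∈ J) (hx2 : x2 ∈ J)
    (n1 : x1 ∈ Subgroup.normalizer (E : Set Sy)) (n2 : x2 ∈ Subgroup.normalizer (E : Set Sy))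
    (o1 : x1 ∉ E) (o2 : x2 ∉ E) (o3 : x1 * x2 ∉ E) (o4 : x1 * x2⁻¹ ∉ E) (lam : Sy → K3)
    (hl : ∀ y ∈ D, ∀ y' ∈ D, lam (y * y') = lam y + lam y') (hJ : ∀ y ∈ J, lam y = 0)
    (hw : w1 ∈ E ⊓ J) (hb : ∀ y ∈ D, bt x y ∈ D ⊓ J ⊔ Subgroup.zpowers w1)
    (hb1 : ∀ y ∈ D, lam y = 0 → bt x y ∈ D) : False := by
  have l1 : lam 1 = 0 := hJ 1 J.one_mem
  have li : ∀ y ∈ D, lam y⁻¹ = -lam y := fun y hy => by
    have := hl y hy _ (D.inv_mem hy); rw [mul_inv_cancel, l1] at this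
    exact (neg_eq_of_add_eq_zero_right this.symm).symm
  let D1 : Subgroup Sy :=
    { carrier := {y | y ∈ D ∧ lam y = 0}
      one_mem' := ⟨D.one_mem, l1⟩
      mul_mem' := fun {a b} ha hb => ⟨D.mul_mem ha.1 hb.1, by rw [hl a ha.1 b hb.1, ha.2, hb.2]; rfl⟩
      inv_mem' := fun {a} ha => ⟨D.inv_mem ha.1, by rw [li a ha.1, ha.2]; rfl⟩ }
  have key : ∀ x', Ao E x' → lam (w1⁻¹ * (φ * cj x' * φ⁻¹) w1) ≠ 0 := fun x' hx' h0 => by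
    let W : Subgroup Sy :=
      { carrier := {w | w ∈ E ⊓ J ∧ w⁻¹ * (φ * cj x' * φ⁻¹) w ∈ D1}
        one_mem' := ⟨Subgroup.one_mem _, by rw [(h.shom hx').map_one]; simp⟩
        mul_mem' := fun {a b} ha hb => ⟨Subgroup.mul_mem _ ha.1 hb.1, by
          rw [h.shom hx' ha.1.1 hb.1.1]
          have := D1.mul_mem (D1.mul_mem ha.2 (⟨h.bt_E (E.inv_mem hb.1.1) ha.2.1,
            hJ _ (bt_mem (J.inv_mem hb.1.2) _)⟩ : _ ∈ D1)) hb.2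
          simpa [bt, mul_assoc] using this⟩
        inv_mem' := fun {a} ha => ⟨Subgroup.inv_mem _ ha.1, by
          rw [(h.shom hx').map_inv ha.1.1]
          have := D1.inv_mem (D1.mul_mem ha.2 (⟨h.bt_E ha.1.1 ha.2.1,
            hJ _ (bt_mem ha.1.2 _)⟩ : _ ∈ D1))
          simpa [bt, mul_assoc] using this⟩ }
    refine h.offA hx hx' (W := W) (D1 := D1) (fun w hw => hw.1) (fun y hy => hy.1)
      (fun y hy => ⟨hy.1, hJ y hy.2⟩) (fun y hy => (sup_le (fun v (hv : v ∈ D ⊓ J) =>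
        ⟨⟨h.dle hv.1, hv.2⟩, ?_⟩) (Subgroup.zpowers_le.2 ⟨hw, h.sdiff hx' hw.1, h0⟩) :
          D ⊓ J ⊔ Subgroup.zpowers w1 ≤ W) (hb y hy)) (fun w hw => hw.2)
      fun y hy => hb1 y hy.1 hy.2
    rw [h.sfix hx'.1 hv.1]; simpa using D1.one_mem
  have a1 : Ao E x1 := ⟨hx1, n1, o1⟩
  have add : ∀ x', Ao E x' → Ao E (x1 * x') → lam (w1⁻¹ * (φ * cj (x1 * x') * φ⁻¹) w1) =
      lam (w1⁻¹ * (φ * cj x1 * φ⁻¹) w1) + lam (w1⁻¹ * (φ * cj x' * φ⁻¹) w1) := fun x' hx' _ => by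
    have d := h.sdiff hx' hw.1
    have e : (φ * cj (x1 * x') * φ⁻¹) w1 =
        (φ * cj x1 * φ⁻¹) (w1 * (w1⁻¹ * (φ * cj x' * φ⁻¹) w1)) := by simp [mul_assoc]
    rw [e, h.shom a1 hw.1 (h.dle d), h.sfix hx1 d, ← mul_assoc, hl _ (h.sdiff a1 hw.1) _ d]
  have a2 : Ao E x2 := ⟨hx2, n2, o2⟩
  have a2' : Ao E x2⁻¹ := ⟨J.inv_mem hx2, Subgroup.inv_mem _ n2, fun e => o2 (by simpa using e)⟩
  have a3 : Ao E (x1 * x2) := ⟨J.mul_mem hx1 hx2, Subgroup.mul_mem _ n1 n2, o3⟩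
  have a4 : Ao E (x1 * x2⁻¹) := ⟨J.mul_mem hx1 a2'.1, Subgroup.mul_mem _ n1 a2'.2.1, o4⟩
  have inv : lam (w1⁻¹ * (φ * cj x2⁻¹ * φ⁻¹) w1) = -lam (w1⁻¹ * (φ * cj x2 * φ⁻¹) w1) := by
    have d := h.sdiff a2' hw.1
    have e : w1 = (φ * cj x2 * φ⁻¹) (w1 * (w1⁻¹ * (φ * cj x2⁻¹ * φ⁻¹) w1)) := by simp [mul_assoc]
    rw [h.shom a2 hw.1 (h.dle d), h.sfix hx2 d] at e
    have := hl _ (h.sdiff a2 hw.1) _ d
    rw [mul_assoc, ← e, inv_mul_cancel, l1] at this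
    exact (neg_eq_of_add_eq_zero_right this.symm).symm
  have k1 := key _ a1; have k2 := key _ a2; have k3 := key _ a3; have k4 := key _ a4
  rw [add _ a2 a3] at k3
  rw [add _ a2' a4, inv] at k4
  revert k1 k2 k3 k4
  generalize lam (w1⁻¹ * (φ * cj x1 * φ⁻¹) w1) = u
  generalize lam (w1⁻¹ * (φ * cj x2 * φ⁻¹) w1) = v
  revert u v; decide

end Pr
end Cfsg.Agent.Co
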