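import Cfsg.Agent.Co.B1

/-! Essential subgroups not containing `J`, part 1. -/

set_option autoImplicit false
set_option linter.unusedSimpArgs false
open Equiv
open scoped commutatorElement

namespace Cfsg.Agent.Co
open Cfsg.Fus Cfsg.FusionSystem

theorem k3 (k : K3) : k = 0 ∨ k = 1 ∨ k = -1 := by revert k; decide

instance instDecJ (x : Sy) : Decidable (x ∈ J) := decidable_of_iff _ mem_J.symm

/-- scalar multiple in `J` -/
def sm (k : K3) (x : Sy) : Sy := jv (k * x.p) (k * x.q) (k * x.r) (k * x.s) (k * x.t) (k * x.u)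

theorem sm_J (k : K3) (x : Sy) : sm k x ∈ J := ⟨rfl, rfl, rfl⟩

theorem sm_mem {H : Subgroup Sy} {x : Sy} (hJ : x ∈ J) (hx : x ∈ H) (k : K3) : sm k x ∈ H := by
  simp only [mem_J] at hJ
  rcases k3 k with rfl | rfl | rfl
  · exact (show sm 0 x = 1 by ext <;> simp [sm]) ▸ H.one_mem
  · exact (show sm 1 x = x by ext <;> simp [sm, hJ]).symm ▸ hx
  · exact (show sm (-1) x = x⁻¹ by ext <;> simp [sm, hJ]).symm ▸ H.inv_mem hx

theorem of_sm {H : Subgroup Sy} {x : Sy} (hJ : x ∈ J) {k : K3} (hk : k ≠ 0) (hx : sm k x ∈ H) :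
    x ∈ H := by
  have e : k * k = 1 := by clear hx; revert k; decide
  have := sm_mem (sm_J k x) hx k
  simp only [mem_J] at hJ
  rwa [show sm k (sm k x) = x by ext <;> simp [sm, hJ, ← mul_assoc, e]] at this

theorem bt_sm {x : Sy} (hx : x ∈ J) (k : K3) (y : Sy) : bt (sm k x) y = sm k (bt x y) := by
  rw [bt_eq hx, bt_eq (sm_J k x)]; ext <;> simp [sm] <;> ring

theorem bt_congr {x y y' : Sy} (hx : x ∈ J) (h : y⁻¹ * y' ∈ J) : bt x y' = bt x y := by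
  have : y' = y * (y⁻¹ * y') := by group
  rw [this, bt_eq hx, bt_eq hx]; simp only [mem_J] at h
  obtain ⟨h1, h2, h3⟩ := h
  generalize y⁻¹ * y' = w at *
  simp [h1, h2, h3]

theorem jv_mem {H : Subgroup Sy} (p q r s t u : K3) (h1 : p = 0 ∨ gp ∈ H) (h2 : q = 0 ∨ gq ∈ H)
    (h3 : r = 0 ∨ gr ∈ H) (h4 : s = 0 ∨ gs ∈ H) (h5 : t = 0 ∨ gt ∈ H) (h6 : u = 0 ∨ gu ∈ H) :
    jv p q r s t u ∈ H := by
  have key : ∀ (k : K3) (g : Sy), g ∈ J → (k = 0 ∨ g ∈ H) → sm k g ∈ H := fun k g hg h => by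
    rcases h with rfl | h
    · exact (show sm 0 g = 1 by ext <;> simp [sm]) ▸ H.one_mem
    · exact sm_mem hg h k
  have := H.mul_mem (H.mul_mem (H.mul_mem (H.mul_mem (H.mul_mem (key p gp (by decide) h1)
    (key q gq (by decide) h2)) (key r gr (by decide) h3)) (key s gs (by decide) h4))
    (key t gt (by decide) h5)) (key u gu (by decide) h6)
  convert this using 1
  ext <;> simp [sm, gp, gq, gr, gs, gt, gu]

theorem eq_jv {x : Sy} (hx : x ∈ J) : x = jv x.p x.q x.r x.s x.t x.u := by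
  simp only [mem_J] at hx; ext <;> simp [hx]

theorem pw {H : Subgroup Sy} {y : Sy} (hy : y ∈ H) (k : K3) :
    ∃ h ∈ H, h.a = k * y.a ∧ h.b = k * y.b := by
  rcases k3 k with rfl | rfl | rfl
  exacts [⟨1, H.one_mem, by simp⟩, ⟨y, hy, by simp⟩, ⟨y⁻¹, H.inv_mem hy, by simp⟩]

theorem pwz {H : Subgroup Sy} {d : Sy} (hd : d ∈ H) (h : d.a = 0 ∧ d.b = 0 ∧ d.z ≠ 0) (k : K3) :
    ∃ e ∈ H, e.a = 0 ∧ e.b = 0 ∧ e.z = k := by
  have : k = 0 ∨ k = d.z ∨ k = -d.z := by have := h.2.2; revert this; generalize d.z = z; revert k z; decide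
  rcases this with rfl | rfl | rfl
  exacts [⟨1, H.one_mem, by simp⟩, ⟨d, hd, by simp [h]⟩, ⟨d⁻¹, H.inv_mem hd, by simp [h]⟩]

/-- adjust the `z`-coordinate -/
theorem adj {H : Subgroup Sy} {d y : Sy} (hd : d ∈ H) (h : d.a = 0 ∧ d.b = 0 ∧ d.z ≠ 0)
    (hy : y ∈ H) (k : K3) : ∃ e ∈ H, e.a = y.a ∧ e.b = y.b ∧ e.z = k := by
  obtain ⟨e, he, h1, h2, h3⟩ := pwz hd h (k - y.z)
  exact ⟨y * e, H.mul_mem hy he, by simp [h1, h2, h3]⟩

theorem modJ {x h : Sy} (h1 : h.a = x.a) (h2 : h.b = x.b) (h3 : h.z = x.z) : h⁻¹ * x ∈ J := by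
  simp [h1, h2, h3]

variable {F : FusionSystem (⊤ : Subgroup Sy)} {E D : Subgroup Sy} {Y : Subgroup (Perm Sy)}
  {φ : Perm Sy}

namespace Pr

theorem btD (h : Pr F E Y φ D) {w e : Sy} (hw : w ∈ D) (he : e ∈ E) : bt w e ∈ D := by
  have := D.mul_mem (h.conj' he hw) (D.inv_mem hw)
  simpa [bt, mul_assoc] using this

theorem bt1 (h : Pr F E Y φ D) {w y : Sy} (hw : w ∈ D) (hy : y ∈ D) : bt w y = 1 := by
  rw [bt, h.comm hw hy]; group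

theorem dep2 (h : Pr F E Y φ D) (ψ : Sy → K3) (hψ : ∀ x ∈ D, ∀ y ∈ D, ψ x = ψ y → x⁻¹ * y ∈ J)
    {m n : Sy} (hm : m ∈ E ⊓ J) (hn : n ∈ E ⊓ J) :
    ∃ i j : K3, ¬ (i = 0 ∧ j = 0) ∧ sm i m * sm j n ∈ D := by
  obtain ⟨u, v, hne, hd⟩ := h.dp ψ hψ (fun u : K3 × K3 => sm u.1 m * sm u.2 n)
    (fun u => Subgroup.mul_mem _ (sm_mem hm.2 hm _) (sm_mem hn.2 hn _)) (by simp)
  refine ⟨v.1 - u.1, v.2 - u.2, fun e => hne (Prod.ext (sub_eq_zero.1 e.1).symm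
    (sub_eq_zero.1 e.2).symm), ?_⟩
  convert hd using 1
  ext <;> simp [sm] <;> ring

theorem dep3 (h : Pr F E Y φ D) (ψ : Sy → K3 × K3)
    (hψ : ∀ x ∈ D, ∀ y ∈ D, ψ x = ψ y → x⁻¹ * y ∈ J)
    {m n o : Sy} (hm : m ∈ E ⊓ J) (hn : n ∈ E ⊓ J) (ho : o ∈ E ⊓ J) :
    ∃ i j k : K3, ¬ (i = 0 ∧ j = 0 ∧ k = 0) ∧ sm i m * sm j n * sm k o ∈ D := by
  obtain ⟨u, v, hne, hd⟩ := h.dp ψ hψ
    (fun u : K3 × K3 × K3 => sm u.1 m * sm u.2.1 n * sm u.2.2 o)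
    (fun u => Subgroup.mul_mem _ (Subgroup.mul_mem _ (sm_mem hm.2 hm _) (sm_mem hn.2 hn _))
      (sm_mem ho.2 ho _)) (by simp)
  refine ⟨v.1 - u.1, v.2.1 - u.2.1, v.2.2 - u.2.2, fun e => hne (Prod.ext (sub_eq_zero.1 e.1).symm
    (Prod.ext (sub_eq_zero.1 e.2.1).symm (sub_eq_zero.1 e.2.2).symm)), ?_⟩
  convert hd using 1
  ext <;> simp [sm] <;> ring

theorem cab (h : Pr F E Y φ D) {y y' : Sy} (hy : y ∈ D) (hy' : y' ∈ D) :
    y.a * y'.b = y'.a * y.b := by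
  have := congrArg Sy.z (h.comm hy hy'); simp at this; linear_combination this

theorem sep2 (h : Pr F E Y φ D) {y1 : Sy} (h1 : y1 ∈ D) (hne : ¬ (y1.a = 0 ∧ y1.b = 0)) :
    ∀ x ∈ D, ∀ y ∈ D, (x.a * y1.a + x.b * y1.b, x.z) = (y.a * y1.a + y.b * y1.b, y.z) →
      x⁻¹ * y ∈ J := fun x hx y hy e => by
  have c1 := h.cab hx h1; have c2 := h.cab hy h1
  obtain ⟨e1, e2⟩ := Prod.mk.inj e
  have : x.a = y.a ∧ x.b = y.b := by
    revert hne c1 c2 e1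
    generalize x.a = a, x.b = b, y.a = a', y.b = b', y1.a = c, y1.b = d
    revert a b a' b' c d; decide +kernel
  exact modJ this.1 this.2 e2

theorem ww : ∀ a b z : K3, ¬ (a = 0 ∧ b = 0 ∧ z = 0) →
    ∃ w1 ∈ [gq, gs, gt], ∃ w2 ∈ [gq, gs, jv 0 0 0 0 1 1, jv 0 0 0 0 1 2, jv 0 0 0 1 1 0,
      jv 0 0 0 1 2 0], w1 ∈ J ∧ w2 ∈ J ∧
      bt (bt w1 ⟨0, 0, 0, 0, 0, 0, a, b, z⟩) ⟨0, 0, 0, 0, 0, 0, a, b, z⟩ = 1 ∧
      bt (bt w2 ⟨0, 0, 0, 0, 0, 0, a, b, z⟩) ⟨0, 0, 0, 0, 0, 0, a, b, z⟩ = 1 ∧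
      ∀ i j : K3, sm i (bt w1 ⟨0, 0, 0, 0, 0, 0, a, b, z⟩) *
        sm j (bt w2 ⟨0, 0, 0, 0, 0, 0, a, b, z⟩) = 1 → i = 0 ∧ j = 0 := by
  decide +kernel

/-- `D J / J` is not cyclic. -/
theorem not_cyc (h : Pr F E Y φ D) (hJ : ¬ J ≤ E) {t : Sy} (ht : t ∈ D) (ψ : Sy → K3)
    (hψ : ∀ x ∈ D, ∀ y ∈ D, ψ x = ψ y → x⁻¹ * y ∈ J)
    (hB : ∀ y ∈ D, y ∈ J ∨ t⁻¹ * y ∈ J ∨ t * y ∈ J) : False := by
  have m1 : ∀ x ∈ J, bt x t ∈ D → x ∈ E := fun x hx hb => h.mem0 hx fun y hy => by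
    rcases hB y hy with e | e | e
    · rw [bt_J hx e]; exact D.one_mem
    · rwa [bt_congr hx e]
    · rw [bt_congr (y := t⁻¹) hx (by simpa using e)]
      have := D.inv_mem (h.conj (h.dle ht) hb)
      rwa [show (t * bt x t * t⁻¹)⁻¹ = bt x t⁻¹ by
        rw [bt_eq hx, bt_eq hx]; ext <;> simp <;> ring] at this
  by_cases htJ : t ∈ J
  · exact hJ fun x hx => m1 x hx (by rw [bt_J hx htJ]; exact D.one_mem)
  obtain ⟨w1, -, w2, -, j1, j2, e1, e2, ind⟩ := ww t.a t.b t.z htJ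
  have tt : ∀ x ∈ J, bt x ⟨0, 0, 0, 0, 0, 0, t.a, t.b, t.z⟩ = bt x t := fun x hx =>
    bt_congr hx (modJ rfl rfl rfl)
  rw [tt _ j1, tt _ (bt_mem j1 _)] at e1
  rw [tt _ j2, tt _ (bt_mem j2 _)] at e2
  simp only [tt _ j1, tt _ j2] at ind
  have b1 := bt_mem j1 t; have b2 := bt_mem j2 t
  have lin : ∀ {x x' : Sy}, x ∈ J → x' ∈ J → ∀ i j, bt (sm i x * sm j x') t =
      sm i (bt x t) * sm j (bt x' t) := fun hx hx' i j => by
    rw [bt_mul_left (sm_J _ _) (sm_J _ _), bt_sm hx, bt_sm hx']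
  have v1 : bt w1 t ∈ E ⊓ J := ⟨m1 _ b1 (e1 ▸ D.one_mem), b1⟩
  have v2 : bt w2 t ∈ E ⊓ J := ⟨m1 _ b2 (e2 ▸ D.one_mem), b2⟩
  obtain ⟨i, j, hij, hd⟩ := h.dep2 ψ hψ v1 v2
  have jw := J.mul_mem (sm_J i w1) (sm_J j w2)
  have w : sm i w1 * sm j w2 ∈ E ⊓ J := ⟨m1 _ jw (by rwa [lin j1 j2]), jw⟩
  have vD : ∀ v ∈ E ⊓ J, bt v t = 1 → v ∈ D := fun v hv e => by
    obtain ⟨i', j', hij', hd'⟩ := h.dep2 ψ hψ w hv
    have := h.bt1 hd' ht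
    rw [lin jw hv.2, lin j1 j2, e] at this
    have i0 : i' = 0 := by
      by_contra i0
      refine hij (by
        have := ind (i' * i) (i' * j) (by rw [← this]; ext <;> simp [sm] <;> ring)
        simpa [i0] using this)
    subst i0
    refine of_sm hv.2 (fun e => hij' ⟨rfl, e⟩) ?_
    convert hd' using 1
    ext <;> simp [sm]
  obtain ⟨i', j', hij', hd'⟩ := h.dep2 ψ hψ (m := w1) (n := w2) ⟨m1 _ j1 (vD _ v1 e1), j1⟩
    ⟨m1 _ j2 (vD _ v2 e2), j2⟩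
  exact hij' (ind _ _ (by rw [← lin j1 j2]; exact h.bt1 hd' ht))

theorem memZ (h : Pr F E Y φ D) {e y1 : Sy} (he : e ∈ E) (h1 : y1 ∈ D)
    (hne : e.a * y1.b ≠ e.b * y1.a) {x : Sy} (hx : x ∈ J)
    (hb : ∀ y ∈ D, (y.a = 0 ∧ y.b = 0) → bt x y ∈ D) : x ∈ E := by
  refine h.db_le (P := fun y => y.a = 0 ∧ y.b = 0) (fun e _ y hy => by simp [hy]) ?_ hx hb
  intro x hx hb
  let W : Subgroup Sy :=
    { carrier := {w | w ∈ E ⊓ J ∧ bt w e ∈ D}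
      one_mem' := ⟨Subgroup.one_mem _, by simp [bt]⟩
      mul_mem' := fun {a b} ha hb => ⟨Subgroup.mul_mem _ ha.1 hb.1, by
        rw [bt_mul_left ha.1.2 hb.1.2]; exact D.mul_mem ha.2 hb.2⟩
      inv_mem' := fun {a} ha => ⟨Subgroup.inv_mem _ ha.1, by
        rw [bt_inv_left ha.1.2]; exact D.inv_mem ha.2⟩ }
  refine h.offA hx hx (W := W) (D1 := D ⊓ JZ) (fun w hw => hw.1) inf_le_left
    (fun y hy => ⟨hy.1, hy.2.1, hy.2.2.1⟩) (fun y hy => ⟨⟨bt_of_norm hx.2.1 (h.dle hy),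
      bt_mem hx.1 y⟩, ?_⟩) (fun w hw => ?_) fun y hy => hb y hy.1 hy.2
  · have d : y * e * y⁻¹ * e⁻¹ ∈ D := by
      simpa [mul_assoc] using D.mul_mem hy (h.conj he (D.inv_mem hy))
    have := D.mul_mem (h.bt_E (bt_of_norm hx.2.1 he) hy)
      (h.conj' (E.mul_mem he (h.dle hy)) (hb _ d (by simp)))
    convert this using 1
    have j1 := bt_mem hx.1 y; have j2 := bt_mem hx.1 e
    rw [bt_eq j1, bt_eq j2, bt_eq hx.1, bt_eq hx.1, bt_eq hx.1]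
    ext <;> simp <;> ring
  · have g := h.sdiff hx hw.1.1
    have d := h.sdiff hx he
    have s := h.sfix hx.1 hw.2
    have hh := h.shom hx
    rw [bt, hh (E.inv_mem he) (E.mul_mem (E.mul_mem hw.1.1 he) (E.inv_mem hw.1.1)),
      hh.map_conj hw.1.1 he, hh.map_inv he] at s
    have c1 := h.cab g d; have c2 := h.cab g h1
    have j : w ∈ J := hw.1.2
    have s' := congrArg Sy.z s
    refine ⟨g, ?_⟩
    show _ ∈ JZ
    revert c1 c2 s'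
    generalize (φ * cj x * φ⁻¹) w = w', (φ * cj x * φ⁻¹) e = e'
    rw [mem_J] at j
    simp only [mul_a, mul_b, mul_z, inv_a, inv_b, inv_z, j, mem_JZ]
    intro c1 c2 s'
    have s2 : e.a * w'.b = e.b * w'.a := by linear_combination c1 - s'
    simp only [neg_zero, zero_add] at c2 ⊢
    revert hne c2 s2
    generalize e.a = a, e.b = b, w'.a = a', w'.b = b', y1.a = c, y1.b = d
    revert a b a' b' c d; decide +kernel

end Pr
end Cfsg.Agent.Co
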