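import Cfsg.Agent.Co.B2

/-! Essential subgroups not containing `J`, part 2. -/

set_option autoImplicit false
set_option linter.unusedSimpArgs false
open Equiv
open scoped commutatorElement

namespace Cfsg.Agent.Co
open Cfsg.Fus Cfsg.FusionSystem

theorem J_le {H : Subgroup Sy} (h1 : gp ∈ H) (h2 : gq ∈ H) (h3 : gr ∈ H) (h4 : gs ∈ H)
    (h5 : gt ∈ H) (h6 : gu ∈ H) : J ≤ H := fun x hx => by
  rw [eq_jv hx]; exact jv_mem _ _ _ _ _ _ (.inr h1) (.inr h2) (.inr h3) (.inr h4) (.inr h5) (.inr h6)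

theorem H0_le {H : Subgroup Sy} (h1 : gp ∈ H) (h2 : gq ∈ H) (h3 : gr ∈ H) (h4 : gs ∈ H)
    (h5 : gt ∈ H) {x : Sy} (hx : x ∈ J) (hu : x.u = 0) : x ∈ H := by
  rw [eq_jv hx]; exact jv_mem _ _ _ _ _ _ (.inr h1) (.inr h2) (.inr h3) (.inr h4) (.inr h5) (.inl hu)

theorem span2 {H : Subgroup Sy} {e y : Sy} (he : e ∈ H) (hy : y ∈ H)
    (hne : e.a * y.b ≠ e.b * y.a) (i j : K3) : ∃ h ∈ H, h.a = i ∧ h.b = j := by
  obtain ⟨k, l, h1, h2⟩ : ∃ k l : K3, k * e.a + l * y.a = i ∧ k * e.b + l * y.b = j := by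
    revert hne; generalize e.a = a, e.b = b, y.a = c, y.b = d
    revert a b c d i j; decide +kernel
  obtain ⟨u, hu, u1, u2⟩ := pw he k
  obtain ⟨v, hv, v1, v2⟩ := pw hy l
  exact ⟨u * v, H.mul_mem hu hv, by simp [u1, v1, h1], by simp [u2, v2, h2]⟩

theorem mem_of_eq {H : Subgroup Sy} {x y : Sy} (h : y ∈ H) (e : x = y) : x ∈ H := e ▸ h

variable {F : FusionSystem (⊤ : Subgroup Sy)} {E D : Subgroup Sy} {Y : Subgroup (Perm Sy)}
  {φ : Perm Sy}

namespace Pr

theorem caseN (h : Pr F E Y φ D) {e y1 : Sy} (he : e ∈ E) (h1 : y1 ∈ D)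
    (hne : e.a * y1.b ≠ e.b * y1.a) : E = E3 := by
  have hy : ¬ (y1.a = 0 ∧ y1.b = 0) := fun c => hne (by simp [c])
  have hd := h.bt_E he h1
  have hd' : (bt e y1).a = 0 ∧ (bt e y1).b = 0 ∧ (bt e y1).z ≠ 0 :=
    ⟨by simp [bt], by simp [bt], fun c => hne (by simp [bt] at c; linear_combination c)⟩
  have all : ∀ i j k, ∃ g ∈ E, g.a = i ∧ g.b = j ∧ g.z = k := fun i j k => by
    obtain ⟨g, hg, g1, g2⟩ := span2 he (h.dle h1) hne i j
    obtain ⟨g', hg', g3, g4, g5⟩ := adj (h.dle hd) hd' hg k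
    exact ⟨g', hg', g3.trans g1, g4.trans g2, g5⟩
  obtain ⟨ea, ha, a1, a2, a3⟩ := all 1 0 0
  obtain ⟨eb, hb, b1, b2, b3⟩ := all 0 1 0
  obtain ⟨d, hdD, d1, d2, d3⟩ := pwz hd hd' 1
  have mz := fun x hx => h.memZ he h1 hne (x := x) hx
  have one : ∀ x ∈ CC, x ∈ E ⊓ J := fun x hx => by
    have j : x ∈ J := hx.2.2.2
    refine ⟨mz x j fun y _ hy => mem_of_eq D.one_mem ?_, j⟩
    rw [bt_eq j]; rw [mem_CC] at hx; ext <;> simp [hx, hy]
  have P : gp ∈ D := by
    obtain ⟨i, j, k, hn, w⟩ := h.dep3 _ (h.sep2 h1 hy) (one gp (by simp [gp])) (one gq (by simp [gq]))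
      (one gr (by simp [gr]))
    have w1 := h.btD w ha
    have w2 := h.btD w1 ha
    have jw : sm i gp * sm j gq * sm k gr ∈ J := by simp [sm]
    rw [bt_eq (bt_mem jw _), bt_eq jw] at w2; rw [bt_eq jw] at w1
    by_cases k0 : k = 0
    · by_cases j0 : j = 0
      · exact of_sm (by decide) (fun e => hn ⟨e, j0, k0⟩)
          (mem_of_eq w (by ext <;> simp [sm, gp, gq, gr, j0, k0]))
      · exact of_sm (k := -2 * j) (by decide) (by revert j0; generalize j = j; revert j; decide)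
          (mem_of_eq w1 (by ext <;> simp [sm, gp, gq, gr, k0, a1, a2, a3]))
    · exact of_sm (k := 2 * k) (by decide) (by revert k0; generalize k = k; revert k; decide)
        (mem_of_eq w2 (by ext <;> simp [sm, gp, gq, gr, a1, a2, a3]))
  have S : gs ∈ E := mz _ (by decide) fun y _ hy => mem_of_eq (sm_mem (by decide) P (-2 * y.z)) (by
    rw [bt_eq (by decide)]; ext <;> simp [sm, gp, gs, hy])
  have Q : gq ∈ D := by
    obtain ⟨i, j, k, hn, w⟩ := h.dep3 _ (h.sep2 h1 hy) (one gq (by simp [gq])) (one gr (by simp [gr]))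
      ⟨S, show gs ∈ J by decide⟩
    have w1 := h.btD w ha
    have w2 := h.btD w hb
    have jw : sm i gq * sm j gr * sm k gs ∈ J := by simp [sm]
    rw [bt_eq jw] at w1 w2
    by_cases k0 : k = 0
    · by_cases j0 : j = 0
      · exact of_sm (by decide) (fun e => hn ⟨e, j0, k0⟩)
          (mem_of_eq w (by ext <;> simp [sm, gs, gq, gr, j0, k0]))
      · exact of_sm (k := -j) (by decide) (by simpa using j0)
          (mem_of_eq (D.mul_mem w1 (sm_mem (by decide) P (2 * i - j)))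
            (by ext <;> simp [sm, gp, gq, gr, gs, k0, a1, a2, a3]))
    · exact of_sm (k := -k) (by decide) (by simpa using k0)
        (mem_of_eq w2 (by ext <;> simp [sm, gs, gq, gr, b1, b2, b3]))
  have T : gt ∈ E := mz _ (by decide) fun y _ hy => mem_of_eq (sm_mem (by decide) Q (-y.z)) (by
    rw [bt_eq (by decide)]; ext <;> simp [sm, gq, gt, hy])
  have ya : y1.a = 0 := by
    have := congrArg Sy.p (h.comm Q h1); simp [gq] at this
    revert this; generalize y1.a = a; revert a; decide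
  have yb : y1.b ≠ 0 := fun c => hy ⟨ya, c⟩
  have c := h.comm h1 hdD
  have du : d.u = 0 := by
    have := congrArg Sy.t c; simp [d1, d2, d3, ya] at this
    exact (mul_eq_zero.1 (by linear_combination this)).resolve_left yb
  have dt : d.t = 0 := by
    have := congrArg Sy.r c; simp [d1, d2, d3, ya, du] at this
    have e : y1.b * d.t = 0 := by linear_combination 2 * this - y1.b * d.t * h3
    exact (mul_eq_zero.1 e).resolve_left yb
  refine le_antisymm (fun g hg => ?_) fun x hx => ?_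
  · have := congrArg Sy.p (h.comm (h.bt_E hg hdD) hdD)
    simp [bt, d1, d2, d3, du, dt] at this
    rw [mem_E3]; linear_combination 2 * this - g.u * h3
  · obtain ⟨g, hg, g1, g2, g3⟩ := all x.a x.b x.z
    have gu0 : g.u = 0 := by
      have := congrArg Sy.p (h.comm (h.bt_E hg hdD) hdD)
      simp [bt, d1, d2, d3, du, dt] at this
      linear_combination 2 * this - g.u * h3
    have := E.mul_mem hg (H0_le (one gp (by simp [gp])).1 (one gq (by simp [gq])).1
      (one gr (by simp [gr])).1 S T (modJ g1 g2 g3) (by simpa [gu0] using hx))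
    simpa using this

/-- all of `E` lies in `⟨y1, d⟩ J`. -/
theorem normC {y1 d : Sy} (h1 : y1 ∈ D) (hd : d ∈ D)
    (hd' : d.a = 0 ∧ d.b = 0 ∧ d.z = 1) (hy : ¬ (y1.a = 0 ∧ y1.b = 0))
    (hc : ∀ e ∈ E, e.a * y1.b = e.b * y1.a) {e : Sy} (he : e ∈ E) :
    ∃ g ∈ D, g⁻¹ * e ∈ J := by
  obtain ⟨k, k1, k2⟩ : ∃ k : K3, k * y1.a = e.a ∧ k * y1.b = e.b := by
    have := hc e he
    revert this hy; generalize e.a = a, e.b = b, y1.a = c, y1.b = d
    revert a b c d; decide +kernel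
  obtain ⟨u, hu, u1, u2⟩ := pw h1 k
  obtain ⟨g, hg, g1, g2, g3⟩ := adj hd ⟨hd'.1, hd'.2.1, by rw [hd'.2.2]; decide⟩ hu e.z
  exact ⟨g, hg, modJ (by rw [g1, u1, k1]) (by rw [g2, u2, k2]) g3⟩

@[simp] theorem _root_.Cfsg.Agent.Co.two_ne : (2 : K3) ≠ 0 := by decide

theorem caseA (h : Pr F E Y φ D) {y1 d : Sy} (h1 : y1 ∈ D) (hd : d ∈ D)
    (hd' : d.a = 0 ∧ d.b = 0 ∧ d.z = 1) (ya : y1.a = 1) (yz : y1.z = 0)
    (hc : ∀ e ∈ E, e.a * y1.b = e.b * y1.a) : False := by
  obtain ⟨d1, d2, d3⟩ := hd'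
  have hb : ∀ e ∈ E, e.b = e.a * y1.b := fun e he => by rw [hc e he, ya, mul_one]
  have cl : ∀ w ∈ J, bt w y1 = 1 → bt w d = 1 → w ∈ ZL := fun w hw e1 e2 => by
    rw [bt_eq hw] at e1 e2
    have u := congrArg Sy.s e2; have t := congrArg Sy.q e2; have s := congrArg Sy.p e2
    have r := congrArg Sy.q e1; have q := congrArg Sy.p e1
    simp [d1, d2, d3] at u
    simp [d1, d2, d3, u] at t
    simp [d1, d2, d3, u, t] at s
    simp [ya, yz, u, t, s] at r
    simp [ya, yz, u, t, s, r] at q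
    rw [mem_J] at hw; simp [hw, u, t, s, r, q]
  have dl : ∀ w ∈ D, w ∈ J → w ∈ ZL := fun w hw j => cl w j (h.bt1 hw h1) (h.bt1 hw hd)
  have P : gp ∈ D := by
    by_contra hP
    have triv : ∀ w ∈ D, w ∈ J → w = 1 := fun w hw j => by
      have := dl w hw j
      rw [mem_ZL] at this
      by_contra hne
      exact hP (of_sm (k := w.p) (by decide) (fun e => hne (by ext <;> simp [this, e]))
        (mem_of_eq hw (by ext <;> simp [sm, gp, this])))
    have z : ∀ y ∈ D, φ⁻¹ y ∈ ZL := fun y hy => by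
      obtain ⟨m1, m2⟩ := (h.mem y).1 hy
      exact cl _ m2 (triv _ (h.bt_E m1 h1) (bt_mem m2 _)) (triv _ (h.bt_E m1 hd) (bt_mem m2 _))
    have z1 := z _ h1; have z2 := z _ hd
    rw [mem_ZL] at z1 z2
    have : φ⁻¹ d = 1 ∨ φ⁻¹ y1 = 1 ∨ φ⁻¹ d = φ⁻¹ y1 ∨ φ⁻¹ d = (φ⁻¹ y1)⁻¹ := by
      have : ∀ a b : K3, a = 0 ∨ b = 0 ∨ a = b ∨ a = -b := by decide
      rcases this (φ⁻¹ d).p (φ⁻¹ y1).p with e | e | e | e
      · left; ext <;> simp only [e, z2] <;> rfl
      · right; left; ext <;> simp only [e, z1] <;> rfl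
      · right; right; left; ext <;> simp only [e, z1, z2]
      · right; right; right; ext <;> simp only [e, z1, z2, inv_p, inv_q, inv_r, inv_s, inv_t,
          inv_u, inv_a, inv_b, inv_z] <;> simp
    rw [← h.hi.map_inv (h.dle h1), ← h.hi.map_one] at this
    rcases this with e | e | e | e <;> have e' := φ⁻¹.injective e
    · rw [e'] at d3; exact absurd d3 (by decide)
    · rw [e'] at ya; exact absurd ya (by decide)
    · rw [e', ya] at d1; exact absurd d1 (by decide)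
    · rw [e', inv_a, ya] at d1; exact absurd d1 (by decide)
  have inE : ∀ x ∈ J, x.t = 0 → x.u = 0 → x.r + y1.b * x.s = 0 → x ∈ E := fun x hx t u r =>
    h.mem0 hx fun y hy => by
      rw [bt_eq hx]
      refine jv_mem _ _ _ _ _ _ (.inr P) (.inl ?_) (.inl (by simp [t, u])) (.inl (by simp [t, u]))
        (.inl (by simp [u])) (.inl rfl)
      rw [hb y (h.dle hy), t, u]; linear_combination (-y.a) * r
  have ofE : ∀ x ∈ J, x ∈ E → x.t = 0 ∧ x.r + y1.b * x.s = 0 := fun x hx hE => by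
    have e1 := dl _ (h.bt_E hE h1) (bt_mem hx _); have e2 := dl _ (h.bt_E hE hd) (bt_mem hx _)
    rw [bt_eq hx, mem_ZL] at e1 e2
    have u := e2.2.2.1; have t := e2.1; have r := e1.1
    simp [d1, d2, d3] at u
    simp [d1, d2, d3, u] at t
    simp [ya, yz, u, t] at r
    exact ⟨t, by linear_combination -r⟩
  have nr : gr ∈ Subgroup.normalizer (E : Set Sy) := mem_norm_of_bt fun e he => by
    rw [bt_eq (by decide)]; exact inE _ ⟨rfl, rfl, rfl⟩ (by simp [gr]) rfl (by simp [gr])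
  have nt : gt ∈ Subgroup.normalizer (E : Set Sy) := mem_norm_of_bt fun e he => by
    rw [bt_eq (by decide)]
    exact inE _ ⟨rfl, rfl, rfl⟩ (by simp [gt]) rfl (by
      simp [gt, hb e he]; linear_combination (-e.a * y1.b) * h3)
  have or : gr ∉ E := fun c => by have := (ofE _ (by decide) c).2; simp [gr] at this
  refine h.offB (x := gr) (w1 := gq) ⟨by decide, nr, or⟩ (by decide) (by decide) nr nt or
    (fun c => by have := (ofE _ (by decide) c).1; simp [gt] at this)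
    (fun c => by have := (ofE _ (by decide) c).1; simp [gt, gr] at this)
    (fun c => by have := (ofE _ (by decide) c).1; simp [gt, gr] at this) Sy.a
    (fun _ _ _ _ => rfl) (fun _ hy => hy.1) ⟨inE _ (by decide) rfl rfl (by simp [gq]), show gq ∈ J by decide⟩
    (fun y _ => ?_) fun y _ e => ?_
  · rw [bt_eq (by decide)]
    exact jv_mem _ _ _ _ _ _ (.inr (Subgroup.mem_sup_left ⟨P, show gp ∈ J by decide⟩))
      (.inr (Subgroup.mem_sup_right (Subgroup.mem_zpowers _))) (.inl (by simp [gr]))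
      (.inl (by simp [gr])) (.inl (by simp [gr])) (.inl rfl)
  · exact mem_of_eq D.one_mem (by rw [bt_eq (by decide)]; ext <;> simp [gr, e])

end Pr
end Cfsg.Agent.Co
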