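import Cfsg.Agent.Co.B3

/-! Essential subgroups not containing `J`, part 3. -/

set_option autoImplicit false
set_option linter.unusedSimpArgs false
open Equiv
open scoped commutatorElement

namespace Cfsg.Agent.Co
open Cfsg.Fus Cfsg.FusionSystem

variable {F : FusionSystem (⊤ : Subgroup Sy)} {E D : Subgroup Sy} {Y : Subgroup (Perm Sy)}
  {φ : Perm Sy}

def X3 (l : K3) : Subgroup Sy := csub (fun x => x.u = 0 ∧ x.a = 0 ∧ x.t = l * x.b) (by simp)
  (by intro x y; simp +contextual [mul_add])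
theorem mem_X3 {l : K3} {x : Sy} : x ∈ X3 l ↔ x.u = 0 ∧ x.a = 0 ∧ x.t = l * x.b := Iff.rfl
def X2 : Subgroup Sy := csub fun x => x.u = 0 ∧ x.a = 0 ∧ x.t = 0 ∧ x.b = 0
theorem mem_X2 {x : Sy} : x ∈ X2 ↔ x.u = 0 ∧ x.a = 0 ∧ x.t = 0 ∧ x.b = 0 := Iff.rfl
def X1 (l : K3) : Subgroup Sy :=
  csub (fun x => x.u = 0 ∧ x.a = 0 ∧ x.t = 0 ∧ x.b = 0 ∧ x.s = l * x.z) (by simp)
  (by intro x y; simp +contextual [mul_add])
theorem mem_X1 {l : K3} {x : Sy} :
    x ∈ X1 l ↔ x.u = 0 ∧ x.a = 0 ∧ x.t = 0 ∧ x.b = 0 ∧ x.s = l * x.z := Iff.rfl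

namespace Pr

theorem shape (h : Pr F E Y φ D) (hJ : ¬ J ≤ E) : ∃ y1 ∈ D, ∃ d ∈ D, ¬ (y1.a = 0 ∧ y1.b = 0) ∧
    d.a = 0 ∧ d.b = 0 ∧ d.z = 1 := by
  by_contra hc
  by_cases h1 : ∃ y1 ∈ D, ¬ (y1.a = 0 ∧ y1.b = 0)
  · obtain ⟨y1, h1, hy⟩ := h1
    have z : ∀ y ∈ D, y.a = 0 → y.b = 0 → y ∈ J := fun y hD a b => ⟨a, b, by
      by_contra z
      obtain ⟨d, hd, e⟩ := pwz hD ⟨a, b, z⟩ 1
      exact hc ⟨y1, h1, d, hd, hy, e⟩⟩
    refine h.not_cyc hJ h1 (fun x => x.a * y1.a + x.b * y1.b) (fun x hx y hy' e => ?_) fun y hD => ?_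
    · have c1 := h.cab hx h1; have c2 := h.cab hy' h1
      have : x.a = y.a ∧ x.b = y.b := by
        revert hy c1 c2 e
        generalize x.a = a, x.b = b, y.a = a', y.b = b', y1.a = c, y1.b = d
        revert a b a' b' c d; decide +kernel
      exact z _ (D.mul_mem (D.inv_mem hx) hy') (by simp [this]) (by simp [this])
    · have c := h.cab hD h1
      have : (y.a = 0 ∧ y.b = 0) ∨ (y.a = y1.a ∧ y.b = y1.b) ∨ (y.a = -y1.a ∧ y.b = -y1.b) := by
        revert hy c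
        generalize y.a = a, y.b = b, y1.a = c, y1.b = d
        revert a b c d; decide +kernel
      rcases this with e | e | e
      · exact .inl (z y hD e.1 e.2)
      · exact .inr (.inl (z _ (D.mul_mem (D.inv_mem h1) hD) (by simp [e]) (by simp [e])))
      · exact .inr (.inr (z _ (D.mul_mem h1 hD) (by simp [e]) (by simp [e])))
  · push Not at h1
    have sep : ∀ x ∈ D, ∀ y ∈ D, x.z = y.z → x⁻¹ * y ∈ J := fun x hx y hy e =>
      modJ (by rw [(h1 x hx).1, (h1 y hy).1]) (by rw [(h1 x hx).2, (h1 y hy).2]) e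
    by_cases h2 : ∃ d ∈ D, d.z ≠ 0
    · obtain ⟨d, hd, hz⟩ := h2
      refine h.not_cyc hJ hd Sy.z sep fun y hy => ?_
      have : y.z = 0 ∨ y.z = d.z ∨ y.z = -d.z := by
        revert hz; generalize y.z = a, d.z = b; revert a b; decide
      rcases this with e | e | e <;> simp [h1 y hy, h1 d hd, e]
    · push Not at h2
      exact h.not_cyc hJ D.one_mem Sy.z sep fun y hy => .inl ⟨(h1 y hy).1, (h1 y hy).2, h2 y hy⟩

theorem coA2 (h : Pr F E Y φ D) {y1 d : Sy} (h1 : y1 ∈ D) (hd : d ∈ D)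
    (hd' : d.a = 0 ∧ d.b = 0 ∧ d.z = 1) (hy : y1.a = 0 ∧ y1.b = 1 ∧ y1.z = 0) {y : Sy}
    (hD : y ∈ D) : y.a = 0 ∧ y.u = 0 ∧ y.s = d.s * y.z ∧ y.t = d.s * y.b := by
  obtain ⟨d1, d2, d3⟩ := hd'
  obtain ⟨a1, a2, a3⟩ := hy
  have c := h.comm h1 hd
  have du := congrArg Sy.t c; have yu := congrArg Sy.s c; have dt := congrArg Sy.r c
  have ys := congrArg Sy.p c; have yt := congrArg Sy.q c
  simp only [mul_p, mul_q, mul_r, mul_s, mul_t, d1, d2, d3, a1, a2, a3] at du yu dt ys yt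
  have du' : d.u = 0 := by linear_combination du
  have yu' : y1.u = 0 := by linear_combination -yu
  have dt' : d.t = 0 := by linear_combination 2 * dt - 2 * du' - d.t * h3
  have ys' : y1.s = 0 := by linear_combination -2 * ys - 2 * yu' - y1.s * h3
  have yt' : y1.t = d.s := by linear_combination -yt - 0 * yu'
  have ya : y.a = 0 := by simpa [a1, a2] using h.cab hD h1
  have e1 := congrArg Sy.s (h.comm hD hd); have e2 := congrArg Sy.q (h.comm hD hd)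
  have e3 := congrArg Sy.q (h.comm hD h1)
  simp only [mul_q, mul_s, d1, d2, d3, a1, a2, a3, ya, du', yu', dt', ys', yt'] at e1 e2 e3
  have u : y.u = 0 := by linear_combination -e1
  exact ⟨ya, u, by linear_combination -e3, by linear_combination -e2⟩

theorem caseV (h : Pr F E Y φ D) (hJ : ¬ J ≤ E) {y1 d : Sy} (h1 : y1 ∈ D) (hd : d ∈ D)
    (hd' : d.a = 0 ∧ d.b = 0 ∧ d.z = 1) (hy : y1.a = 0 ∧ y1.b = 1 ∧ y1.z = 0)
    (hc : ∀ e ∈ E, e.a = 0) (hC : CC ≤ D) : False := by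
  have co := fun y => h.coA2 h1 hd hd' hy (y := y)
  have nc := fun (e : Sy) (he : e.a = 0) => normC (E := E1) h1 hd hd' (fun c => by
    rw [hy.2.1] at c; exact absurd c.2 (by decide)) (fun e he => by
      rw [mem_E1] at he; simp [he, hy]) (e := e) (mem_E1.2 he)
  have P := h.dle (hC (show gp ∈ CC by simp [gp]))
  have Q := h.dle (hC (show gq ∈ CC by simp [gq]))
  have R := h.dle (hC (show gr ∈ CC by simp [gr]))
  have S : gs ∈ E := h.mem0 (by decide) fun y hy => hC (by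
    rw [bt_eq (by decide)]; simp [gs, (co y hy).1])
  have T : gt ∈ E := h.mem0 (by decide) fun y hy => hC (by
    rw [bt_eq (by decide)]; simp [gt, (co y hy).1])
  have hE : E = VV := by
    refine le_antisymm (fun e he => ?_) fun x hx => ?_
    · refine mem_VV.2 ⟨?_, hc e he⟩
      obtain ⟨g, hg, j⟩ := nc e (hc e he)
      by_contra u
      have m := E.mul_mem (E.inv_mem (h.dle hg)) he
      have u' : (g⁻¹ * e).u ≠ 0 := by simpa [(co g hg).2.1] using u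
      generalize g⁻¹ * e = m' at j m u'
      refine hJ (J_le P Q R S T (of_sm (by decide) u' (mem_of_eq (E.mul_mem m (E.inv_mem
        (H0_le P Q R S T (x := jv m'.p m'.q m'.r m'.s m'.t 0) ⟨rfl, rfl, rfl⟩ rfl))) ?_)))
      rw [mem_J] at j; ext <;> simp [sm, gu, j]
    · obtain ⟨g, hg, j⟩ := nc x hx.2
      simpa using E.mul_mem (h.dle hg) (H0_le P Q R S T j (by simp [(co g hg).2.1, hx.1]))
  subst hE
  have full : ∀ x ∈ X1 d.s, x ∈ D := fun x hx => by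
    rw [mem_X1] at hx
    obtain ⟨g, hg, j⟩ := nc x hx.2.1
    have c := co g hg
    have : g⁻¹ * x ∈ CC := by
      rw [mem_J] at j; rw [mem_CC]
      simp only [mul_s, mul_t, mul_u, mul_a, mul_b, mul_z, inv_s, inv_t, inv_u, inv_a, inv_b,
        inv_z, c, hx] at j ⊢
      refine ⟨by linear_combination d.s * j.2.2, by linear_combination d.s * j.2.1, by simp, j⟩
    simpa using D.mul_mem hg (hC this)
  have au : Ao VV gu := ⟨by decide, mem_norm_of_bt fun e he => by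
    rw [bt_eq (by decide)]; simp, by simp [gu]⟩
  have na : ga ∈ Subgroup.normalizer (VV : Set Sy) := mem_normalizer_of_finite fun e he => by
    rw [mem_VV] at he ⊢; simp [he]
  have l1 : X3 d.s ≤ VV := fun x hx => ⟨hx.1, hx.2.1⟩
  have l2 : X2 ≤ X3 d.s := fun x hx => by rw [mem_X2] at hx; simp [mem_X3, hx]
  have l3 : X1 d.s ≤ X2 := fun x hx => by rw [mem_X1] at hx; simp [mem_X2, hx]
  have l4 : CC ≤ X1 d.s := fun x hx => by rw [mem_CC] at hx; simp [mem_X1, hx]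
  have l5 : L2 ≤ CC := fun x hx => hx.2
  have l6 : ZL ≤ L2 := fun x hx => hx.2
  have fx : ∀ (A : Subgroup Sy) x, x ∈ D → x⁻¹ * (φ * cj gu * φ⁻¹) x ∈ A := fun A x hx => by
    rw [h.sfix au.1 hx]; simp
  have b0 : ∀ v ∈ X3 d.s, (v⁻¹ * (φ * cj gu * φ⁻¹) v).b = 0 := fun v hv => by
    have hh := h.shom au
    have c : v * gt * v⁻¹ * gt⁻¹ ∈ CC := by
      rw [mem_X3] at hv; simp [gt, hv]
    have s := h.sfix au.1 (hC c)
    rw [hh (VV.mul_mem (VV.mul_mem (l1 hv) T) (VV.inv_mem (l1 hv))) (VV.inv_mem T),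
      hh.map_conj (l1 hv) T, hh.map_inv T] at s
    have c1 := co _ (h.sdiff au (l1 hv)); have c2 := co _ (h.sdiff au T)
    have s' := congrArg Sy.r s
    revert c1 c2 s'
    generalize (φ * cj gu * φ⁻¹) v = v', (φ * cj gu * φ⁻¹) gt = t'
    rw [mem_X3] at hv
    simp only [mul_a, mul_b, mul_z, mul_r, mul_s, mul_t, mul_u, inv_a, inv_b, inv_z, inv_r, inv_s,
      inv_t, inv_u, hv, gt]
    rintro ⟨-, u1, -, t1⟩ ⟨-, u2, -, t2⟩ s'
    have u1' : v'.u = 0 := by linear_combination u1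
    have u2' : t'.u = 0 := by linear_combination u2
    have t1' : v'.t = d.s * v'.b := by rw [u1'] at t1; linear_combination t1
    have t2' : t'.t = 1 + d.s * t'.b := by rw [u2'] at t2; linear_combination t2
    rw [u1', u2', t1', t2'] at s'
    linear_combination 2 * s' - (v'.b - v.b) * h3
  refine h.off na (by simp [ga]) au.2.1 au.2.2 h.iso h.out [X3 d.s, X2, X1 d.s, CC, L2, ZL]
    ⟨l1, fun x hx => l2 ?_, l2, fun x hx => ?_, l3, fun x hx => l4 ?_, l4, fun x hx => ?_, l5,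
      fun x hx => ?_, l6, fun x hx => ?_, fun x hx => ?_⟩
    ⟨l1, fun x hx => ?_, l2, fun x hx => ?_, l3, fun x hx => ?_, l4, fun x hx => fx _ _ (full x hx),
      l5, fun x hx => fx _ _ (hC hx), l6, fun x hx => fx _ _ (hC (l5 hx)),
      fun x hx => h.sfix au.1 (hC (l5 (l6 hx)))⟩
  · rw [mem_VV] at hx; simp [mem_X2, ga, hx]
  · rw [mem_X3] at hx; simp [mem_X2, ga, hx]
  · rw [mem_X2] at hx; simp [ga, hx]
  · rw [mem_X1] at hx; simp [ga, hx]
  · rw [mem_CC] at hx; simp [ga, hx]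
  · rw [mem_L2] at hx; simp [ga, hx]
  · rw [mem_ZL] at hx; ext <;> simp [ga, hx]
  · have c := co _ (h.sdiff au hx); exact ⟨c.2.1, c.1, c.2.2.2⟩
  · have c := co _ (h.sdiff au (l1 hx)); have b := b0 x hx
    exact ⟨c.2.1, c.1, by rw [c.2.2.2, b, mul_zero], b⟩
  · have c := co _ (h.sdiff au (l1 (l2 hx))); have b := b0 x (l2 hx)
    exact ⟨c.2.1, c.1, by rw [c.2.2.2, b, mul_zero], b, c.2.2.1⟩

theorem aniso (h : Pr F HP Y φ D) {w : Sy} (hw : w ∈ D) (hJ : w ∈ J) (h1 : w ≠ 1) :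
    w.q ^ 2 - w.p * w.r = 2 := by
  by_contra hne
  have wc := h.dle hw
  rw [mem_HP] at wc
  have hJ' := mem_J.1 hJ
  obtain ⟨α, β, b0, z0, n1, n2, e1, e2, e3⟩ : ∃ α β b0 z0 : K3, ¬ (α = 0 ∧ β = 0) ∧
      ¬ (b0 = 0 ∧ z0 = 0) ∧ w.p = -2 * z0 * α ∧ w.q = -b0 * α - z0 * β ∧ w.r = -2 * b0 * β := by
    have : ¬ (w.p = 0 ∧ w.q = 0 ∧ w.r = 0) := fun c => h1 (by ext <;> simp [c, wc, hJ'])
    revert this hne; generalize w.p = i, w.q = j, w.r = k; revert i j k; decide +kernel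
  have nn : ∀ s t : K3, jv 0 0 0 s t 0 ∈ Subgroup.normalizer (HP : Set Sy) := fun s t =>
    mem_norm_of_bt fun e he => by
      rw [bt_eq ⟨rfl, rfl, rfl⟩]; rw [mem_HP] at he; simp [he]
  have xj : jv 0 0 0 α β 0 ∈ J := ⟨rfl, rfl, rfl⟩
  refine h.offB (x := jv 0 0 0 α β 0) (x1 := gs) (x2 := gt)
    (w1 := jv (-2 * b0 * α) (z0 * α - b0 * β) (2 * z0 * β) 0 0 0)
    ⟨xj, nn _ _, fun c => n1 ⟨c.1, c.2.1⟩⟩ (by decide) (by decide) (nn 1 0) (nn 0 1)
    (by simp [gs]) (by simp [gt]) (by simp [gs, gt]) (by simp [gs, gt])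
    (fun y => y.b * z0 - y.z * b0) (fun y hy y' _ => by
      simp [(mem_HP.1 (h.dle hy)).2.2.2]; ring) (fun y hy => by rw [mem_J] at hy; simp [hy])
    ⟨by simp, ⟨rfl, rfl, rfl⟩⟩ (fun y hy => ?_) fun y hy e => ?_
  · obtain ⟨μ, ν, m1, m2⟩ : ∃ μ ν : K3, y.b = μ * b0 - ν * z0 ∧ y.z = μ * z0 + ν * b0 := by
      revert n2; generalize y.b = b, y.z = z; revert b z; clear * -; revert b0 z0; decide +kernel
    refine mem_of_eq (Subgroup.mul_mem _ (Subgroup.mem_sup_left (sm_mem hJ (show w ∈ D ⊓ J from ⟨hw, hJ⟩) μ))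
      (Subgroup.mem_sup_right (sm_mem ⟨rfl, rfl, rfl⟩ (Subgroup.mem_zpowers _) ν))) ?_
    rw [bt_eq xj]
    ext <;> simp [sm, (mem_HP.1 (h.dle hy)).2.2.2, m1, m2, e1, e2, e3, wc] <;> ring
  · obtain ⟨μ, m1, m2⟩ : ∃ μ : K3, y.b = μ * b0 ∧ y.z = μ * z0 := by
      revert n2 e; generalize y.b = b, y.z = z; revert b z; clear * -; revert b0 z0; decide +kernel
    refine mem_of_eq (sm_mem hJ hw μ) ?_
    rw [bt_eq xj]
    ext <;> simp [sm, (mem_HP.1 (h.dle hy)).2.2.2, m1, m2, e1, e2, e3, wc] <;> ring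

end Pr

end Cfsg.Agent.Co
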