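import Cfsg.Agent.Co.M

/-! A finite check. -/

set_option autoImplicit false

namespace Cfsg.Agent.Co

theorem spread : ∀ i j k : K3, j ^ 2 - i * k = 2 → ∀ p q r p' q' r' : K3, ∃ α β : K3,
    (∃ c c' : K3, p + c * i - 0 * α = (p - p' + c' * i) + 2 * (q - q' + c' * j) + (r - r' + c' * k) ∧
      q + c * j - α = (q - q' + c' * j) + (r - r' + c' * k) ∧ r + c * k - 2 * β = r - r' + c' * k) ∧
    (∃ c c' : K3, p' + c * i - 2 * α = (p' + c' * i) + 2 * (q' + c' * j) + (r' + c' * k) ∧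
      q' + c * j - β = (q' + c' * j) + (r' + c' * k) ∧ r' + c * k = r' + c' * k) := by
  decide +kernel

end Cfsg.Agent.Co
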