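import Cfsg.Agent.Co.B4
import Cfsg.Agent.Co.Bs

/-! Essential subgroups not containing `J`, part 4. -/

set_option autoImplicit false
set_option linter.unusedSimpArgs false
open Equiv
open scoped commutatorElement

namespace Cfsg.Agent.Co
open Cfsg.Fus Cfsg.FusionSystem

variable {F : FusionSystem (⊤ : Subgroup Sy)} {E D : Subgroup Sy} {Y : Subgroup (Perm Sy)}
  {φ : Perm Sy}

theorem norm1 {y1 d : Sy} (h1 : y1 ∈ D) (hd : d ∈ D)
    (hd' : d.a = 0 ∧ d.b = 0 ∧ d.z = 1) (k : K3) :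
    ∃ y ∈ D, y.a = k * y1.a ∧ y.b = k * y1.b ∧ y.z = 0 := by
  obtain ⟨g, hg, a, b⟩ := pw h1 k
  obtain ⟨e, he, a', b', z⟩ := adj hd ⟨hd'.1, hd'.2.1, by simp [hd'.2.2]⟩ hg 0
  exact ⟨e, he, a'.trans a, b'.trans b, z⟩

theorem sq1 : ∀ k : K3, k ≠ 0 → k * k = 1 := by decide

theorem not_HP (h : Es F HP Y) : False := by
  obtain ⟨φ, hφ, hY⟩ := h.exists_out
  have P := h.pr hφ hY
  generalize img φ (HP ⊓ J) = D at P
  obtain ⟨y1, h1, d, hd, hy, hd'⟩ := P.shape fun c => by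
    have := c (show gu ∈ J by decide); simp [gu] at this
  have c1 := mem_HP.1 (P.dle h1)
  have hb : y1.b ≠ 0 := fun c => hy ⟨c1.2.2.2, c⟩
  obtain ⟨y, hy, -, yb, yz⟩ := norm1 h1 hd hd' y1.b
  rw [sq1 _ hb] at yb
  have cy := mem_HP.1 (P.dle hy); have cd := mem_HP.1 (P.dle hd)
  obtain ⟨i, j, k, hne, hs⟩ := P.dep3 (fun x => (x.b, x.z)) (fun x hx y hy e => by
      have e := Prod.mk.inj e
      exact modJ (by rw [(mem_HP.1 (P.dle hx)).2.2.2, (mem_HP.1 (P.dle hy)).2.2.2]) e.1 e.2)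
    (m := gp) (n := gq) (o := gr) ⟨by simp [gp], ⟨rfl, rfl, rfl⟩⟩ ⟨by simp [gq], ⟨rfl, rfl, rfl⟩⟩
    ⟨by simp [gr], ⟨rfl, rfl, rfl⟩⟩
  have es : sm i gp * sm j gq * sm k gr = jv i j k 0 0 0 := by ext <;> simp [sm, gp, gq, gr]
  rw [es] at hs
  have sJ : jv i j k 0 0 0 ∈ J := ⟨rfl, rfl, rfl⟩
  have an := P.aniso hs sJ fun c => hne
    ⟨congrArg Sy.p c, congrArg Sy.q c, congrArg Sy.r c⟩
  obtain ⟨α, β, ⟨c, c', e1, e2, e3⟩, c2, c2', f1, f2, f3⟩ := spread i j k an y.p y.q y.r d.p d.q d.r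
  set g : Sy := (jv 0 0 0 α β 0)⁻¹ * ga with hg
  have gn : g ∈ Subgroup.normalizer (HP : Set Sy) := mem_normalizer_of_finite fun e he => by
    rw [mem_HP] at he ⊢; simp [he, hg, ga]
  have gE : g ∉ HP := by simp [hg, ga]
  have hχ := h.conj_not gn gE hφ.symm fun c => hY (by simpa using Y.inv_mem c)
  have iχ := hφ.symm.conj (F.iso_cj le_top trivial gn)
  have Q := h.pr iχ hχ
  obtain ⟨D', Q⟩ : ∃ D', Pr F HP Y (φ⁻¹ * cj g * φ⁻¹⁻¹) D' := ⟨_, Q⟩
  have key : ∀ v ∈ D, ∀ v' ∈ D, v = g * v' * g⁻¹ → φ⁻¹ v ∈ D' := fun v _ v' hv' e => by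
    have := Q.app ((P.mem _).1 hv').1 ((P.mem _).1 hv').2
    simpa [cj_apply, ← e] using this
  have m1 := D.mul_mem hy (sm_mem sJ hs c)
  have m2 := D.mul_mem hd (sm_mem sJ hs c2)
  have k1 := key _ m1 _ (D.mul_mem (D.mul_mem hy (D.inv_mem hd)) (sm_mem sJ hs c')) (by
    ext <;> simp [hg, ga, sm, cy, cd, hd', yb, yz]
    · linear_combination e1
    · linear_combination e2
    · linear_combination e3)
  have k2 := key _ m2 _ (D.mul_mem hd (sm_mem sJ hs c2')) (by
    ext <;> simp [hg, ga, sm, cy, cd, hd', yb, yz]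
    · linear_combination f1
    · linear_combination f2
    · simpa using f3)
  have fin : ∀ v ∈ D, φ⁻¹ v ∈ D' → ¬ (v.b = 0 ∧ v.z = 0) → (φ⁻¹ v).r ≠ 0 := fun v hv hv' hn hr => by
    have := Q.aniso hv' ((P.mem _).1 hv).2 fun c => hn (by
      have : v = 1 := by rw [← perm_apply_inv_self φ v, c]; exact hφ.homOn.map_one
      simp [this])
    rw [hr] at this; revert this; generalize (φ⁻¹ v).q = q; revert q; simp; decide
  have j1 := mem_J.1 ((P.mem _).1 m1).2; have j2 := mem_J.1 ((P.mem _).1 m2).2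
  have r1 := fin _ m1 k1 (by simp [yb, sm]); have r2 := fin _ m2 k2 (by simp [hd', sm])
  have r3 := fin _ (D.mul_mem m1 m2) (by
    rw [P.hi (P.dle m1) (P.dle m2)]; exact D'.mul_mem k1 k2) (by simp [yb, hd', sm])
  have r4 := fin _ (D.mul_mem m1 (D.inv_mem m2)) (by
    rw [P.hi (P.dle m1) (HP.inv_mem (P.dle m2)), P.hi.map_inv (P.dle m2)]
    exact D'.mul_mem k1 (D'.inv_mem k2)) (by simp [yb, hd', sm])
  rw [P.hi (P.dle m1) (P.dle m2)] at r3
  rw [P.hi (P.dle m1) (HP.inv_mem (P.dle m2)), P.hi.map_inv (P.dle m2)] at r4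
  simp only [mul_r, inv_r, j1, j2] at r3 r4
  revert r1 r2 r3 r4
  generalize (φ⁻¹ (y * sm c (jv i j k 0 0 0))).r = a, (φ⁻¹ (d * sm c2 (jv i j k 0 0 0))).r = b
  simp only [mul_zero, zero_mul, add_zero, sub_zero, ne_eq, OfNat.ofNat_ne_zero, not_false_eq_true,
    zero_pow]
  revert a b; decide

theorem Pr.caseA2 (h : Pr F E Y φ D) (hJ : ¬ J ≤ E) {y1 d : Sy} (h1 : y1 ∈ D) (hd : d ∈ D)
    (hd' : d.a = 0 ∧ d.b = 0 ∧ d.z = 1) (hy : y1.a = 0 ∧ y1.b = 1 ∧ y1.z = 0)
    (hc : ∀ e ∈ E, e.a = 0) : False := by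
  have co := fun y => h.coA2 h1 hd hd' hy (y := y)
  have cc : ∀ c ∈ CC, ∀ e ∈ E, e * c = c * e := fun c hc' e he => by
    rw [mem_CC] at hc'; ext <;> simp [hc', hc e he] <;> ring
  have CE : CC ≤ E := fun c hc' => h.cen (cc c hc')
  by_cases hm : ∃ m ∈ E, m ∈ J ∧ m ∉ CC
  · obtain ⟨m, mE, mJ, mC⟩ := hm
    refine h.caseV hJ h1 hd hd' hy hc fun c hc' => (h.mem c).2 ⟨h.iso.inv_mem (CE hc'), ?_⟩
    have e := congrArg (⇑φ⁻¹) (cc c hc' _ (h.iso.mem mE))
    rw [h.hi (h.iso.mem mE) (CE hc'), h.hi (CE hc') (h.iso.mem mE), perm_inv_apply_self] at e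
    have a := hc _ (h.iso.inv_mem (CE hc'))
    generalize φ⁻¹ c = x at e a
    rw [mem_J] at mJ; rw [mem_CC] at mC
    have e1 := congrArg Sy.p e; have e2 := congrArg Sy.q e; have e3 := congrArg Sy.r e
    have e4 := congrArg Sy.s e; have e5 := congrArg Sy.t e
    simp only [mul_p, mul_q, mul_r, mul_s, mul_t, mJ, a] at e1 e2 e3 e4 e5 mC
    have : ∀ s t u b z : K3, ¬ (s = 0 ∧ t = 0 ∧ u = 0) → (2 * z * s + z ^ 2 * u = 0 ∧
      b * s + z * t + z * b * u = 0 ∧ 2 * b * t + b ^ 2 * u = 0 ∧ z * u = 0 ∧ b * u = 0) →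
      b = 0 ∧ z = 0 := by decide +kernel
    exact ⟨a, this m.s m.t m.u x.b x.z (by simpa using mC) ⟨by linear_combination -e1,
      by linear_combination -e2, by linear_combination -e3, by linear_combination -e4,
      by linear_combination -e5⟩⟩
  · push Not at hm
    have nc := fun (e : Sy) (he : e.a = 0) => Pr.normC (E := E1) h1 hd hd' (fun c => by
      rw [hy.2.1] at c; exact absurd c.2 (by decide)) (fun e he => by
        rw [mem_E1] at he; simp [he, hy]) (e := e) (mem_E1.2 he)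
    have i := F.iso_cj (P := ⊤) (g := sm d.s gu) le_top trivial (mem_normalizer_of_finite fun _ _ => trivial)
    have es := H4.Sp.essential_img h.ess i
    have : img (cj (sm d.s gu)) E = HP := by
      ext x
      rw [mem_img_cj]
      have iff : ∀ e : Sy, e.a = 0 → (e ∈ E ↔ e.u = 0 ∧ e.s = d.s * e.z ∧ e.t = d.s * e.b) :=
        fun e ea => by
          obtain ⟨g, hg, j⟩ := nc e ea
          have c := co g hg
          have j' := mem_J.1 j
          simp only [mul_b, mul_z, inv_a, inv_b, inv_z, c.1, ea] at j'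
          have jb : e.b = g.b := by linear_combination j'.2.1
          have jz : e.z = g.z := by linear_combination j'.2.2
          constructor
          · intro he
            have := mem_CC.1 (hm _ (E.mul_mem (E.inv_mem (h.dle hg)) he) j)
            simp only [mul_s, mul_t, mul_u, inv_s, inv_t, inv_u, inv_a, inv_b, inv_z, c] at this
            have u : e.u = 0 := by linear_combination this.2.2.1
            rw [u] at this
            exact ⟨u, by rw [jz]; linear_combination this.1, by rw [jb]; linear_combination this.2.1⟩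
          · intro he
            simpa using E.mul_mem (h.dle hg) (CE (show g⁻¹ * e ∈ CC by
              simp [c, he, ea, jb, jz]))
      by_cases xa : x.a = 0
      · rw [iff _ (by simp [sm, xa]), mem_HP]
        simp only [mul_a, mul_b, mul_z, mul_s, mul_t, mul_u, inv_s, inv_t, inv_u, inv_a, inv_b,
          inv_z, sm, gu, xa]
        constructor
        · rintro ⟨u, s, t⟩
          exact ⟨by linear_combination s, by linear_combination t, by linear_combination u, trivial⟩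
        · rintro ⟨s, t, u, -⟩
          exact ⟨by linear_combination u, by linear_combination s, by linear_combination t⟩
      · exact ⟨fun c => absurd (by simpa [sm] using hc _ c) xa, fun c => absurd c.2.2.2 xa⟩
    rw [this] at es
    obtain ⟨Y', h'⟩ := exists_es h.sat es
    exact not_HP h'

theorem ess_notJ (h : Es F E Y) (hJ : ¬ J ≤ E) : E = E3 := by
  obtain ⟨φ, hφ, hY⟩ := h.exists_out
  have P := h.pr hφ hY
  generalize img φ (E ⊓ J) = D at P
  obtain ⟨y1, h1, d, hd, hy, hd'⟩ := P.shape hJ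
  by_cases hn : ∃ e ∈ E, e.a * y1.b ≠ e.b * y1.a
  · obtain ⟨e, he, hne⟩ := hn
    exact P.caseN he h1 hne
  push Not at hn
  exfalso
  by_cases ha : y1.a = 0
  · have hb : y1.b ≠ 0 := fun c => hy ⟨ha, c⟩
    obtain ⟨y, hy, ya, yb, yz⟩ := norm1 h1 hd hd' y1.b
    rw [sq1 _ hb] at yb
    refine P.caseA2 hJ hy hd hd' ⟨by rw [ya, ha, mul_zero], yb, yz⟩ fun e he => ?_
    simpa [ha, hb] using hn e he
  · obtain ⟨y, hy, ya, yb, yz⟩ := norm1 h1 hd hd' y1.a
    refine P.caseA hy hd hd' (by rw [ya, sq1 _ ha]) yz fun e he => ?_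
    rw [ya, yb]; linear_combination y1.a * hn e he

end Cfsg.Agent.Co
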