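import Cfsg.Agent.Co.B1

/-! Interfaces of the slices of S5227. -/

set_option autoImplicit false
open Equiv
open scoped commutatorElement

namespace Cfsg.Agent.Co
open Cfsg.Fus Cfsg.FusionSystem

abbrev FS : Type := FusionSystem (⊤ : Subgroup Sy)

/-- `J⟨r⟩` with `r` regular unipotent. -/
def E4 (e : Bool) (i : K3) : Subgroup Sy :=
  csub (fun x => x.b = sn e * x.a ∧ x.z = i * x.a - sn e * x.a ^ 2) (by simp)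
    (by
      rintro x y ⟨h1, h2⟩ ⟨h4, h5⟩
      simp only [mul_a, mul_b, mul_z, h1, h2, h4, h5]
      exact ⟨by ring, by linear_combination (sn e * x.a * y.a) * h3⟩)
    (by
      rintro x ⟨h1, h2⟩
      simp only [inv_a, inv_b, inv_z, h1, h2]
      exact ⟨by ring, by linear_combination (sn e * x.a ^ 2) * h3⟩)
theorem mem_E4 {e : Bool} {i : K3} {x : Sy} :
    x ∈ E4 e i ↔ x.b = sn e * x.a ∧ x.z = i * x.a - sn e * x.a ^ 2 := Iff.rfl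

/-- `Aut_F(S) ≤ Inn(S) · {sg}`. -/
def Nrm (F : FS) : Prop :=
  ∀ α, F.Iso ⊤ ⊤ α → ∃ (g : Sy) (e f h : Bool), ∀ x, α x = g * sg e f h x * g⁻¹

/-- normal form of type `k`. -/
structure NF (F : FS) (k : K3) : Prop where
  sat : F.IsSaturated 3
  nrm : Nrm F
  t1 : F.Iso ⊤ ⊤ (sg false true false)
  t2 : F.Iso ⊤ ⊤ (sg true false false)
  m1 : F.Iso E1 E1 (n1 k)
  m2 : F.Iso E2 E2 (n2 0)
  m3 : F.Iso E3 E3 n3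

/-- invariant separating `2.M₁₂` from `SL₃(3)`. -/
def I1 (F : FS) : Prop := ∃ σ, F.Iso J J σ ∧ ∃ x ∈ ZL, σ x ∈ E3 ∧ σ x ∉ CC
/-- inversion of `J`. -/
def I2 (F : FS) : Prop := ∃ σ, F.Iso J J σ ∧ ∀ j ∈ J, σ j = j⁻¹
def Good (F : FS) : Prop := F.IsSaturated 3 ∧ F.IsRealizable 3 ∧ F.core = ⊥

/-- Slice B (helper9). -/
class EssL : Prop where
  isoJ : ∀ {F : FS} {P Q : Subgroup Sy} {φ : Perm Sy}, F.Iso P Q φ → J ≤ P → ∀ j ∈ J, φ j ∈ J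
  out : ∀ {F : FS} {E : Subgroup Sy} {Y : Subgroup (Perm Sy)}, Es F E Y →
    E = J ∨ E = E1 ∨ E = E2 ∨ E = E3 ∨ ∃ e i, E = E4 e i

/-- Slice BJ. -/
class BJ : Prop where
  out : ∀ (F : FS) (Y : Subgroup (Perm Sy)), ¬ Es F J Y

/-- Slice AU. -/
class AuS : Prop where
  res : ∀ α : MulAut Sy, ∃ (s : Sy) (e f g : Bool) (m : K3), ∀ j ∈ J,
    α j = s * sg e f g (tau m j) * s⁻¹
  e1 : ∀ (α : MulAut Sy), ∀ x ∈ E1, α x ∈ E1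
  e2 : ∀ (α : MulAut Sy), ∀ x ∈ E2, α x ∈ E2
  e3 : ∀ (α : MulAut Sy), ∀ x ∈ E3, α x ∈ E3
  nrm : ∀ F : FS, F.IsSaturated 3 →
    ∃ (θ : MulAut Sy) (F' : FS), L.Transp ⊤ ⊤ θ θ.symm F F' ∧ Nrm F'

/-- Slice G: the three realizable systems. -/
class Mdl : Prop where
  a : ∃ F : FS, Good F ∧ ¬ I1 F ∧ ¬ I2 F
  b : ∃ F : FS, Good F ∧ ¬ I1 F ∧ I2 F
  c : ∃ F : FS, Good F ∧ I1 F
  s : ∀ T : Sylow 3 Cfsg.Spor.Co1, Nonempty (T ≃* Sy)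

/-- Slice W: computations with words in `Aut_F(J)`. -/
class Wd : Prop where
  e4 : ∀ {F : FS} {Y : Subgroup (Perm Sy)} {e : Bool} {i : K3}, Es F (E4 e i) Y →
    ∃ m, F.Iso J J (n1 (1 + m)) ∧ F.Iso J J (n2 m)
  k2 : ∀ {F : FS}, F.IsSaturated 3 → F.Iso J J (n1 2) → F.Iso J J (n2 0) → False
  k1 : ∀ {F : FS}, F.Iso J J (n1 1) → F.Iso J J (n2 0) → I1 F ∧ I2 F
  u4 : ∀ {F F' : FS} {e : Bool} {i : K3} {σ : Perm Sy}, NF F 1 → NF F' 1 →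
    (∀ α, F.Iso ⊤ ⊤ α → F'.Iso ⊤ ⊤ α) → F.IsEssential 3 (E4 e i) →
    F.Iso (E4 e i) (E4 e i) σ → F'.IsMap (E4 e i) σ

/-- Slice NF. -/
class NFC : Prop where
  nf1 : ∀ {F : FS}, F.IsSaturated 3 → Nrm F → (∃ σ, F.Iso E1 E1 σ ∧ ∃ x ∈ JZ, σ x ∉ JZ) →
    F.Iso ⊤ ⊤ (sg false true false) ∧ ∃ i, F.Iso E1 E1 (n1 i)
  nf2 : ∀ {F : FS}, F.IsSaturated 3 → Nrm F → (∃ σ, F.Iso E2 E2 σ ∧ ∃ x ∈ JZ, σ x ∉ JZ) →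
    F.Iso ⊤ ⊤ (sg true false false) ∧ ∃ i, F.Iso E2 E2 (n2 i)
  nf3 : ∀ {F : FS}, F.IsSaturated 3 → Nrm F → (∃ σ, F.Iso E3 E3 σ ∧ ∃ x ∈ PH, σ x ∉ PH) →
    F.Iso E3 E3 n3
  x1 : ∀ {F : FS} {σ : Perm Sy}, F.IsSaturated 3 → F.Iso E1 E1 σ → (∀ x ∈ JZ, σ x ∈ JZ) →
    ∃ α, F.Iso ⊤ ⊤ α ∧ ∀ x ∈ E1, α x = σ x
  x2 : ∀ {F : FS} {σ : Perm Sy}, F.IsSaturated 3 → F.Iso E2 E2 σ → (∀ x ∈ JZ, σ x ∈ JZ) →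
    ∃ α, F.Iso ⊤ ⊤ α ∧ ∀ x ∈ E2, α x = σ x
  x3 : ∀ {F : FS} {σ : Perm Sy}, F.IsSaturated 3 → F.Iso E3 E3 σ → (∀ x ∈ PH, σ x ∈ PH) →
    ∃ α, F.Iso ⊤ ⊤ α ∧ ∀ x ∈ E3, α x = σ x
  u1 : ∀ {F F' : FS} {k : K3} {σ : Perm Sy}, NF F k → NF F' k →
    (∀ α, F.Iso ⊤ ⊤ α → F'.Iso ⊤ ⊤ α) → F.Iso E1 E1 σ → F'.IsMap E1 σ
  u2 : ∀ {F F' : FS} {k : K3} {σ : Perm Sy}, NF F k → NF F' k →
    (∀ α, F.Iso ⊤ ⊤ α → F'.Iso ⊤ ⊤ α) → F.Iso E2 E2 σ → F'.IsMap E2 σ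
  u3 : ∀ {F F' : FS} {k : K3} {σ : Perm Sy}, NF F k → NF F' k →
    (∀ α, F.Iso ⊤ ⊤ α → F'.Iso ⊤ ⊤ α) → F.Iso E3 E3 σ → F'.IsMap E3 σ

end Cfsg.Agent.Co
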