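import Cfsg.Agent.Co.B5
import Cfsg.Agent.Co.N0

/-! Weak closure of `J`; essential subgroups containing `J`. -/

set_option autoImplicit false
set_option linter.unusedSimpArgs false
open Equiv
open scoped commutatorElement

namespace Cfsg.Agent.Co
open Cfsg.Fus Cfsg.FusionSystem

variable {F : FusionSystem (⊤ : Subgroup Sy)} {E D : Subgroup Sy} {Y : Subgroup (Perm Sy)}
  {φ σ : Perm Sy}

theorem cj_J {x : Sy} (hx : x ∈ J) (g : Sy) : g * x * g⁻¹ =
    jv (x.p + 2 * g.a * x.q + g.a ^ 2 * x.r + 2 * g.z * x.s + 2 * g.a * g.z * x.t + g.z ^ 2 * x.u)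
      (x.q + g.a * x.r + g.b * x.s + (g.z + g.a * g.b) * x.t + g.z * g.b * x.u)
      (x.r + 2 * g.b * x.t + g.b ^ 2 * x.u) (x.s + g.a * x.t + g.z * x.u) (x.t + g.b * x.u) x.u := by
  rw [mem_J] at hx; ext <;> simp [hx] <;> ring

theorem fixA1 : ∀ s t u b z : K3, ¬ (b = 0 ∧ z = 0) → (2 * z * s + z ^ 2 * u = 0 ∧
    b * s + z * t + z * b * u = 0 ∧ 2 * b * t + b ^ 2 * u = 0 ∧ z * u = 0 ∧ b * u = 0) →
    s = 0 ∧ t = 0 ∧ u = 0 := by decide +kernel

theorem CC_of_comm {w y : Sy} (hw : w ∈ J) (ha : y.a = 0) (hy : y ∉ J) (e : y * w = w * y) :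
    w ∈ CC := by
  rw [mem_J] at hw hy
  have e1 := congrArg Sy.p e; have e2 := congrArg Sy.q e; have e3 := congrArg Sy.r e
  have e4 := congrArg Sy.s e; have e5 := congrArg Sy.t e
  simp only [mul_p, mul_q, mul_r, mul_s, mul_t, hw, ha] at e1 e2 e3 e4 e5
  have := fixA1 w.s w.t w.u y.b y.z (fun c => hy ⟨ha, c⟩) ⟨by linear_combination e1,
    by linear_combination e2, by linear_combination e3, by linear_combination e4,
    by linear_combination e5⟩
  exact ⟨this.1, this.2.1, this.2.2, hw⟩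

theorem ab_le_J (hc : ∀ x ∈ D, ∀ y ∈ D, x * y = y * x) (hn : Nat.card J ≤ Nat.card D) :
    D ≤ J := by
  have c : Nat.card (K3 × K3) < Nat.card (K3 × K3 × K3) := by simp
  by_cases ha : ∃ y ∈ D, y.a ≠ 0
  · obtain ⟨y, hy, a⟩ := ha
    obtain ⟨i, j, ne, m⟩ := dep hn (fun x : Sy => (x.a, x.z)) (fun x hx x' hx' e => by
      have e := Prod.mk.inj e
      have c1 := congrArg Sy.z (hc x hx y hy); have c2 := congrArg Sy.z (hc x' hx' y hy)
      simp only [mul_z] at c1 c2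
      refine modJ e.1 (mul_left_cancel₀ a ?_) e.2
      linear_combination c2 - c1 + y.b * e.1)
      (fun i : K3 × K3 × K3 => jv 0 i.1 i.2.1 0 i.2.2 0) (fun _ => ⟨rfl, rfl, rfl⟩) c
    have e := hc _ m y hy
    have e1 := congrArg Sy.p e; have e2 := congrArg Sy.q e; have e4 := congrArg Sy.s e
    simp only [mul_p, mul_q, mul_r, mul_s, mul_t, mul_u, mul_a, mul_b, mul_z, inv_p, inv_q, inv_r,
      inv_s, inv_t, inv_u, inv_a, inv_b, inv_z] at e1 e2 e4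
    have t : j.2.2 = i.2.2 := mul_left_cancel₀ a (by linear_combination -e4)
    rw [t] at e1 e2
    have r : j.2.1 = i.2.1 := mul_left_cancel₀ a (by linear_combination -e2)
    rw [r] at e1
    have q : j.1 = i.1 := mul_left_cancel₀ a (by linear_combination e1 + y.a * (j.1 - i.1) * h3)
    exact absurd (Prod.ext q (Prod.ext r t)).symm ne
  · push Not at ha
    intro y hy
    by_contra hJ
    obtain ⟨i, j, ne, m⟩ := dep hn (fun x : Sy => (x.b, x.z)) (fun x hx x' hx' e => by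
      have e := Prod.mk.inj e
      exact modJ (by rw [ha x hx, ha x' hx']) e.1 e.2)
      (fun i : K3 × K3 × K3 => jv 0 0 0 i.1 i.2.1 i.2.2) (fun _ => ⟨rfl, rfl, rfl⟩) c
    have := CC_of_comm (by simp) (ha y hy) hJ (hc y hy _ m)
    simp only [mem_CC, mul_s, mul_t, mul_u, inv_s, inv_t, inv_u, inv_a, inv_b, inv_z] at this
    exact ne (Prod.ext (by linear_combination -this.1) (Prod.ext (by linear_combination -this.2.1)
      (by linear_combination -this.2.2.1)))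

theorem hom_J (hφ : HomOn φ J) : ∀ j ∈ J, φ j ∈ J := fun j hj => by
  refine ab_le_J (D := img φ J) (fun x hx y hy => ?_) ?_ (mem_img_of_mem _ hj)
  · rw [hφ.mem_img_perm] at hx hy
    rw [← perm_apply_inv_self φ x, ← perm_apply_inv_self φ y, ← hφ hx hy, ← hφ hy hx, J_comm hx hy]
  · exact Nat.card_le_card_of_injective (fun x : J => (⟨φ x, mem_img_of_mem _ x.2⟩ : img φ J))
      fun x y e => Subtype.ext (φ.injective (congrArg Subtype.val e))

theorem hom_bt (h : HomOn σ E) {x y : Sy} (hx : x ∈ E) (hy : y ∈ E) :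
    σ (bt x y) = bt (σ x) (σ y) := by
  unfold bt
  rw [h (E.inv_mem hy) (E.mul_mem (E.mul_mem hx hy) (E.inv_mem hx)), h.map_inv hy, h.map_conj hx hy]

section chains
variable {W : Subgroup Sy}

theorem keep_CC (h : HomOn σ W) (hW : ∀ x ∈ W, σ x ∈ W) (h1 : J ≤ W) (h2 : W ≤ E1) {y : Sy}
    (hy : y ∈ W) (hy' : y ∉ J) : ∀ x ∈ CC, σ x ∈ CC := fun x hx => by
  have hJ := hom_J (h.mono h1)
  have xJ : x ∈ J := hx.2.2.2
  refine CC_of_comm (hJ x xJ) (h2 (hW y hy)) (fun c => hy' ((mem_setStab_of_finite hJ y).1 c)) ?_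
  rw [← h hy (h1 xJ), ← h (h1 xJ) hy]; congr 1
  have := mem_E1.1 (h2 hy); rw [mem_CC] at hx; ext <;> simp [hx, this] <;> ring

theorem keep_H0 (h : HomOn σ W) (hW : ∀ x ∈ W, σ x ∈ W) (h1 : J ≤ W) (h2 : W ≤ E1) {y : Sy}
    (hy : y ∈ W) (hy' : y ∉ J) : ∀ x ∈ H0, σ x ∈ H0 := fun x hx => by
  have hJ := hom_J (h.mono h1)
  have xJ : x ∈ J := hx.2
  have a := mem_E1.1 (h2 hy); have a' := mem_E1.1 (h2 (hW y hy))
  have n : σ y ∉ J := fun c => hy' ((mem_setStab_of_finite hJ y).1 c)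
  have := keep_CC h hW h1 h2 hy hy' (bt x y) (by rw [bt_eq xJ]; simp [a, hx.1])
  rw [hom_bt h (h1 xJ) hy, bt_eq (hJ x xJ)] at this
  refine ⟨?_, hJ x xJ⟩
  by_contra u
  simp [a', u] at this
  exact n ⟨a', this.2, this.1⟩

theorem low2 : ∀ a z p q s : K3, ¬ (a = 0 ∧ z = 0) → ∃ q' r' s' t' u' : K3,
    p = -2 * a * q' + a ^ 2 * r' - 2 * z * s' + 2 * a * z * t' + z ^ 2 * u' ∧
    q = -a * r' - z * t' ∧ s = -a * t' - z * u' := by decide +kernel

theorem keep_UU (h : HomOn σ W) (hW : ∀ x ∈ W, σ x ∈ W) (h1 : J ≤ W) (h2 : W ≤ E2) {y : Sy}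
    (hy : y ∈ W) (hy' : y ∉ J) : ∀ x ∈ UU, σ x ∈ UU := fun x hx => by
  have hJ := hom_J (h.mono h1)
  have b := mem_E2.1 (h2 hy); have b' := mem_E2.1 (h2 (hW y hy))
  obtain ⟨q', r', s', t', u', e1, e2, e3⟩ := low2 y.a y.z x.p x.q x.s fun c => hy' ⟨c.1, b, c.2⟩
  have j : jv 0 q' r' s' t' u' ∈ J := ⟨rfl, rfl, rfl⟩
  have : x = bt (jv 0 q' r' s' t' u') y := by
    rw [bt_eq j]; rw [mem_UU] at hx; ext <;> simp [hx, b, e1, e2, e3] <;> ring
  rw [this, hom_bt h (h1 j) hy, bt_eq (hJ _ j)]; simp [b']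

theorem low1 : ∀ a z p : K3, ¬ (a = 0 ∧ z = 0) → ∃ q' s' : K3,
    p = -2 * a * q' - 2 * z * s' := by decide +kernel

theorem keep_ZL (h : HomOn σ W) (hW : ∀ x ∈ W, σ x ∈ W) (h1 : J ≤ W) (h2 : W ≤ E2) {y : Sy}
    (hy : y ∈ W) (hy' : y ∉ J) : ∀ x ∈ ZL, σ x ∈ ZL := fun x hx => by
  have hJ := hom_J (h.mono h1)
  have b := mem_E2.1 (h2 hy); have b' := mem_E2.1 (h2 (hW y hy))
  obtain ⟨q', s', e1⟩ := low1 y.a y.z x.p fun c => hy' ⟨c.1, b, c.2⟩
  have j : jv 0 q' 0 s' 0 0 ∈ J := ⟨rfl, rfl, rfl⟩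
  have u := mem_UU.1 (keep_UU h hW h1 h2 hy hy' (jv 0 q' 0 s' 0 0) (by simp))
  have : x = bt (jv 0 q' 0 s' 0 0) y := by
    rw [bt_eq j]; rw [mem_ZL] at hx; ext <;> simp [hx, b, e1] <;> ring
  rw [this, hom_bt h (h1 j) hy, bt_eq (hJ _ j)]; simp [b', u]

end chains

theorem Es.radA (h : Es F E Y) {W : Subgroup Sy} (h0 : W ≤ E) (h1 : J ≤ W) (h2 : W ≤ E1)
    (hW : ∀ φ, F.Iso E E φ → ∀ x ∈ W, φ x ∈ W) {y : Sy} (hy : y ∈ W) (hy' : y ∉ J) {g : Sy}
    (hg : g.a = 0) (hb : ∀ x ∈ E, x⁻¹ * (g * x * g⁻¹) ∈ W) : g ∈ E := by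
  refine h.rad (mem_norm_of_bt fun e he => h0 (hb e he)) [W, J, H0, CC]
    ⟨h0, hb, h1, fun x hx => ?_, fun x hx => hx.2, fun x hx => ?_, fun x hx => hx.2.2,
      fun x hx => ?_, fun x hx => ?_⟩ fun φ hφ A hA => ?_
  · have := mem_E1.1 (h2 hx); simp [hg, this]
  · rw [mem_J] at hx; simp [hg, hx]
  · rw [cj_apply, cj_J hx.2]; rw [mem_H0] at hx; simp [hg, hx]
  · rw [cj_apply, cj_J hx.2.2.2]; rw [mem_CC] at hx; ext <;> simp [hg, hx]
  · have hh := hφ.homOn.mono h0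
    simp only [List.mem_cons, List.not_mem_nil, or_false] at hA
    rcases hA with rfl | rfl | rfl | rfl
    exacts [hW φ hφ, hom_J (hh.mono h1), keep_H0 hh (hW φ hφ) h1 h2 hy hy',
      keep_CC hh (hW φ hφ) h1 h2 hy hy']

theorem Es.eqE1 (h : Es F E Y) (h1 : J ≤ E) (h2 : E ≤ E1) {y : Sy} (hy : y ∈ E) (hy' : y ∉ J) :
    E = E1 := le_antisymm h2 fun g hg =>
  h.radA le_rfl h1 h2 (fun _ hφ _ hx => hφ.mem hx) hy hy' hg fun x hx => h1 (by
    have := mem_E1.1 (h2 hx); have := mem_E1.1 hg; simp [*])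

theorem Es.eqE2 (h : Es F E Y) (h1 : J ≤ E) (h2 : E ≤ E2) {y : Sy} (hy : y ∈ E) (hy' : y ∉ J) :
    E = E2 := le_antisymm h2 fun g hg => by
  have hb : ∀ x ∈ E, x⁻¹ * (g * x * g⁻¹) ∈ J := fun x hx => by
    have := mem_E2.1 (h2 hx); have := mem_E2.1 hg; simp [*]
  rw [mem_E2] at hg
  refine h.rad (mem_norm_of_bt fun e he => h1 (hb e he)) [J, UU, ZL]
    ⟨h1, hb, fun x hx => hx.2.2.2, fun x hx => ?_, fun x hx => ⟨hx.2.1, hx.2.2.2⟩,
      fun x hx => ?_, fun x hx => ?_⟩ fun φ hφ A hA => ?_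
  · rw [cj_apply, cj_J hx]; rw [mem_J] at hx; simp [hg, hx]
  · rw [cj_apply, cj_J hx.2.2.2]; rw [mem_UU] at hx; simp [hg, hx]
  · rw [cj_apply, cj_J hx.2.2.2.2.2]; rw [mem_ZL] at hx; ext <;> simp [hg, hx]
  · have hh := hφ.homOn
    have hW : ∀ x ∈ E, φ x ∈ E := fun _ hx => hφ.mem hx
    simp only [List.mem_cons, List.not_mem_nil, or_false] at hA
    rcases hA with rfl | rfl | rfl
    exacts [hom_J (hh.mono h1), keep_UU hh hW h1 h2 hy hy', keep_ZL hh hW h1 h2 hy hy']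

theorem ess_J (h : Es F E Y) (hJ : J ≤ E) : E = J ∨ E = E1 ∨ E = E2 ∨ ∃ e i, E = E4 e i := by
  by_cases h0 : E ≤ J
  · exact .inl (le_antisymm h0 hJ)
  obtain ⟨y, hy, hy'⟩ := SetLike.not_le_iff_exists.1 h0
  by_cases h1 : E ≤ E1
  · exact .inr (.inl (h.eqE1 hJ h1 hy hy'))
  by_cases h2 : E ≤ E2
  · exact .inr (.inr (.inl (h.eqE2 hJ h2 hy hy')))
  have up : ∀ x ∈ E, ∀ w : Sy, x.a = w.a → x.b = w.b → x.z = w.z → w ∈ E := fun x hx w a b z => by
    simpa using E.mul_mem hx (hJ (modJ a b z))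
  have cm : ∀ x ∈ E, ∀ y ∈ E, x.a * y.b = x.b * y.a := fun x hx y hy => by
    by_contra ne
    refine (h.ess.lt h.sat isP_top).ne (eq_top_iff.2 fun w _ => ?_)
    obtain ⟨g, hg, a, b⟩ := span2 hx hy ne w.a w.b
    obtain ⟨e, he, a', b', z⟩ := adj (d := bt x y) (bt_of_norm (E.le_normalizer hx) hy)
      ⟨by simp [bt], by simp [bt], fun c => ne (by simp [bt] at c; linear_combination c)⟩ hg w.z
    exact up e he w (a'.trans a) (b'.trans b) z
  obtain ⟨x1, hx1, a1⟩ := SetLike.not_le_iff_exists.1 h1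
  obtain ⟨x2, hx2, b2⟩ := SetLike.not_le_iff_exists.1 h2
  rw [mem_E1] at a1; rw [mem_E2] at b2
  obtain ⟨x, hx, xa, xb⟩ := pw hx1 x1.a
  rw [sq1 _ a1] at xa
  have ab : ∀ w ∈ E, w.b = x.b * w.a := fun w hw => by
    have := cm x hx w hw; rwa [xa, one_mul] at this
  have xb0 : x.b ≠ 0 := fun c => b2 (by rw [ab x2 hx2, c, zero_mul])
  obtain ⟨e, he⟩ : ∃ e, x.b = sn e := by
    rcases k3 x.b with c | c | c
    exacts [absurd c xb0, ⟨false, c⟩, ⟨true, c⟩]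
  by_cases hz : ∃ d ∈ E, d.a = 0 ∧ d.b = 0 ∧ d.z ≠ 0
  · exfalso
    obtain ⟨d, hd, hd'⟩ := hz
    have zE : JZ ≤ E := fun w hw => by
      obtain ⟨e, he, a, b, z⟩ := pwz hd hd' w.z
      exact up e he w (a.trans hw.1.symm) (b.trans hw.2.symm) z
    have := h.radA zE (fun _ hx => ⟨hx.1, hx.2.1⟩) (fun _ hx => hx.1) (fun φ hφ w hw => ?_)
      (y := gz) (by simp [gz]) (by simp [gz]) (g := gb) rfl fun x _ => by simp [gb]
    · simpa [gb] using ab _ this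
    · have hh := hφ.homOn
      have uJ : gu ∈ J := by decide
      have u := (mem_setStab_of_finite (hom_J (hh.mono hJ)) (φ⁻¹ gu)).1 (by simpa using uJ)
      have z := hφ.inv_mem (zE (show gz ∈ JZ by simp [gz]))
      have e0 : bt (bt (bt (φ⁻¹ gu) w) w) (φ⁻¹ gz) = 1 := by
        rw [bt_eq (bt_mem (bt_mem u _) _), bt_eq (bt_mem u _), bt_eq u]
        ext <;> simp [hw.1, hw.2]
      have e1 := congrArg φ e0
      rw [hom_bt hh (hJ (bt_mem (bt_mem u _) _)) z, hom_bt hh (hJ (bt_mem u _)) (zE hw),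
        hom_bt hh (hJ u) (zE hw), hh.map_one, perm_apply_inv_self, perm_apply_inv_self,
        bt_eq (bt_mem (bt_mem uJ _) _), bt_eq (bt_mem uJ _), bt_eq uJ] at e1
      have e2 := congrArg Sy.p e1
      have b := ab _ (hφ.mem (zE hw))
      simp [gu, gz, b, xb0] at e2
      exact ⟨e2, by rw [b, e2, mul_zero]⟩
  · push Not at hz
    refine .inr (.inr (.inr ⟨e, x.z + sn e, ?_⟩))
    have key : ∀ w : Sy, ∃ g ∈ E, g.a = w.a ∧ g.b = sn e * w.a ∧
        g.z = (x.z + sn e) * w.a - sn e * w.a ^ 2 := fun w => by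
      rcases k3 w.a with c | c | c
      · exact ⟨1, E.one_mem, by simp [c]⟩
      · exact ⟨x, hx, by simp [c, xa, he]⟩
      · exact ⟨x⁻¹, E.inv_mem hx, by simp [c, xa, he], by simp [c, xa, he], by
          simp only [c, xa, he, inv_z]; linear_combination (sn e) * h3⟩
    ext w
    obtain ⟨g, hg, a, b, z⟩ := key w
    rw [mem_E4]
    refine ⟨fun hw => ?_, fun hw => up g hg w a (b.trans hw.1.symm) (z.trans hw.2.symm)⟩
    have wb : w.b = sn e * w.a := he ▸ ab w hw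
    have := hz _ (E.mul_mem (E.inv_mem hg) hw) (by simp [a]) (by simp [b, wb])
    simp only [mul_z, inv_z, inv_a, a, b, z, wb] at this
    exact ⟨wb, by linear_combination this⟩

instance instEssL : EssL where
  isoJ hφ hJ := hom_J (hφ.homOn.mono hJ)
  out {_ E _} h := by
    by_cases hJ : J ≤ E
    · rcases ess_J h hJ with c | c | c | c
      exacts [.inl c, .inr (.inl c), .inr (.inr (.inl c)), .inr (.inr (.inr (.inr c)))]
    · exact .inr (.inr (.inr (.inl (ess_notJ h hJ))))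

end Cfsg.Agent.Co
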