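import Cfsg.Agent.Co.N0
import Cfsg.Agent.Co.B3
import Cfsg.Agent.U5.R2
import Cfsg.Agent.H7.More

/-! Slice G of S5227: the realizable systems. -/

set_option autoImplicit false
open Equiv

namespace Cfsg.Agent.Co.G
open Cfsg.Fus Cfsg.FusionSystem

theorem cent_J {y : Sy} (h1 : y * gr = gr * y) (h2 : y * gu = gu * y) : y ∈ J := by
  have a1 := congrArg Sy.q h1
  have a2 := congrArg Sy.s h2
  have a3 := congrArg Sy.t h2
  simp [gr, gu] at a1 a2 a3
  exact ⟨a1, a3, a2⟩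

theorem cent_S {y : Sy} (h : ∀ x, x * y = y * x) : y ∈ ZL := by
  obtain ⟨h1, h2, h3⟩ := cent_J (h gr).symm (h gu).symm
  have a1 := congrArg Sy.p (h ga)
  have a2 := congrArg Sy.q (h ga)
  have a3 := congrArg Sy.s (h ga)
  have a4 := congrArg Sy.q (h gb)
  have a5 := congrArg Sy.t (h gb)
  simp [ga, gb, h1, h2, h3] at a1 a2 a3 a4 a5
  refine ⟨?_, a2, a4, a3, a5, h1, h2, h3⟩
  grind

theorem ZL_cases {y : Sy} (h : y ∈ ZL) : y = 1 ∨ y = gp ∨ y = gp⁻¹ := by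
  obtain ⟨h1, h2, h3, h4, h5, h6, h7, h8⟩ := h
  rcases k3 y.p with e | e | e
  · exact .inl (by ext <;> simp [*])
  · exact .inr (.inl (by ext <;> simp [gp, *]))
  · exact .inr (.inr (by ext <;> simp [gp, *]))

theorem sn_odd {e : Bool} {n : ℕ} (h : sn e ^ 3 ^ n = 1) : e = false := by
  cases e
  · rfl
  · rw [sn_true, Odd.neg_one_pow (Odd.pow (by decide))] at h
    exact absurd h (by decide)

theorem sign_eq {α : MulAut Sy} {n : ℕ} (hα : α ^ 3 ^ n = 1) (A : Subgroup Sy) (φ : Sy → K3) {c : K3}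
    (h : ∀ x ∈ A, α x ∈ A ∧ φ (α x) = c * φ x) {x : Sy} (hx : x ∈ A) (h1 : φ x = 1) : c ^ 3 ^ n = 1 := by
  have key : ∀ N : ℕ, (α ^ N) x ∈ A ∧ φ ((α ^ N) x) = c ^ N := fun N => by
    induction N with
    | zero => exact ⟨hx, by simpa using h1⟩
    | succ N ih =>
      rw [pow_succ', MulAut.mul_apply, pow_succ']
      exact ⟨(h _ ih.1).1, by rw [(h _ ih.1).2, ih.2]⟩
  rw [← (key _).2, hα]; exact h1

variable {G : Type} [Group G] {ι : Sy →* G} {k : K3} {Om : Sy → Prop}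

theorem syl [AuS] (h : GD ι k Om) (hO : ∀ m, (∀ j ∈ J, Om j → Om (tau m j)) → m = 0) {g : G}
    (hg : g ∈ Subgroup.normalizer (ι.range : Set G)) (hp : H5.Cl.PE 3 g) : g ∈ ι.range := by
  have := h.fin
  let e := MonoidHom.ofInjective h.inj
  let α : MulAut Sy := (e.trans (ι.range.normalizerMonoidHom ⟨g, hg⟩)).trans e.symm
  have hα : ∀ x, ι (α x) = g * ι x * g⁻¹ := fun x => by
    have : ι (α x) = (e (α x) : G) := rfl
    rw [this]; simp only [α, MulEquiv.trans_apply, MulEquiv.apply_symm_apply]; rfl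
  obtain ⟨n, hn⟩ := hp
  have hαn : α ^ 3 ^ n = 1 := by
    have : ∀ (N : ℕ) x, ι ((α ^ N) x) = g ^ N * ι x * (g ^ N)⁻¹ := fun N x => by
      induction N with
      | zero => simp
      | succ N ih => rw [pow_succ', MulAut.mul_apply, hα, ih, pow_succ']; group
    exact MulEquiv.ext fun x => h.inj (by rw [this, hn]; simp)
  obtain ⟨s, e1, e2, e3, m, hs⟩ := AuS.res α
  have s3 : e3 = false := sn_odd (sign_eq hαn J (·.u) (x := gu) (fun x hx => by
    rw [hs x hx]; obtain ⟨h1, h2, h3⟩ := hx; simp [sg_apply, sgF, tau_apply, h1, h2, h3]) ⟨rfl, rfl, rfl⟩ rfl)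
  subst s3
  have s2 : e2 = false := sn_odd (sign_eq hαn H0 (·.t) (x := gt) (fun x hx => by
    rw [hs x hx.2]; obtain ⟨h0, h1, h2, h3⟩ := hx
    simp [sg_apply, sgF, tau_apply, h0, h1, h2, h3]; ring) ⟨rfl, rfl, rfl, rfl⟩ rfl)
  subst s2
  have s1 : e1 = false := sn_odd (sign_eq hαn L2 (·.q) (x := gq) (fun x hx => by
    rw [hs x hx.2.2.2.2]; obtain ⟨h4, h5, h6, h0, h1, h2, h3⟩ := hx
    simp [sg_apply, sgF, tau_apply, h0, h1, h2, h3, h4, h5, h6]
    exact ⟨⟨by ring, by ring⟩, by ring⟩) ⟨rfl, rfl, rfl, rfl, rfl, rfl, rfl⟩ rfl)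
  subst s1
  have hc : ∀ j ∈ J, (ι s)⁻¹ * g * ι j * ((ι s)⁻¹ * g)⁻¹ = ι (tau m j) := fun j hj => by
    have := hα j
    rw [hs j hj, show sg false false false (tau m j) = tau m j by ext <;> simp [sg_apply, sgF], map_mul, map_mul,
      map_inv] at this
    rw [mul_inv_rev, mul_assoc _ g, mul_assoc, ← mul_assoc (g * ι j), ← this]; group
  obtain rfl : m = 0 := hO m fun j hj => h.om _ j hj _ hj (hc j hj)
  have hP : IsPGroup 3 ↥(Subgroup.zpowers g ⊔ ι.range) :=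
    IsPGroup.to_sup_of_normal_right' (fun ⟨_, i, rfl⟩ => ⟨n, Subtype.ext (by
      simp only [SubgroupClass.coe_pow, OneMemClass.coe_one]
      rw [← zpow_natCast, ← zpow_mul, mul_comm, zpow_mul, zpow_natCast, hn, one_zpow])⟩)
      (isP_Sy.of_equiv e) (Subgroup.zpowers_le.2 hg)
  obtain ⟨j, -, hj⟩ := h.cent ((ι s)⁻¹ * g) (H5.Cl.PE.of_mem hP (Subgroup.mul_mem _
    (Subgroup.mem_sup_right (Subgroup.inv_mem _ ⟨s, rfl⟩)) (Subgroup.mem_sup_left (Subgroup.mem_zpowers g))))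
    fun j hj => by
      have := hc j hj
      rw [show tau 0 j = j by ext <;> simp [tau_apply]] at this
      exact mul_inv_eq_iff_eq_mul.1 this
  exact ⟨s * j, by rw [map_mul, ← hj]; group⟩

/-- the fusion system of `G` on `Sy` -/
def Rl (ι : Sy →* G) (F : FS) : Prop := ∀ P f, F.IsMap P f ↔ ∃ g : G, ∀ x ∈ P, g * ι x * g⁻¹ = ι (f x)

theorem Rl.iso {F : FS} (hF : Rl ι F) {σ : Perm Sy} (h : ∃ g : G, ∀ j ∈ J, g * ι j * g⁻¹ = ι (σ j))
    (hσ : ∀ j ∈ J, σ j ∈ J) : F.Iso J J σ := ((hF _ _).2 h).iso_self hσ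

theorem n1_J {j : Sy} (hj : j ∈ J) : n1 k j ∈ J := by
  obtain ⟨h1, h2, h3⟩ := hj; simp [n1_apply, h1, h2, h3]

theorem n2_J {j : Sy} (hj : j ∈ J) : n2 k j ∈ J := by
  obtain ⟨h1, h2, h3⟩ := hj; simp [n2_apply, h1, h2, h3]

theorem exists_good [AuS] (h : GD ι k Om) (hO : ∀ m, (∀ j ∈ J, Om j → Om (tau m j)) → m = 0) :
    ∃ F : FS, Good F ∧ Rl ι F := by
  have := h.fin
  obtain ⟨F, f1, f2, f3⟩ := Uf.Rz.exists_fus (p := 3) ι h.inj isP_Sy ⊤ (fun _ => trivial) fun g _ hn hp =>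
    syl h hO (by
      refine Subgroup.inv_mem_iff _ |>.1 (mem_normalizer_of_finite ?_)
      rintro _ ⟨y, rfl⟩
      obtain ⟨x, hx⟩ := hn y
      exact ⟨x, by rw [mul_assoc, inv_inv, hx]; group⟩) hp
  have hF : Rl ι F := fun P f => (f3 P f).trans
    ⟨fun ⟨g, _, e⟩ => ⟨g, fun x hx => by rw [← e x hx]; group⟩,
      fun ⟨g, e⟩ => ⟨g, trivial, fun x hx => by rw [← e x hx]; group⟩⟩
  refine ⟨F, ⟨f1, f2, ?_⟩, hF⟩
  by_contra hc
  obtain ⟨Q, q1, q2, q3⟩ := IsSaturated.exists_comm_of_core_ne_bot isP_top hc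
  have sc := q3.stronglyClosed
  obtain ⟨z, z1, z2, -, z3⟩ := exists_central_of_ne_bot isP_top le_rfl le_top q3.le_normalizer q1
  have hp : gp ∈ Q := by
    rcases ZL_cases (cent_S fun x => z3 x trivial) with e | e | e
    · exact absurd e z2
    · exact e ▸ z1
    · exact Q.inv_mem_iff.1 (e ▸ z1)
  have hr : gr ∈ Q := mem_of_eq (sc.mem (hF.iso h.g1 fun _ => n1_J).isMap ⟨rfl, rfl, rfl⟩ hp)
    (by ext <;> simp [n1_apply, gp, gr])
  have hu : gu ∈ Q := mem_of_eq (sc.mem (hF.iso h.g2 fun _ => n2_J).isMap ⟨rfl, rfl, rfl⟩ hr)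
    (by ext <;> simp [n2_apply, gu, gr])
  have hJ : J ≤ Q := J_le hp
    (mem_of_eq (Q.mul_mem (sc.conj_mem (g := ga) trivial hr) (Q.inv_mem (Q.mul_mem hp hr))) (by decide)) hr
    (mem_of_eq (Q.mul_mem (sc.conj_mem (g := gz) trivial hu) (Q.inv_mem (Q.mul_mem hp hu))) (by decide))
    (mem_of_eq (Q.mul_mem (sc.conj_mem (g := gb) trivial hu) (Q.inv_mem (Q.mul_mem hr hu))) (by decide)) hu
  obtain ⟨g, j, hj, y, hy, e⟩ := h.g3
  have cm : ∀ a ∈ Q, ∀ b ∈ Q, a * b = b * a := fun a ha b hb =>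
    commutatorElement_eq_one_iff_mul_comm.1 (Subgroup.mem_bot.1 (q2 ▸ Subgroup.commutator_mem_commutator ha hb))
  have hm : F.IsMap (Subgroup.zpowers j) (fun x => Function.invFun ι (g * ι x * g⁻¹)) := (hF _ _).2 ⟨g, by
    rintro _ ⟨i, rfl⟩
    refine (Function.invFun_eq ⟨y ^ i, ?_⟩).symm
    simp only [map_zpow, ← e, conj_zpow]⟩
  have hyQ := sc.mem hm (Subgroup.mem_zpowers j) (hJ hj)
  simp only [e, Function.leftInverse_invFun h.inj y] at hyQ
  exact hy (cent_J (cm _ hyQ _ hr) (cm _ hyQ _ hu))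

theorem om13_tau (e : Bool) (m : K3) (h : ∀ j ∈ J, om13 e j → om13 e (tau m j)) : m = 0 := by
  obtain ⟨x, y, w, f, -, hf⟩ := h gu ⟨rfl, rfl, rfl⟩ ⟨0, 0, 1, false, by simp, by decide⟩
  have a1 := congrArg Sy.p hf
  have a2 := congrArg Sy.s hf
  have a3 := congrArg Sy.u hf
  simp only [tau_apply, gu] at a1 a2 a3
  clear h hf
  revert a1 a2 a3
  generalize sn f = c
  revert m x w c; decide

theorem om13_gp (e : Bool) : om13 e gp := ⟨1, 0, 0, false, by simp, by decide⟩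

theorem not_I1 {e : Bool} (h : GD ι 0 (om13 e)) {F : FS} (hF : Rl ι F) : ¬ I1 F := by
  rintro ⟨σ, h1, x, hx, h2, h3⟩
  obtain ⟨g, hg⟩ := (hF _ _).1 h1.isMap
  have pJ : gp ∈ J := ⟨rfl, rfl, rfl⟩
  have key : σ gp ∈ E3 → σ gp ∈ CC := fun hu => by
    obtain ⟨x, y, w, f, -, hf⟩ := h.om g gp pJ _ (h1.mem pJ) (hg gp pJ) (om13_gp e)
    rw [hf] at hu ⊢
    have : w = 0 := by
      simp only [mem_E3] at hu
      clear hf; revert hu; cases f <;> revert w <;> decide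
    simp [this]
  rcases ZL_cases hx with rfl | rfl | rfl
  · exact h3 (by rw [h1.homOn.map_one]; exact CC.one_mem)
  · exact h3 (key h2)
  · rw [h1.homOn.map_inv pJ] at h2 h3
    exact h3 (CC.inv_mem (key (E3.inv_mem_iff.1 h2)))

theorem om24_tau (m : K3) (hm : ∀ j ∈ J, j ∈ om24 → tau m j ∈ om24) : m = 0 := by
  have := hm (jv 1 0 0 0 0 1) ⟨rfl, rfl, rfl⟩ (by decide)
  rcases k3 m with rfl | rfl | rfl
  · rfl
  · exact absurd this (by decide)
  · exact absurd this (by decide)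

instance instMdl [CoA] [SpP] [AuS] : Mdl where
  a := by
    obtain ⟨G, _, ι, h, -⟩ := SpP.out false
    obtain ⟨F, h1, hF⟩ := exists_good h (om13_tau false)
    refine ⟨F, h1, not_I1 h hF, fun ⟨σ, s1, s2⟩ => ?_⟩
    obtain ⟨g, hg⟩ := (hF _ _).1 s1.isMap
    have pJ : gp ∈ J := ⟨rfl, rfl, rfl⟩
    obtain ⟨x, y, w, f, hf, e⟩ := h.om g gp pJ _ (s1.mem pJ) (hg gp pJ) (om13_gp false)
    obtain rfl : f = false := by simpa using hf
    have := congrArg Sy.p ((s2 gp pJ).symm.trans e)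
    simp only at this
    clear e; revert this; revert x; decide
  b := by
    obtain ⟨G, _, ι, h, hi⟩ := SpP.out true
    obtain ⟨F, h1, hF⟩ := exists_good h (om13_tau true)
    exact ⟨F, h1, not_I1 h hF, Equiv.inv Sy, hF.iso (hi rfl) fun _ => J.inv_mem, fun _ _ => rfl⟩
  c := by
    obtain ⟨ι, h⟩ := CoA.out
    obtain ⟨F, h1, hF⟩ := exists_good h om24_tau
    have i1 := hF.iso h.g1 fun _ => n1_J
    have i2 := hF.iso h.g2 fun _ => n2_J
    have i3 : F.Iso J J (cj gz) := (F.isMap_cj le_top trivial).iso_self fun x hx => J_conj hx gz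
    refine ⟨F, h1, _, (((i1.trans i2).trans i3).trans i1).trans i2, gp, by simp [gp], ?_⟩
    have : (n2 0 * (n1 1 * (cj gz * (n2 0 * n1 1)))) gp = jv 1 0 1 0 1 0 := by
      simp only [Perm.mul_apply, cj_apply]; decide
    rw [this]; simp
  s := fun T => by
    obtain ⟨ι, h⟩ := CoA.out
    have := h.fin
    have e := MonoidHom.ofInjective h.inj
    exact ⟨(Sylow.equiv T (H5.Cl.isSylowIn_of_normalizer (isP_Sy.of_equiv e) fun g hg hp =>
      syl h om24_tau hg hp).toSylowTop).trans e.symm⟩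

end Cfsg.Agent.Co.G
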