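import Cfsg.Agent.Co.J0

/-! Soundness of the packed computation. -/

set_option autoImplicit false

namespace Cfsg.Agent.Co.Jx

open L.PC

theorem build_add (w : ℕ) (f g : ℕ → ℕ) (n : ℕ) :
    build w f n + build w g n = build w (fun i => f i + g i) n := by
  induction n with
  | zero => rfl
  | succ n ih => rw [build_succ, build_succ, build_succ, ← ih]; ring

theorem build_zero (w n : ℕ) : build w (fun _ => 0) n = 0 := by
  induction n with
  | zero => rfl
  | succ n ih => rw [build_succ, ih]; simp

theorem land_build {w : ℕ} {f g : ℕ → ℕ} {n : ℕ} (hf : ∀ i < n, f i < 2 ^ w) (hg : ∀ i < n, g i < 2 ^ w) :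
    build w f n &&& build w g n = build w (fun i => f i &&& g i) n := by
  induction n with
  | zero => exact Nat.and_self 0
  | succ n ih =>
    have hf' : ∀ i < n, f i < 2 ^ w := fun i hi => hf i (by omega)
    have hg' : ∀ i < n, g i < 2 ^ w := fun i hi => hg i (by omega)
    have h1 := build_lt hf'
    have h2 := build_lt hg'
    rw [build_succ, build_succ, build_succ, ← ih hf' hg']
    refine Nat.eq_of_testBit_eq fun j => ?_
    simp only [add_comm (build _ _ _), add_comm (_ &&& _ : ℕ), mul_comm _ (2 ^ (w * n)), Nat.testBit_and,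
      Nat.testBit_two_pow_mul_add _ h1, Nat.testBit_two_pow_mul_add _ h2,
      Nat.testBit_two_pow_mul_add _ (Nat.and_le_left.trans_lt h1)]
    split_ifs <;> rfl

theorem cntb_le (f : ℕ → Bool) (n : ℕ) : cntb f n ≤ n := by
  rw [cntb_eq]; exact (Finset.card_filter_le _ _).trans (by simp)

theorem cond_lt (b : Bool) : cond b 1 0 < 2 ^ 10 := by cases b <;> norm_num

theorem sl_lt (g : ℕ → Bool) : sl g < 2 ^ 20480 := build_lt (w := 10) (n := 2048) fun _ _ => cond_lt _

theorem bit_S {m : ℕ} (hm : m < 2048) (σ j : ℕ) :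
    bit (2048 * σ + m) j = if j < 11 then bit m j else bit σ (j - 11) := by
  simp only [bit_eq]; exact Nat.testBit_two_pow_mul_add (i := 11) _ hm j

theorem ej_eq (σ j : ℕ) : ej (build 20480 (fun j => sl fun m => bit m j) 11) (sl fun _ => true) σ j =
    sl fun m => bit (2048 * σ + m) j := by
  rw [ej, frc_eq]
  rcases Nat.lt_or_ge j 11 with h | h
  · rw [show Nat.blt j 11 = true from by rw [Nat.blt_eq]; exact h, cond_true, app_build (fun _ _ => sl_lt _) h]
    exact build_congr fun m hm => by simp only [bit_S hm, if_pos h]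
  · rw [show Nat.blt j 11 = false from by rw [← Bool.not_eq_true, Nat.blt_eq]; omega, cond_false]
    have : (sl fun m => bit (2048 * σ + m) j) = sl fun _ => bit σ (Nat.sub j 11) :=
      build_congr fun m hm => by simp only [bit_S hm, if_neg (not_lt.2 h)]; rfl
    rw [this]
    cases bit σ (Nat.sub j 11)
    exacts [(build_zero _ _).symm, cond_true _ _]

theorem sumF_eq (σ LA n : ℕ) : sumF (build 20480 (fun j => sl fun m => bit m j) 11) (sl fun _ => true) σ LA n =
    build 10 (fun m => cntb (fun c => bit (2048 * σ + m) (lab c) && bit (2048 * σ + m) (app 5 LA c)) n) 2048 := by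
  induction n with
  | zero => exact (build_zero _ _).symm
  | succ n ih =>
    change sumF _ _ σ LA n + (ej _ _ σ (lab n) &&& ej _ _ σ (app 5 LA n)) = _
    rw [ih, ej_eq, ej_eq, sl, sl, land_build (fun _ _ => cond_lt _) (fun _ _ => cond_lt _), build_add]
    refine build_congr fun m _ => ?_
    change _ = cond (bit _ (lab n) && bit _ (app 5 LA n)) (_ + 1) _
    cases bit (2048 * σ + m) (lab n) <;> cases bit (2048 * σ + m) (app 5 LA n) <;> rfl

theorem all11_iff {f : ℕ → Bool} (h : all11 f = true) {a : ℕ} (ha : a < 2048) : f a = true := by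
  have := allb_iff.1 (allb_iff.1 h (a / 64) (by omega)) (a % 64) (Nat.mod_lt _ (by norm_num))
  rwa [show Nat.add (Nat.mul 64 (a / 64)) (a % 64) = a from Nat.div_add_mod a 64, frc_eq] at this

theorem cntb_congr {f g : ℕ → Bool} {n : ℕ} (h : ∀ i < n, f i = g i) : cntb f n = cntb g n := by
  rw [cntb_eq, cntb_eq, Finset.filter_congr fun i hi => by rw [h i (Finset.mem_range.1 hi)]]

theorem key {m σ : ℕ} (hm : m < 2048) (hσ : σ < 2048) (h0 : bit σ 0 = true) (h1 : mu σ ≤ cntb (bit m) 11)
    (h2 : ∀ i < 11, bit m i = true →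
      cn (2048 * σ + m) (2048 * σ + m) (rp i) = cn (2048 * σ + m) (2048 * σ + m) (rp 11)) :
    σ = 1 ∧ m ∈ [32, 64, 128] := by
  have h := ck_true
  rw [ck, frc_eq, frc_eq, frc_eq] at h
  have h := all11_iff h hσ
  rw [h0, cond_true, frc_eq, show Nat.ble (mu σ) 11 = true from by
    rw [Nat.ble_eq]; exact h1.trans (cntb_le _ _), cond_true,
    frc_eq, frc_eq] at h
  have h := all11_iff h hm
  have c : ∀ (f : ℕ → ℕ → Bool), ∀ i < 2048, cntb (f i) 729 < 2 ^ 10 := fun f i _ =>
    (cntb_le _ _).trans_lt (by norm_num)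
  have e : ∀ i < 12, app 10 (app 20480 (build 20480 (fun x => frc (app 3645 (build 3645 (fun x => frc (rp x)
      fun y => build 5 (fun c => lab (ad y c)) 729) 12) x) fun LA => sumF (build 20480 (fun j => sl fun m => bit m j) 11)
      (sl fun _ => true) σ LA 729) 12) i) m = cn (2048 * σ + m) (2048 * σ + m) (rp i) := fun i hi => by
    rw [app_build (fun j _ => by rw [frc_eq, sumF_eq]; exact build_lt (w := 10) (n := 2048) (c _)) hi, frc_eq,
      sumF_eq, app_build (c _) hm, app_build (fun j _ => by
        rw [frc_eq]; exact build_lt (w := 5) (n := 729) fun _ _ => app_lt _ _ _) hi, frc_eq]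
    exact cntb_congr fun c hc => by
      rw [app_build (f := fun c => lab (ad (rp i) c)) (fun _ _ => app_lt _ _ _) hc]
  simp only [Bool.or_eq_true, Nat.blt_eq, Bool.not_eq_true', Bool.and_eq_true, beq_iff, memb_iff] at h
  rcases h with (h | h) | h
  · omega
  · rw [← Bool.not_eq_true, allb_iff] at h
    refine (h fun i hi => ?_).elim
    cases hb : bit m i
    · rfl
    · rw [e i (by omega), e 11 (by omega), h2 i hi hb]; simp
  · exact h

end Cfsg.Agent.Co.Jx
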