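import Cfsg.Agent.Co.B2
import Cfsg.Agent.Co.N0

/-! `J` is not essential, step 1: the stabiliser of the centre line. -/

set_option autoImplicit false
set_option linter.unusedSimpArgs false
open Equiv

namespace Cfsg.Agent.Co.Jx
open Cfsg.Fus Cfsg.FusionSystem

variable {F : FS} {Y : Subgroup (Perm Sy)} {φ : Perm Sy}

theorem nJ (g : Sy) : g ∈ Subgroup.normalizer (J : Set Sy) := mem_normalizer_of_finite fun _ hx => J_conj hx g

theorem isoc (F : FS) (g : Sy) : F.Iso J J (cj g) := F.iso_cj le_top trivial (nJ g)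

theorem mem_pre (hφ : F.Iso J J φ) {H : Subgroup Sy} (hH : H ≤ J) {x : Sy} : x ∈ img ⇑φ⁻¹ H ↔ φ x ∈ H := by
  rw [(hφ.symm.homOn.mono hH).mem_img_perm, inv_inv]

theorem ZL_UU : ZL ≤ UU := fun x hx => by simp only [mem_ZL, mem_UU] at *; tauto
theorem UU_J : UU ≤ J := fun x hx => by simp only [mem_J, mem_UU] at *; tauto
theorem gp_ZL : gp ∈ ZL := by simp [gp]

theorem stabL (hφ : F.Iso J J φ) (h : φ gp ∈ ZL) : φ ∈ setStab ZL := mem_setStab_of_finite fun x hx => by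
  rw [← mem_pre hφ (ZL_UU.trans UU_J), eq_jv (UU_J (ZL_UU hx))]
  simp only [mem_ZL] at hx
  exact jv_mem _ _ _ _ _ _ (Or.inr ((mem_pre hφ (ZL_UU.trans UU_J)).2 h)) (by tauto) (by tauto) (by tauto)
    (by tauto) (by tauto)

theorem cj_ZL (g : Sy) : cj g ∈ setStab ZL := mem_setStab_of_finite fun x hx => by
  simp only [mem_ZL] at hx
  simp [cj_apply, hx]
  ring_nf
  simp

theorem nu (h : Es F J Y) (hφ : F.Iso J J φ) (h1 : φ ∈ setStab ZL) (h2 : ∀ x ∈ UU, φ x ∈ UU) : φ ∈ Y := by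
  by_contra hY
  have hc : Ch (cj gz) J [UU, ZL] := ⟨UU_J, fun x hx => by
      simp only [mem_J] at hx; simp [cj_apply, gz, hx], ZL_UU, fun x hx => by
      simp only [mem_UU] at hx; simp [cj_apply, gz, hx], fun x hx => by
      simp only [mem_ZL] at hx; ext <;> simp [cj_apply, gz, hx]⟩
  refine h.off (nJ gz) (by decide) (nJ gz) (by decide) hφ hY _ hc (hc.conj hφ.homOn fun A hA => ?_)
  simp only [List.mem_cons, List.not_mem_nil, or_false] at hA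
  rcases hA with rfl | rfl | rfl
  exacts [hφ.mem_setStab, mem_setStab_of_finite h2, h1]

theorem genU {u : Sy} (h1 : u ∈ UU) (h2 : u ∉ ZL) :
    ∃ v ∈ UU, ∀ H : Subgroup Sy, gp ∈ H → u ∈ H → v ∈ H → UU ≤ H := by
  have key : ∀ H : Subgroup Sy, gp ∈ H → gq ∈ H → gs ∈ H → UU ≤ H := fun H a b c x hx => by
    rw [eq_jv (UU_J hx)]
    simp only [mem_UU] at hx
    exact jv_mem _ _ _ _ _ _ (Or.inr a) (Or.inr b) (by tauto) (Or.inr c) (by tauto) (by tauto)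
  simp only [mem_UU] at h1
  by_cases hs : u.s = 0
  · refine ⟨gs, by simp [gs], fun H a b c => key H a (of_sm (k := u.q) (by decide) (fun e => h2 (by simp [h1, hs, e])) ?_) c⟩
    convert H.mul_mem b (sm_mem (by decide) a (-u.p)) using 1
    ext <;> simp [sm, gp, gq, h1, hs]
  · refine ⟨gq, by simp [gq], fun H a b c => key H a c (of_sm (k := u.s) (by decide) hs ?_)⟩
    convert H.mul_mem (H.mul_mem b (sm_mem (by decide) a (-u.p))) (sm_mem (by decide) c (-u.q)) using 1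
    ext <;> simp [sm, gp, gq, gs, h1]

theorem f1 : ∀ r t u q s : K3, ¬ (q = 0 ∧ s = 0) →
    ∃ m k c : K3, ¬ (m = 0 ∧ k = 0) ∧ -m * r - k * t = c * q ∧ -m * t - k * u = c * s := by decide +kernel

theorem conj_app (φ : Perm Sy) (y x : Sy) : (φ⁻¹ * cj y⁻¹ * φ⁻¹⁻¹) x = φ⁻¹ (y⁻¹ * φ x * y) := by
  rw [Perm.mul_apply, Perm.mul_apply, cj_apply, inv_inv, inv_inv]

theorem s1a (h : Es F J Y) (hφ : F.Iso J J φ) (hY : φ ∉ Y) (h1 : φ ∈ setStab ZL) {u : Sy} (hu : u ∈ UU)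
    (hn : u ∉ ZL) (hw : φ u ∈ UU) : False := by
  obtain ⟨v, hv, hg⟩ := genU hu hn
  have hv' := hφ.mem (UU_J hv)
  have k1 := mem_img_of_mem φ hu
  have k2 := mem_img_of_mem φ hv
  have hi : ∀ {y}, y ∈ img φ UU ↔ _ := (hφ.homOn.mono UU_J).mem_img_perm
  have k3 : ZL ≤ img φ UU := fun x hx => hi.2 (ZL_UU ((inv_mem h1 x).2 hx))
  have hn' : φ u ∉ ZL := fun e => hn ((h1 u).1 e)
  generalize e1 : φ u = w at *
  generalize e2 : φ v = w2 at *
  simp only [mem_UU, mem_J] at hw hv'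
  obtain ⟨m, k, c, a1, a2, a3⟩ := f1 w2.r w2.t w2.u w.q w.s fun e => hn' (by simp [hw, e])
  let y : Sy := ⟨0, 0, 0, 0, 0, 0, m, 0, k⟩
  have hy : y⁻¹ ∉ J := fun e => a1 (by simpa [y] using inv_mem e)
  have hρ := hφ.symm.conj (isoc F y⁻¹)
  refine h.conj_not (nJ _) hy hφ.symm (fun e => hY (by simpa using inv_mem e)) (nu h hρ
    (mul_mem (mul_mem (inv_mem h1) (cj_ZL _)) (inv_mem (inv_mem h1))) fun x hx => (mem_pre hρ UU_J).1
      (hg _ ?_ ?_ ?_ hx)) <;> rw [mem_pre hρ UU_J, conj_app, ← hi]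
  · exact k3 (by simpa [cj_apply] using (cj_ZL y⁻¹ _).2 ((h1 gp).2 gp_ZL))
  · rw [e1, ← mul_inv_cancel_left w (y⁻¹ * w * y)]
    exact mul_mem k1 (k3 (by simp [y, hw]))
  · rw [e2, ← mul_inv_cancel_left (w2 * sm c w) (y⁻¹ * w2 * y)]
    refine mul_mem (mul_mem k2 (sm_mem (by simp [hw]) k1 c)) (k3 ?_)
    simp [y, hw, hv', sm]
    exact ⟨by linear_combination a2, by linear_combination a3⟩

theorem s1b (h : Es F J Y) (hφ : F.Iso J J φ) (hY : φ ∉ Y) (h1 : φ ∈ setStab ZL) {u v y : Sy} (hu : u ∈ UU)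
    (hn : u ∉ ZL) (hv : v ∈ UU) (hy : y ∉ J) (e : (φ v)⁻¹ * (y⁻¹ * φ u * y) ∈ ZL) : False := by
  refine s1a h (hφ.symm.conj (isoc F y⁻¹)) (h.conj_not (nJ _) (fun e => hy (by simpa using inv_mem e)) hφ.symm
    fun e => hY (by simpa using inv_mem e)) (mul_mem (mul_mem (inv_mem h1) (cj_ZL _)) (inv_mem (inv_mem h1)))
    hu hn ?_
  rw [conj_app, ← (hφ.homOn.mono UU_J).mem_img_perm, ← mul_inv_cancel_left (φ v) (y⁻¹ * φ u * y)]
  exact mul_mem (mem_img_of_mem φ hv) ((hφ.homOn.mono UU_J).mem_img_perm.2 (ZL_UU ((inv_mem h1 _).2 e)))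

def lb (r t u : K3) : K3 × Bool := (u, decide (if u = 0 then t = 1 else r * u - t ^ 2 = 1))

theorem f2 : ∀ r t u : K3, r * u - t ^ 2 = 0 →
    ∃ m k : K3, ¬ (m = 0 ∧ k = 0) ∧ m * r + k * t = 0 ∧ m * t + k * u = 0 := by decide +kernel
theorem f3 : ∀ r t u r' t' u' : K3, r * u - t ^ 2 ≠ 0 → r' * u' - t' ^ 2 ≠ 0 → lb r t u = lb r' t' u' →
    ∃ b : K3, r' = r - 2 * b * t + b ^ 2 * u ∧ t' = t - b * u ∧ u' = u := by decide +kernel
theorem f4 : ∀ r t u q s : K3, r * u - t ^ 2 ≠ 0 → ∃ m k : K3, -m * r - k * t = q ∧ -m * t - k * u = s := by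
  decide +kernel

theorem orb {x w : Sy} (hx : x ∈ J) (hw : w ∈ J) (h1 : x.r * x.u - x.t ^ 2 ≠ 0) (h2 : w.r * w.u - w.t ^ 2 ≠ 0)
    (h : lb x.r x.t x.u = lb w.r w.t w.u) : ∃ y, w⁻¹ * (y⁻¹ * x * y) ∈ ZL := by
  obtain ⟨b, a1, a2, a3⟩ := f3 _ _ _ _ _ _ h1 h2 h
  obtain ⟨m, k, a4, a5⟩ := f4 _ _ _ (w.q - x.q + b * x.s) (w.s - x.s) h2
  refine ⟨⟨0, 0, 0, 0, 0, 0, 0, b, 0⟩ * ⟨0, 0, 0, 0, 0, 0, m, 0, k⟩, ?_⟩
  simp only [mem_J] at hx hw
  rw [a1, a2] at a4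
  rw [a2, a3] at a5
  simp [hx, hw, a1, a2, a3]
  exact ⟨by linear_combination a4, by ring, by linear_combination a5, by ring⟩

theorem s1 (h : Es F J Y) (hφ : F.Iso J J φ) (h0 : φ gp ∈ ZL) : φ ∈ Y := by
  by_contra hY
  have h1 := stabL hφ h0
  let u : {v : K3 × K3 // v ≠ 0} → Sy := fun v => jv 0 v.1.1 0 v.1.2 0 0
  have hu : ∀ v, u v ∈ UU := fun v => by simp [u]
  have hn : ∀ v, u v ∉ ZL := fun v e => v.2 (Prod.ext e.1 e.2.2.1)
  have hJ : ∀ v, φ (u v) ∈ J := fun v => hφ.mem (UU_J (hu v))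
  have hd : ∀ v, (φ (u v)).r * (φ (u v)).u - (φ (u v)).t ^ 2 ≠ 0 := fun v e => by
    obtain ⟨m, k, a1, a2, a3⟩ := f2 _ _ _ e
    refine s1b h hφ hY h1 (hu v) (hn v) (hu v) (y := ⟨0, 0, 0, 0, 0, 0, m, 0, k⟩) (fun e => a1 ⟨e.1, e.2.2⟩) ?_
    have := hJ v
    generalize φ (u v) = w at *
    simp only [mem_J] at this
    simp [this]
    exact ⟨by linear_combination -a2, by linear_combination -a3⟩
  obtain ⟨v, v', hne, e⟩ := Fintype.exists_ne_map_eq_of_card_lt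
    (fun v => lb (φ (u v)).r (φ (u v)).t (φ (u v)).u) (by decide +kernel)
  obtain ⟨y, hy⟩ := orb (hJ v) (hJ v') (hd v) (hd v') e
  by_cases hyJ : y ∈ J
  · rw [mul_assoc y⁻¹, J_comm (hJ v) hyJ, inv_mul_cancel_left, ← hφ.homOn.map_inv (UU_J (hu v')),
      ← hφ.homOn.map_mul (inv_mem (UU_J (hu v'))) (UU_J (hu v)), h1] at hy
    simp [u] at hy
    exact hne (Subtype.ext (Prod.ext (by linear_combination hy.1) (by linear_combination hy.2)))
  · exact s1b h hφ hY h1 (hu v) (hn v) (hu v') hyJ hy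

end Cfsg.Agent.Co.Jx
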