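import Cfsg.Agent.Co.J1
import Cfsg.Agent.Co.J2

/-! `J` is not essential, coding of the elements of `J`. -/

set_option autoImplicit false
set_option linter.unusedSimpArgs false
open Equiv

namespace Cfsg.Agent.Co.Jx
open Cfsg.Fus Cfsg.FusionSystem L.PC

def dec (c : ℕ) : Sy := jv (c : ℕ) (c / 3 : ℕ) (c / 9 : ℕ) (c / 27 : ℕ) (c / 81 : ℕ) (c / 243 : ℕ)
def rr (w : ℕ) : Sy := ⟨0, 0, 0, 0, 0, 0, (w : ℕ), (w / 3 : ℕ), (w / 9 : ℕ)⟩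
def enc (x : Sy) : ℕ := x.p.val + 3 * x.q.val + 9 * x.r.val + 27 * x.s.val + 81 * x.t.val + 243 * x.u.val

theorem dec_J (c : ℕ) : dec c ∈ J := ⟨rfl, rfl, rfl⟩

theorem t0 : ∀ p q r s t u : K3, enc (jv p q r s t u) < 729 ∧ dec (enc (jv p q r s t u)) = jv p q r s t u := by
  decide +kernel

theorem t1 : ∀ c < 729, enc (dec c) = c ∧ lab c < 23 ∧
    (rr (app 6 tW c) * dec c * (rr (app 6 tW c))⁻¹ = dec (rp (lab c)) ∨
      rr (app 6 tW c) * dec c * (rr (app 6 tW c))⁻¹ = (dec (rp (lab c)))⁻¹) ∧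
    (11 ≤ lab c → rr (app 5 tF c) ∉ J ∧ rr (app 5 tF c) * dec c * (rr (app 5 tF c))⁻¹ = dec c) := by
  decide +kernel

theorem t2 : (∀ j < 23, rp j < 729 ∧ lab (rp j) = j) ∧ dec (rp 11) = gp ∧ dec (rp 22) = 1 ∧ rp 11 = 1 ∧
    ∀ t < 67, pt t < 729 ∧ 11 ≤ lab (pt t) ∧ ∀ t' < 67, pt t = pt t' ∨ pt t = ad (pt t') (pt t') → t = t' := by
  decide +kernel

end Cfsg.Agent.Co.Jx
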