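import Cfsg.Agent.Co.J2b

/-! `J` is not essential, step 2: the orbit of the centre line. -/

set_option autoImplicit false
set_option linter.unusedSimpArgs false
open Equiv

namespace Cfsg.Agent.Co.Jx
open Cfsg.Fus Cfsg.FusionSystem L.PC

theorem enc_spec {x : Sy} (hx : x ∈ J) : enc x < 729 ∧ dec (enc x) = x := by
  rw [eq_jv hx]; exact t0 _ _ _ _ _ _

theorem dec_inj {a b : ℕ} (ha : a < 729) (hb : b < 729) (h : dec a = dec b) : a = b := by
  rw [← (t1 a ha).1, h, (t1 b hb).1]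

theorem ad_eq (x c : ℕ) : ∃ a1 a2 a3 a4 a5 a6 : ℕ, (a1 < 3 ∧ a2 < 3 ∧ a3 < 3 ∧ a4 < 3 ∧ a5 < 3 ∧ a6 < 3) ∧
    ad x c = a1 + 3 * a2 + 9 * a3 + 27 * a4 + 81 * a5 + 243 * a6 ∧
    dec x * dec c = jv a1 a2 a3 a4 a5 a6 := by
  have l : ∀ a : ℕ, a % 3 < 3 := fun a => Nat.mod_lt _ (by norm_num)
  refine ⟨(x / 1 + c / 1) % 3, (x / 3 + c / 3) % 3, (x / 9 + c / 9) % 3, (x / 27 + c / 27) % 3, (x / 81 + c / 81) % 3,
    (x / 243 + c / 243) % 3, ⟨l _, l _, l _, l _, l _, l _⟩, ?_, ?_⟩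
  · have : ∀ k, sd x c k = k * ((x / k + c / k) % 3) := fun _ => rfl
    simp only [ad, this, Nat.add_eq]
    ring
  · ext <;> simp [dec]

theorem ad_lt (x c : ℕ) : ad x c < 729 := by
  obtain ⟨a1, a2, a3, a4, a5, a6, h1, h2, -⟩ := ad_eq x c
  omega

theorem t3 : ∀ a1 < 3, ∀ a2 < 3, ∀ a3 < 3, ∀ a4 < 3, ∀ a5 < 3, ∀ a6 < 3,
    dec (a1 + 3 * a2 + 9 * a3 + 27 * a4 + 81 * a5 + 243 * a6) = jv a1 a2 a3 a4 a5 a6 := by decide +kernel

theorem dec_ad (x c : ℕ) : dec (ad x c) = dec x * dec c := by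
  obtain ⟨a1, a2, a3, a4, a5, a6, ⟨h1, h2, h3, h4, h5, h6⟩, e1, e2⟩ := ad_eq x c
  rw [e1, e2, t3 _ h1 _ h2 _ h3 _ h4 _ h5 _ h6]

theorem same_lab {a b : ℕ} (ha : a < 729) (hb : b < 729) (h : lab a = lab b) :
    ∃ g, g * dec a * g⁻¹ = dec b ∨ g * dec a * g⁻¹ = (dec b)⁻¹ := by
  have h1 := (t1 a ha).2.2.1
  have h2 := (t1 b hb).2.2.1
  rw [h] at h1
  generalize rr (app 6 tW a) = g at h1
  generalize rr (app 6 tW b) = k at h2
  refine ⟨k⁻¹ * g, ?_⟩
  have e : k⁻¹ * g * dec a * (k⁻¹ * g)⁻¹ = k⁻¹ * (g * dec a * g⁻¹) * k := by group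
  rw [e]
  rcases h1 with h1 | h1 <;> rcases h2 with h2 | h2 <;> rw [h1]
  · left; rw [← h2]; group
  · right; rw [inv_eq_iff_eq_inv.2 h2 |>.symm]; group
  · right; rw [← h2]; group
  · left; rw [← h2]; group

variable {F : FS} {Y : Subgroup (Perm Sy)} {φ : Perm Sy} {A B : Sy → Prop}

/-- invariant subsets of `J` -/
def Inv (F : FS) (A : Sy → Prop) : Prop :=
  (∀ φ, F.Iso J J φ → ∀ x ∈ J, A x → A (φ x)) ∧ ∀ x ∈ J, A x → A x⁻¹

theorem Inv.iff (h : Inv F A) (hφ : F.Iso J J φ) {x : Sy} (hx : x ∈ J) : A (φ x) ↔ A x :=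
  ⟨fun e => by simpa using h.1 _ hφ.symm _ (hφ.mem hx) e, h.1 φ hφ x hx⟩

theorem Inv.inv (h : Inv F A) {x : Sy} (hx : x ∈ J) : A x⁻¹ ↔ A x :=
  ⟨fun e => by simpa using h.2 _ (inv_mem hx) e, h.2 x hx⟩

open Classical in
noncomputable def msk (A : Sy → Prop) : ℕ := build 1 (fun j => if A (dec (rp j)) then 1 else 0) 23

theorem msk_lt (A : Sy → Prop) : msk A < 2 ^ 23 := build_lt (w := 1) fun _ _ => by split_ifs <;> norm_num

theorem bit_msk {j : ℕ} (hj : j < 23) : bit (msk A) j = true ↔ A (dec (rp j)) := by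
  classical
  have := app_build (w := 1) (f := fun j => if A (dec (rp j)) then 1 else 0)
    (fun _ _ => by split_ifs <;> norm_num) hj
  rw [app_eq, one_mul, pow_one] at this
  rw [bit_eq, Nat.testBit_eq_decide_div_mod_eq, decide_eq_true_iff, msk, this]
  simp

theorem Inv.bit_lab (h : Inv F A) {c : ℕ} (hc : c < 729) : bit (msk A) (lab c) = true ↔ A (dec c) := by
  rw [bit_msk (t1 c hc).2.1, ← h.iff (isoc F (rr (app 6 tW c))) (dec_J c), cj_apply]
  rcases (t1 c hc).2.2.1 with e | e <;> rw [e]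
  exact (h.inv (dec_J _)).symm

open Classical in
noncomputable def cnt (A B : Sy → Prop) (v : Sy) : ℕ := (Finset.univ.filter fun y => y ∈ J ∧ A y ∧ B (v * y)).card

theorem cnt_eq (hA : Inv F A) (hB : Inv F B) (x : ℕ) : cnt A B (dec x) = cn (msk A) (msk B) x := by
  rw [cn, cntb_eq, cnt]
  symm
  refine Finset.card_bij (fun c _ => dec c) (fun c hc => ?_) (fun a ha b hb => dec_inj ?_ ?_) fun y hy => ?_
  · simp only [Finset.mem_filter, Finset.mem_range, Bool.and_eq_true, Finset.mem_univ, true_and] at hc ⊢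
    rw [hA.bit_lab hc.1, hB.bit_lab (ad_lt _ _), dec_ad] at hc
    exact ⟨dec_J c, hc.2⟩
  · exact Finset.mem_range.1 (Finset.mem_filter.1 ha).1
  · exact Finset.mem_range.1 (Finset.mem_filter.1 hb).1
  · simp only [Finset.mem_filter, Finset.mem_range, Bool.and_eq_true, Finset.mem_univ, true_and] at hy ⊢
    obtain ⟨h1, h2⟩ := enc_spec hy.1
    refine ⟨enc y, ⟨h1, ?_⟩, h2⟩
    rw [hA.bit_lab h1, hB.bit_lab (ad_lt _ _), dec_ad, h2]
    exact hy.2

theorem cnt_inv (hA : Inv F A) (hB : Inv F B) (k : ℕ) : Inv F fun v => cnt A B v = k := by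
  refine ⟨fun φ hφ v hv e => e ▸ (Finset.card_equiv φ fun y => ?_).symm,
    fun v hv e => e ▸ (Finset.card_equiv (Equiv.inv Sy) fun y => ?_).symm⟩ <;>
    simp only [Finset.mem_filter, Finset.mem_univ, true_and, Equiv.inv_apply]
  · rw [hφ.mem_iff]
    refine and_congr_right fun hy => ?_
    rw [← hφ.homOn.map_mul hv hy, hA.iff hφ hy, hB.iff hφ (mul_mem hv hy)]
  · rw [inv_mem_iff]
    refine and_congr_right fun hy => ?_
    rw [← mul_inv_rev, ← J_comm hv hy, hA.inv hy, hB.inv (mul_mem hv hy)]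

/-- the orbit of the centre -/
def Om (F : FS) (x : Sy) : Prop := x ≠ 1 ∧ ∃ φ, F.Iso J J φ ∧ φ x ∈ ZL

theorem inv_Om : Inv F (Om F) := by
  refine ⟨fun φ hφ x hx ⟨h1, ψ, h2, h3⟩ => ⟨fun e => h1 (φ.injective (e.trans hφ.homOn.map_one.symm)), ψ * φ⁻¹,
    hφ.symm.trans h2, by simpa using h3⟩, fun x hx ⟨h1, ψ, h2, h3⟩ => ⟨inv_ne_one.2 h1, ψ, h2, ?_⟩⟩
  rw [h2.homOn.map_inv hx]; exact inv_mem h3

theorem ZL_cases {z : Sy} (h : z ∈ ZL) (h1 : z ≠ 1) : z = gp ∨ z = gp⁻¹ := by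
  simp only [mem_ZL] at h
  rcases k3 z.p with e | e | e
  · exact (h1 (by ext <;> simp [h, e])).elim
  · left; ext <;> simp [h, e, gp]
  · right; ext <;> simp [h, e, gp]

theorem Om.trans (h : Inv F A) (h0 : A gp) {x : Sy} (hx : x ∈ J) (ho : Om F x) : A x := by
  obtain ⟨h1, φ, h2, h3⟩ := ho
  rw [← h.iff h2 hx]
  rcases ZL_cases h3 fun e => h1 (φ.injective (e.trans h2.homOn.map_one.symm)) with e | e <;> rw [e]
  exacts [h0, h.2 _ (by decide) h0]

theorem s1' (h : Es F J Y) (hφ : F.Iso J J φ) {z : Sy} (h1 : z ∈ ZL) (h2 : z ≠ 1) (h3 : φ z ∈ ZL) : φ ∈ Y := by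
  refine s1 h hφ ?_
  rcases ZL_cases h1 h2 with rfl | rfl
  · exact h3
  · rwa [hφ.homOn.map_inv (by decide), inv_mem_iff] at h3

theorem small (h : Es F J Y) (hφ : F.Iso J J φ) {c : ℕ} (hc : c < 729) (hl : 11 ≤ lab c) (h1 : dec c ≠ 1)
    (h2 : φ (dec c) ∈ ZL) : φ ∈ Y := by
  by_contra hY
  obtain ⟨h3, h4⟩ := (t1 c hc).2.2.2 hl
  refine h.conj_not (nJ _) h3 hφ hY (s1' h (hφ.conj (isoc F _)) h2
    (fun e => h1 (φ.injective (e.trans hφ.homOn.map_one.symm))) ?_)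
  simpa [cj_apply, h4] using h2

theorem mu_le (h : Es F J Y) : mu (msk (Om F) / 2048) ≤ cntb (bit (msk (Om F) % 2048)) 11 := by
  obtain ⟨φ, hφ, hY⟩ := h.exists_out
  have hS := bit_S (Nat.mod_lt (msk (Om F)) (show 0 < 2048 by norm_num)) (msk (Om F) / 2048)
  rw [Nat.div_add_mod] at hS
  have ht := t2.2.2.2.2
  have h0 : ∀ t ∈ (Finset.range 67).filter fun t => bit (msk (Om F) / 2048) (Nat.sub (lab (pt t)) 11) = true,
      t < 67 ∧ dec (pt t) ≠ 1 ∧ ∃ α ∈ Y, F.Iso J J α ∧ α (dec (pt t)) ∈ ZL := fun t hm => by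
    obtain ⟨a, b⟩ := Finset.mem_filter.1 hm
    have a := Finset.mem_range.1 a
    have c := hS (lab (pt t))
    rw [if_neg (not_lt.2 (ht t a).2.1)] at c
    obtain ⟨c1, α, c2, c3⟩ := (inv_Om.bit_lab (ht t a).1).1 (c.trans b)
    exact ⟨a, c1, α, small h c2 (ht t a).1 (ht t a).2.1 c1 c3, c2, c3⟩
  rw [mu, cntb_eq, cntb_eq]
  refine Finset.card_le_card_of_injOn (fun t => lab (enc (φ (dec (pt t))))) (fun t hm => ?_) fun t hm t' hm' e => ?_
  · obtain ⟨a, b, α, c1, c2, c3⟩ := h0 t hm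
    obtain ⟨d1, d2⟩ := enc_spec (hφ.mem (dec_J (pt t)))
    have d3 := inv_Om.1 φ hφ _ (dec_J _) ⟨b, α, c2, c3⟩
    have d4 : lab (enc (φ (dec (pt t)))) < 11 := by
      by_contra d
      have := small h (hφ.symm.trans c2) d1 (not_lt.1 d) (by rw [d2]; exact d3.1) (by rw [d2]; simpa using c3)
      exact hY (by simpa using inv_mem (mul_mem (inv_mem c1) this))
    refine Finset.mem_coe.2 (Finset.mem_filter.2 ⟨Finset.mem_range.2 d4, ?_⟩)
    have := hS (lab (enc (φ (dec (pt t)))))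
    rw [if_pos d4] at this
    rw [← this, inv_Om.bit_lab d1, d2]
    exact d3
  · obtain ⟨a, b, α, c1, c2, c3⟩ := h0 t hm
    obtain ⟨a', -, β, c4, c5, c6⟩ := h0 t' hm'
    obtain ⟨d1, d2⟩ := enc_spec (hφ.mem (dec_J (pt t)))
    obtain ⟨d3, d4⟩ := enc_spec (hφ.mem (dec_J (pt t')))
    obtain ⟨g, hg⟩ := same_lab d1 d3 e
    rw [d2, d4, ← hφ.homOn.map_inv (dec_J _)] at hg
    have hρ := hφ.symm.conj (isoc F g)
    have e1 : ∀ x, (φ⁻¹ * cj g * φ⁻¹⁻¹) x = φ⁻¹ (g * φ x * g⁻¹) := fun x => by simp [cj_apply]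
    have hg' : g ∈ J := by
      by_contra hn
      refine h.conj_not (nJ _) hn hφ.symm (fun e => hY (by simpa using inv_mem e)) ?_
      have := s1' h ((c2.symm.trans hρ).trans c5) c3 (fun e => b (α.injective (e.trans c2.homOn.map_one.symm))) (by
        rw [Perm.mul_apply, Perm.mul_apply, e1]
        rcases hg with e | e
        · simpa [e] using c6
        · simpa [e, c5.homOn.map_inv (dec_J _)] using c6)
      simpa [mul_assoc] using mul_mem (mul_mem (inv_mem c4) this) c1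
    rw [J_comm hg' (hφ.mem (dec_J _)), mul_inv_cancel_right] at hg
    refine (ht t a).2.2 t' a' (hg.imp (fun e => dec_inj (ht t a).1 (ht t' a').1 (φ.injective e))
      fun e => dec_inj (ht t a).1 (ad_lt _ _) ?_)
    rw [φ.injective e, dec_ad]
    exact inv_eq_of_mul_eq_one_left (J_cube (dec_J _))

instance instBJ : BJ where
  out F Y h := by
    have hO : Inv F (Om F) := inv_Om
    obtain ⟨r1, r2, r3, r4, -⟩ := t2
    have hm := Nat.mod_lt (msk (Om F)) (show 0 < 2048 by norm_num)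
    have hS := bit_S hm (msk (Om F) / 2048)
    rw [Nat.div_add_mod] at hS
    have tr : ∀ {B : Sy → Prop}, Inv F B → ∀ i < 11, bit (msk (Om F)) i = true →
        cn (msk (Om F)) (msk B) (rp i) = cn (msk (Om F)) (msk B) (rp 11) := fun hB i hi e => by
      rw [← cnt_eq hO hB, ← cnt_eq hO hB, r2]
      exact Om.trans (cnt_inv hO hB _) rfl (dec_J _) ((bit_msk (by omega)).1 e)
    have h22 : bit (msk (Om F)) 22 = false := by
      rw [← Bool.not_eq_true, bit_msk (by norm_num), r3]; exact fun e => e.1 rfl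
    have hlt := msk_lt (Om F)
    rw [bit_eq, Nat.testBit_eq_decide_div_mod_eq, decide_eq_false_iff_not] at h22
    obtain ⟨e1, e2⟩ := key hm (σ := msk (Om F) / 2048) (by omega)
      ((hS 11).symm.trans ((bit_msk (by norm_num)).2 (r2 ▸ ⟨by decide, 1, F.iso_one le_top, gp_ZL⟩))) (mu_le h)
      fun i hi e => by rw [Nat.div_add_mod]; exact tr hO i hi (by rw [hS, if_pos hi, e])
    have fin : ∀ i B, i < 11 → msk (Om F) = Nat.add 2048 (Nat.pow 2 i) → bit (msk (Om F)) i = true →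
        ck2 i B = true → False := fun i B hi e hb hc => by
      simp only [ck2, frc_eq, ← e, Bool.and_eq_true, allb_iff, beq_iff_eq, Bool.not_eq_true'] at hc
      have hB := cnt_inv hO hO 4
      have c : ∀ x, cn (msk (Om F)) (msk fun v => cnt (Om F) (Om F) v = 4) x = cn (msk (Om F)) B x :=
        fun x => cntb_congr fun c _ => by
          have := (t1 _ (ad_lt x c)).2.1
          rw [← hc.1 _ this, Bool.eq_iff_iff.2 (((bit_msk this).trans (by rw [cnt_eq hO hO])).trans beq_iff.symm)]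
      have := tr hB i hi hb
      rw [c, c, r4] at this
      simp [this] at hc
    have hc := ck2_true
    simp only [Bool.and_eq_true] at hc
    have e3 := Nat.div_add_mod (msk (Om F)) 2048
    simp only [List.mem_cons, List.not_mem_nil, or_false] at e2
    rcases e2 with e2 | e2 | e2 <;> rw [e1, e2] at e3
    · exact fin 5 _ (by norm_num) e3.symm (e3 ▸ by decide) hc.1.1
    · exact fin 6 _ (by norm_num) e3.symm (e3 ▸ by decide) hc.1.2
    · exact fin 7 _ (by norm_num) e3.symm (e3 ▸ by decide) hc.2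

end Cfsg.Agent.Co.Jx
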