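import Cfsg.Agent.Co.B6

/-! Generic `SL₂(3)` argument for the essential subgroups of index 3. -/

set_option autoImplicit false
set_option linter.unusedSimpArgs false
open Equiv
open scoped commutatorElement

namespace Cfsg.Agent.Co
open Cfsg.Fus Cfsg.FusionSystem

variable {F F' : FS} {E V W A B : Subgroup Sy} {l m : Sy → K3} {x0 e f : Sy} {σ τ : Perm Sy}

/-- a rank two section `V/W` of `E` with coordinates `l, m`, and a further section `A/B`. -/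
structure Cf (F : FS) (E V W A B : Subgroup Sy) (l m : Sy → K3) (x0 e f : Sy) : Prop where
  ve : V ≤ E
  ae : A ≤ E
  lm : ∀ x ∈ V, ∀ y ∈ V, l (x * y) = l x + l y ∧ m (x * y) = m x + m y
  ker : ∀ v, v ∈ W ↔ v ∈ V ∧ l v = 0 ∧ m v = 0
  he : e ∈ V ∧ l e = 1 ∧ m e = 0
  hf : f ∈ V ∧ l f = 0 ∧ m f = 1
  nx : x0 ∈ Subgroup.normalizer (E : Set Sy)
  xv : ∀ v ∈ V, l (x0 * v * x0⁻¹) = l v ∧ m (x0 * v * x0⁻¹) = m v + l v
  xq : ∀ x ∈ A, x⁻¹ * (x0 * x * x0⁻¹) ∈ B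
  iv : ∀ σ, F.Iso E E σ → (∀ x ∈ V, σ x ∈ V) ∧ (∀ x ∈ W, σ x ∈ W) ∧ (∀ x ∈ A, σ x ∈ A) ∧
    ∀ x ∈ B, σ x ∈ B

theorem add_one' {l : Sy → K3} (h : ∀ x ∈ V, ∀ y ∈ V, l (x * y) = l x + l y) : l 1 = 0 := by
  simpa using h 1 V.one_mem 1 V.one_mem

theorem add_pow' {l : Sy → K3} (h : ∀ x ∈ V, ∀ y ∈ V, l (x * y) = l x + l y) {x : Sy} (hx : x ∈ V)
    (n : ℕ) : l (x ^ n) = n * l x := by
  induction n with
  | zero => simp [add_one' h]
  | succ n ih => rw [pow_succ, h _ (V.pow_mem hx n) _ hx, ih]; push_cast; ring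

theorem add_inv' {l : Sy → K3} (h : ∀ x ∈ V, ∀ y ∈ V, l (x * y) = l x + l y) {x : Sy}
    (hx : x ∈ V) : l x⁻¹ = -l x := by
  have := h _ (V.inv_mem hx) _ hx
  rw [inv_mul_cancel, add_one' h] at this; linear_combination -this

namespace Cf

theorem lin0 (c : Cf F E V W A B l m x0 e f) {k : Sy → K3}
    (hk : ∀ x ∈ V, ∀ y ∈ V, k (x * y) = k x + k y) (h0 : ∀ w ∈ W, k w = 0) {v : Sy} (hv : v ∈ V) :
    k v = l v * k e + m v * k f := by
  have e1 := V.pow_mem c.he.1 (l v).val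
  have f1 := V.pow_mem c.hf.1 (m v).val
  have g1 := V.mul_mem e1 f1
  have hl := fun x hx y hy => (c.lm x hx y hy).1
  have hm := fun x hx y hy => (c.lm x hx y hy).2
  have := h0 _ ((c.ker _).2 ⟨V.mul_mem (V.inv_mem g1) hv, by
    rw [hl _ (V.inv_mem g1) _ hv, add_inv' hl g1, hl _ e1 _ f1, add_pow' hl c.he.1,
      add_pow' hl c.hf.1]; simp [c.he, c.hf], by
    rw [hm _ (V.inv_mem g1) _ hv, add_inv' hm g1, hm _ e1 _ f1, add_pow' hm c.he.1,
      add_pow' hm c.hf.1]; simp [c.he, c.hf]⟩)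
  rw [hk _ (V.inv_mem g1) _ hv, add_inv' hk g1, hk _ e1 _ f1, add_pow' hk c.he.1,
    add_pow' hk c.hf.1] at this
  simp only [ZMod.natCast_val, ZMod.cast_id', id_eq] at this
  linear_combination this

theorem lin (c : Cf F E V W A B l m x0 e f) (hσ : F.Iso E E σ) {v : Sy} (hv : v ∈ V) :
    l (σ v) = l v * l (σ e) + m v * l (σ f) ∧ m (σ v) = l v * m (σ e) + m v * m (σ f) := by
  obtain ⟨i1, i2, -⟩ := c.iv σ hσ
  exact ⟨c.lin0 (k := fun x => l (σ x)) (fun x hx y hy => by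
      rw [hσ.homOn (c.ve hx) (c.ve hy)]; exact (c.lm _ (i1 x hx) _ (i1 y hy)).1)
      (fun w hw => ((c.ker _).1 (i2 w hw)).2.1) hv,
    c.lin0 (k := fun x => m (σ x)) (fun x hx y hy => by
      rw [hσ.homOn (c.ve hx) (c.ve hy)]; exact (c.lm _ (i1 x hx) _ (i1 y hy)).2)
      (fun w hw => ((c.ker _).1 (i2 w hw)).2.2) hv⟩

theorem ix (c : Cf F E V W A B l m x0 e f) : F.Iso E E (cj x0) := F.iso_cj le_top trivial c.nx

theorem shift (c : Cf F E V W A B l m x0 e f) (hσ : F.Iso E E σ) (h : l (σ f) ≠ 0) :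
    ∃ g ∈ Subgroup.normalizer (E : Set Sy), l ((cj g * σ) f) = l (σ f) ∧ m ((cj g * σ) f) = 0 := by
  have v := (c.iv σ hσ).1 f c.hf.1
  have v1 := (c.iv _ c.ix).1 _ v
  have a := c.xv _ v; have b := c.xv _ v1
  have : m (σ f) = 0 ∨ m (σ f) + l (σ f) = 0 ∨ m (σ f) + l (σ f) + l (σ f) = 0 := by
    revert h; generalize l (σ f) = i, m (σ f) = j; revert i j; decide
  rcases this with z | z | z
  · exact ⟨1, Subgroup.one_mem _, by simp [z]⟩
  · exact ⟨x0, c.nx, a.1, a.2.trans z⟩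
  · refine ⟨x0 * x0, Subgroup.mul_mem _ c.nx c.nx, ?_⟩
    rw [map_mul, Perm.mul_apply, Perm.mul_apply]
    rw [cj_apply x0 (σ f)] at b ⊢
    exact ⟨b.1.trans a.1, by rw [cj_apply, b.2, a.1, a.2, z]⟩

theorem qmul (c : Cf F E V W A B l m x0 e f) (hτ : F.Iso E E τ) (h1 : ∀ x ∈ A, x⁻¹ * σ x ∈ B)
    (h2 : ∀ x ∈ A, x⁻¹ * τ x ∈ B) : ∀ x ∈ A, x⁻¹ * (σ * τ) x ∈ B := fun x hx => by
  simpa [mul_assoc] using B.mul_mem (h2 x hx) (h1 _ ((c.iv τ hτ).2.2.1 x hx))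

theorem rot (c : Cf F E V W A B l m x0 e f) (hσ : F.Iso E E σ) (h : l (σ f) ≠ 0) :
    ∃ w, F.Iso E E w ∧ (∀ v ∈ V, l (w v) = -m v ∧ m (w v) = l v) ∧ ∀ x ∈ A, x⁻¹ * w x ∈ B := by
  obtain ⟨g, hg, a, b⟩ := c.shift hσ h
  have i := hσ.trans (F.iso_cj le_top trivial hg)
  rw [← a] at h
  generalize cj g * σ = s at i h b
  have key : ∀ x, F.Iso E E x → (∀ y ∈ A, y⁻¹ * x y ∈ B) → ∀ y ∈ A, y⁻¹ * (s * x * s⁻¹) y ∈ B :=
    fun x hx q y hy => by
      have y1 := (c.iv _ i.symm).2.2.1 y hy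
      have := (c.iv _ i).2.2.2 _ (q _ y1)
      rw [i.homOn (E.inv_mem (c.ae y1)) (hx.mem (c.ae y1)), i.homOn.map_inv (c.ae y1)] at this
      simpa using this
  have B0 : m (s e) ≠ 0 := fun z => by
    have := (c.lin i ((c.iv _ i.symm).1 f c.hf.1)).2
    rw [perm_apply_inv_self, z, b, c.hf.2.2] at this; simp at this
  have act : ∀ x, F.Iso E E x → ∀ k, (∀ v ∈ V, l (x v) = l v ∧ m (x v) = m v + k * l v) →
      ∀ v ∈ V, m (s e) * l ((s * x * s⁻¹) v) = m (s e) * l v + k * l (s f) * m v ∧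
        m ((s * x * s⁻¹) v) = m v := fun x hx k hk v hv => by
    have v1 := (c.iv _ i.symm).1 v hv
    have p := c.lin i v1; have q := c.lin i ((c.iv _ hx).1 _ v1)
    rw [perm_apply_inv_self, b] at p
    rw [(hk _ v1).1, (hk _ v1).2, b] at q
    simp only [Perm.mul_apply, q]
    exact ⟨by rw [p.1, p.2]; ring, by rw [p.2]; ring⟩
  obtain ⟨y, iy, ay, qy⟩ : ∃ y, F.Iso E E y ∧ (∀ v ∈ V, l (y v) = l v - m v ∧ m (y v) = m v) ∧
      ∀ x ∈ A, x⁻¹ * y x ∈ B := by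
    have : l (s f) = -m (s e) ∨ l (s f) = m (s e) := by
      revert h B0; generalize l (s f) = i, m (s e) = j; revert i j; decide
    rcases this with z | z
    · refine ⟨_, i.conj c.ix, fun v hv => ?_, key _ c.ix c.xq⟩
      have := act _ c.ix 1 (fun v hv => by simpa using c.xv v hv) v hv
      exact ⟨mul_left_cancel₀ B0 (by rw [this.1, z]; ring), this.2⟩
    · have i2 := c.ix.trans c.ix
      refine ⟨_, i.conj i2, fun v hv => ?_, key _ i2 (c.qmul c.ix c.xq c.xq)⟩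
      have := act _ i2 2 (fun v hv => by
        have a := c.xv v hv; have b := c.xv _ ((c.iv _ c.ix).1 v hv)
        rw [cj_apply] at b
        simp only [Perm.mul_apply, cj_apply, a, b]; exact ⟨trivial, by ring⟩) v hv
      exact ⟨mul_left_cancel₀ B0 (by
        rw [this.1, z]; linear_combination (m (s e) * m v) * h3), this.2⟩
  refine ⟨cj x0 * (y * cj x0), (c.ix.trans iy).trans c.ix, fun v hv => ?_,
    c.qmul (c.ix.trans iy) c.xq (c.qmul c.ix qy c.xq)⟩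
  have v1 := (c.iv _ c.ix).1 v hv
  have a := c.xv v hv; have b := ay _ v1; have d := c.xv _ ((c.iv _ iy).1 _ v1)
  simp only [Perm.mul_apply, cj_apply] at b d ⊢
  rw [d.1, d.2, b.1, b.2, a.1, a.2]; exact ⟨by ring, by ring⟩

theorem uq (c : Cf F E V W A B l m x0 e f) {n : Perm Sy} (h1 : F.Iso E E n) (h2 : F'.Iso E E n)
    (hn : ∀ v ∈ V, l (n⁻¹ v) = m v) (hx : ∀ τ, F.Iso E E τ → l (τ f) = 0 → F'.IsMap E τ)
    (hσ : F.Iso E E σ) : F'.IsMap E σ := by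
  by_cases h : l (σ f) = 0
  · exact hx σ hσ h
  obtain ⟨g, hg, -, b⟩ := c.shift hσ h
  have i := hσ.trans (F.iso_cj le_top trivial hg)
  have j := i.trans h1.symm
  have k := (hx _ j ((hn _ ((c.iv _ i).1 f c.hf.1)).trans b)).iso_of_setStab j.mem_setStab
  exact ((k.trans h2).trans (F'.iso_cj le_top trivial hg).symm).isMap.congr fun x _ => by simp

theorem keepP (c : Cf F E V W A B l m x0 e f) (hσ : F.Iso E E σ) (h : l (σ f) = 0) {v : Sy}
    (hv : v ∈ V) (h0 : l v = 0) : l (σ v) = 0 := by rw [(c.lin hσ hv).1, h, h0]; simp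

end Cf

/-- making `w` commute with the involution `t`. -/
theorem exists_comm {w : Perm Sy} (hw : HomOn w E) (hE : w ∈ setStab E) (t : MulAut Sy)
    (tt : ∀ x, t (t x) = x) (tE : ∀ x ∈ E, t x ∈ E) {g : Sy} (hg : g ∈ E)
    (h : ∀ x ∈ E, w (w x) = g * t x * g⁻¹) :
    ∃ k ∈ E, ∀ x ∈ E, (cj k * w) (t x) = t ((cj k * w) x) := by
  have wE := fun x hx => (hE x).2 hx
  have kE : (w g)⁻¹ * g ∈ E := E.mul_mem (E.inv_mem (wE g hg)) hg
  have e1 : ∀ x ∈ E, w (t x) = ((w g)⁻¹ * g) * t (w x) * ((w g)⁻¹ * g)⁻¹ := fun x hx => by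
    have a := h _ (wE x hx)
    rw [h x hx, hw.map_conj hg (tE x hx)] at a
    calc w (t x) = (w g)⁻¹ * (w g * w (t x) * (w g)⁻¹) * w g := by group
      _ = _ := by rw [a]; group
  generalize (w g)⁻¹ * g = k at kE e1
  have cz : ∀ y ∈ E, Commute (k * t k) y := fun y hy => by
    obtain ⟨x, rfl⟩ := w.surjective y
    have hx := (hE x).1 hy
    have a := e1 _ (tE x hx)
    rw [tt, e1 x hx, map_mul, map_mul, map_inv, tt] at a
    show _ = _
    conv_rhs => rw [a]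
    group
  obtain ⟨n, hn⟩ := isP_Sy k
  obtain ⟨j, hj⟩ : Odd (3 ^ n) := Odd.pow (by decide)
  refine ⟨k ^ j, E.pow_mem kE j, fun x hx => ?_⟩
  have tk : t (k ^ j) = (k * t k) ^ j * (k ^ j * k) := by
    have c := cz k kE
    rw [map_pow, show t k = (k * t k) * k⁻¹ by rw [c.inv_right.eq]; group, c.inv_right.mul_pow]
    have : k ^ j * (k ^ j * k) = 1 := by rw [← hn, hj]; group
    rw [inv_pow, inv_eq_of_mul_eq_one_right this]
    congr 2; rw [c.inv_right.eq]; group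
  simp only [Perm.mul_apply, cj_apply, map_mul, map_inv, tk, e1 x hx]
  have c := (cz _ (E.mul_mem (E.mul_mem (E.mul_mem (E.pow_mem kE j) kE) (tE _ (wE x hx)))
    (E.inv_mem (E.mul_mem (E.pow_mem kE j) kE)))).pow_left j
  calc _ = (k ^ j * k * t (w x) * (k ^ j * k)⁻¹) * (k * t k) ^ j * ((k * t k) ^ j)⁻¹ := by group
    _ = _ := by rw [← c.eq]; group

theorem ext_ch (hF : F.IsSaturated 3) (hn : ∀ g, g ∈ Subgroup.normalizer (E : Set Sy))
    (L : List (Subgroup Sy)) (hI : ∀ g, Ch (cj g) E L) (hσ : F.Iso E E σ)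
    (hs : ∀ A ∈ L, ∀ x ∈ A, σ x ∈ A) : ∃ α, F.Iso ⊤ ⊤ α ∧ ∀ x ∈ E, α x = σ x := by
  have fn : F.IsFullyNormalized E :=
    F.isFullyNormalized_of_le_normalizer le_top fun g _ => hn g
  refine H4.Sp.exists_ext_top (fn.isReceptive hF isP_top) (fun g _ => hn g) hσ fun g _ => ?_
  obtain ⟨k, a, b⟩ := innS_of_ch (fn.isFullyAutomized hF isP_top) (fun g _ => hI g)
    (hσ.conj (F.iso_cj le_top trivial (hn g))) ((hI g).conj hσ.homOn fun A hA => by
      rcases List.mem_cons.1 hA with rfl | hA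
      exacts [hσ.mem_setStab, mem_setStab_of_finite (hs A hA)])
  exact mem_innS.2 ⟨k, trivial, a, b⟩

theorem fixu {g : Sy} {e f h : Bool} {P Q R : K3}
    (c : g * sg e f h gu * g⁻¹ = jv P Q R 0 0 1) : P = 0 ∧ Q = 0 ∧ R = 0 := by
  rw [cj_J (by simp [sg_apply, sgF, gu])] at c
  have p := congrArg Sy.p c; have q := congrArg Sy.q c; have r := congrArg Sy.r c
  have s := congrArg Sy.s c; have t := congrArg Sy.t c; have u := congrArg Sy.u c
  simp only [sg_apply, sgF, gu, mul_zero, mul_one, zero_add] at p q r s t u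
  simp only [u, mul_one] at p q r s t
  simp [← p, ← q, ← r, s, t]

end Cfsg.Agent.Co
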