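import Cfsg.Agent.Co.N1

/-! Normal forms on `E1` and `E2`. -/

set_option autoImplicit false
set_option linter.unusedSimpArgs false
open Equiv
open scoped commutatorElement

namespace Cfsg.Agent.Co
open Cfsg.Fus Cfsg.FusionSystem

variable {F F' : FS} {E : Subgroup Sy} {σ τ : Perm Sy}

theorem JE1 : J ≤ E1 := fun _ h => h.1
theorem JE2 : J ≤ E2 := fun _ h => h.2.1
theorem nE1 (g : Sy) : g ∈ Subgroup.normalizer (E1 : Set Sy) :=
  mem_normalizer_of_finite fun e he => by rw [mem_E1] at he; simp [he]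
theorem nE2 (g : Sy) : g ∈ Subgroup.normalizer (E2 : Set Sy) :=
  mem_normalizer_of_finite fun e he => by rw [mem_E2] at he; simp [he]
theorem nJ (g : Sy) : g ∈ Subgroup.normalizer (J : Set Sy) :=
  mem_normalizer_of_finite fun _ he => J_conj he g

theorem chJ (g : Sy) : Ch (cj g) J [H0, K4, UU, L2, ZL] := by
  refine ⟨fun x hx => hx.2, fun x hx => ?_, fun x hx => hx.2, fun x hx => ?_, fun x hx => hx.2,
    fun x hx => ?_, fun x hx => ⟨hx.1, hx.2.2⟩, fun x hx => ?_, fun x hx => hx.2, fun x hx => ?_,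
    fun x hx => ?_⟩
  · rw [mem_J] at hx; simp [hx]
  · rw [cj_apply, cj_J hx.2]; rw [mem_H0] at hx; simp [hx]
  · rw [cj_apply, cj_J hx.2.2]; rw [mem_K4] at hx; simp [hx]
  · rw [cj_apply, cj_J hx.2.2.2]; rw [mem_UU] at hx; simp [hx]
  · rw [cj_apply, cj_J hx.2.2.2.2]; rw [mem_L2] at hx; simp [hx]
  · rw [cj_apply, cj_J hx.2.2.2.2.2]; rw [mem_ZL] at hx; ext <;> simp [hx]

theorem keepJZ (h : HomOn σ JZ) (hW : ∀ x ∈ JZ, σ x ∈ JZ) :
    ∀ A ∈ [JZ, J, H0, K4, UU, L2, ZL], ∀ x ∈ A, σ x ∈ A := by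
  have j : J ≤ JZ := fun _ hx => ⟨hx.1, hx.2.1⟩
  have z1 : gz ∈ JZ := by simp [gz]
  have z2 : gz ∉ J := by decide
  have c := keep_CC h hW j (fun _ hx => hx.1) z1 z2
  have u := keep_UU h hW j (fun _ hx => hx.2) z1 z2
  intro A hA
  simp only [List.mem_cons, List.not_mem_nil, or_false] at hA
  rcases hA with rfl | rfl | rfl | rfl | rfl | rfl | rfl
  · exact hW
  · exact hom_J (h.mono j)
  · exact keep_H0 h hW j (fun _ hx => hx.1) z1 z2
  · intro x hx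
    have e : x = jv 0 0 x.r 0 0 0 * jv x.p x.q 0 x.s 0 0 := by
      rw [mem_K4] at hx; ext <;> simp [hx]
    have c1 := c (jv 0 0 x.r 0 0 0) (by simp); have u1 := u (jv x.p x.q 0 x.s 0 0) (by simp)
    rw [e, h (by simp) (by simp)]
    exact K4.mul_mem c1.2 u1.2
  · exact u
  · exact fun x hx => ⟨(u x ⟨hx.1, hx.2.2⟩).1, c x hx.2⟩
  · exact keep_ZL h hW j (fun _ hx => hx.2) z1 z2

theorem extJZ (hF : F.IsSaturated 3) (hn : ∀ g, g ∈ Subgroup.normalizer (E : Set Sy)) (hE : JZ ≤ E)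
    (hc : ∀ g, ∀ x ∈ E, x⁻¹ * (g * x * g⁻¹) ∈ JZ) (hσ : F.Iso E E σ) (h : ∀ x ∈ JZ, σ x ∈ JZ) :
    ∃ α, F.Iso ⊤ ⊤ α ∧ ∀ x ∈ E, α x = σ x :=
  ext_ch hF hn [JZ, J, H0, K4, UU, L2, ZL] (fun g => ⟨hE, hc g, fun _ hx => ⟨hx.1, hx.2.1⟩,
    fun x hx => by rw [mem_JZ] at hx; simp [hx]; ring, chJ g⟩) hσ (keepJZ (hσ.homOn.mono hE) h)

theorem x1 (hF : F.IsSaturated 3) (hσ : F.Iso E1 E1 σ) (h : ∀ x ∈ JZ, σ x ∈ JZ) :
    ∃ α, F.Iso ⊤ ⊤ α ∧ ∀ x ∈ E1, α x = σ x :=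
  extJZ hF nE1 (fun _ hx => hx.1) (fun _ _ _ => by simp) hσ h

theorem x2 (hF : F.IsSaturated 3) (hσ : F.Iso E2 E2 σ) (h : ∀ x ∈ JZ, σ x ∈ JZ) :
    ∃ α, F.Iso ⊤ ⊤ α ∧ ∀ x ∈ E2, α x = σ x :=
  extJZ hF nE2 (fun _ hx => hx.2) (fun _ _ _ => by simp) hσ h

theorem cf1 (F : FS) : Cf F E1 E1 J J H0 Sy.b Sy.z ga gb gz where
  ve := le_rfl
  ae := JE1
  lm x hx y _ := by rw [mem_E1] at hx; simp [hx]
  ker _ := Iff.rfl
  he := by simp [gb]
  hf := by simp [gz]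
  nx := nE1 _
  xv v hv := by rw [mem_E1] at hv; simp [hv, ga]
  xq x hx := by rw [mem_J] at hx; simp [hx, ga]
  iv σ hσ := ⟨fun _ hx => hσ.mem hx, hom_J (hσ.homOn.mono JE1), hom_J (hσ.homOn.mono JE1),
    keep_H0 hσ.homOn (fun _ hx => hσ.mem hx) JE1 le_rfl (y := gz) (by simp [gz]) (by decide)⟩

theorem cf2 (F : FS) : Cf F E2 E2 J ZL ⊥ Sy.a (fun x => -x.z) gb ga gz⁻¹ where
  ve := le_rfl
  ae := fun _ hx => hx.2.2.2.2.2.2.1
  lm x _ y hy := by rw [mem_E2] at hy; simp [hy, add_comm]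
  ker _ := by simp; tauto
  he := by simp [ga]
  hf := by simp [gz]
  nx := nE2 _
  xv v hv := by rw [mem_E2] at hv; simp [hv, gb]; ring
  xq x hx := by rw [mem_ZL] at hx; rw [Subgroup.mem_bot]; ext <;> simp [hx, gb]
  iv σ hσ := ⟨fun _ hx => hσ.mem hx, hom_J (hσ.homOn.mono JE2),
    keep_ZL hσ.homOn (fun _ hx => hσ.mem hx) JE2 le_rfl (y := gz) (by simp [gz]) (by decide),
    fun x hx => by rw [Subgroup.mem_bot] at hx ⊢; rw [hx, hσ.homOn.map_one]⟩

theorem iso_top_mono (h : F.Iso ⊤ ⊤ σ) {τ : Perm Sy} (e : ∀ x ∈ E, σ x = τ x) : F.IsMap E τ :=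
  (h.isMap.mono le_top).congr fun x hx => (e x hx).symm

theorem u1 {k : K3} (h : NF F k) (h' : NF F' k) (hS : ∀ α, F.Iso ⊤ ⊤ α → F'.Iso ⊤ ⊤ α)
    (hσ : F.Iso E1 E1 σ) : F'.IsMap E1 σ :=
  (cf1 F).uq h.m1 h'.m1 (fun _ _ => rfl) (fun τ hτ e => by
    obtain ⟨α, a, b⟩ := x1 h.sat hτ fun x hx => ⟨hτ.mem hx.1, (cf1 F).keepP hτ e hx.1 hx.2⟩
    exact iso_top_mono (hS α a) b) hσ

theorem u2 {k : K3} (h : NF F k) (h' : NF F' k) (hS : ∀ α, F.Iso ⊤ ⊤ α → F'.Iso ⊤ ⊤ α)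
    (hσ : F.Iso E2 E2 σ) : F'.IsMap E2 σ :=
  (cf2 F).uq h.m2 h'.m2 (fun _ _ => rfl) (fun τ hτ e => by
    obtain ⟨α, a, b⟩ := x2 h.sat hτ fun x hx => ⟨(cf2 F).keepP hτ e hx.2 hx.1, hτ.mem hx.2⟩
    exact iso_top_mono (hS α a) b) hσ

theorem iso_sg {α : Perm Sy} (h : F.Iso ⊤ ⊤ α) {g : Sy} {e f k : Bool}
    (c : ∀ x, α x = g * sg e f k x * g⁻¹) : F.Iso ⊤ ⊤ (sg e f k) :=
  (h.trans (F.iso_cj le_top trivial (g := g⁻¹) (mem_normalizer_of_finite fun _ _ => trivial))).congr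
    fun x _ => by rw [Perm.mul_apply, cj_apply, c]; group

/-- the subgroup on which two homomorphisms agree -/
def eqz {σ τ : Sy → Sy} (h1 : HomOn σ E) (h2 : HomOn τ E) : Subgroup Sy where
  carrier := {x | x ∈ E ∧ σ x = τ x}
  one_mem' := ⟨E.one_mem, by rw [h1.map_one, h2.map_one]⟩
  mul_mem' := fun a b => ⟨E.mul_mem a.1 b.1, by rw [h1 a.1 b.1, h2 a.1 b.1, a.2, b.2]⟩
  inv_mem' := fun a => ⟨E.inv_mem a.1, by rw [h1.map_inv a.1, h2.map_inv a.1, a.2]⟩

theorem upJ {H : Subgroup Sy} (hJ : J ≤ H) {x w : Sy} (hx : x ∈ H) (a : x.a = w.a) (b : x.b = w.b)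
    (z : x.z = w.z) : w ∈ H := by simpa using H.mul_mem hx (hJ (modJ a b z))

theorem btH {H : Subgroup Sy} {x y : Sy} (hx : x ∈ H) (hy : y ∈ H) : bt x y ∈ H :=
  bt_of_norm (H.le_normalizer hx) hy

theorem gen_E1 {H : Subgroup Sy} (b : gb ∈ H) (z : gz ∈ H) (u : gu ∈ H) : E1 ≤ H := by
  have uz := btH u z; have ub := btH u b
  have p : gp ∈ H := mem_of_eq (H.inv_mem (btH uz z)) (by decide)
  have r : gr ∈ H := mem_of_eq (H.inv_mem (btH ub b)) (by decide)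
  have s : gs ∈ H := mem_of_eq (H.mul_mem (H.inv_mem uz) p) (by decide)
  have t : gt ∈ H := mem_of_eq (H.mul_mem (H.inv_mem ub) r) (by decide)
  have q : gq ∈ H := mem_of_eq (H.inv_mem (btH s b)) (by decide)
  intro x hx
  obtain ⟨g, hg, a', b'⟩ := pw b x.b
  obtain ⟨e, he, a'', b'', z'⟩ := adj z (by simp [gz]) hg x.z
  exact upJ (J_le p q r s t u) he (by rw [a'', a', mem_E1.1 hx]; simp [gb])
    (by rw [b'', b']; simp [gb]) z'

theorem gen_E2 {H : Subgroup Sy} (a : ga ∈ H) (z : gz ∈ H) (r : gr ∈ H) (t : gt ∈ H) (u : gu ∈ H) :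
    E2 ≤ H := by
  have s : gs ∈ H := mem_of_eq (H.inv_mem (btH t a)) (by decide)
  have q : gq ∈ H := mem_of_eq (H.inv_mem (btH t z)) (by decide)
  have p : gp ∈ H := mem_of_eq (btH s z) (by decide)
  intro x hx
  obtain ⟨g, hg, a', b'⟩ := pw a x.a
  obtain ⟨e, he, a'', b'', z'⟩ := adj z (by simp [gz]) hg x.z
  exact upJ (J_le p q r s t u) he (by rw [a'', a']; simp [ga])
    (by rw [b'', b', mem_E2.1 hx]; simp [ga]) z'

theorem sn_one {e : Bool} (h : sn e = 1) : e = false := by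
  cases e; rfl; exact absurd h (by decide)
theorem sn_neg {e : Bool} (h : sn e = -1) : e = true := by
  cases e; exact absurd h (by decide); rfl
theorem neg_self {k : K3} (h : k = -k) : k = 0 := by revert k; decide

theorem ex1 (hF : F.IsSaturated 3) (hN : Nrm F) (hτ : F.Iso E1 E1 τ) (e : (τ gz).b = 0) :
    ∃ g e f h, F.Iso ⊤ ⊤ (sg e f h) ∧ ∀ x ∈ E1, τ x = g * sg e f h x * g⁻¹ := by
  obtain ⟨α, a, b⟩ := x1 hF hτ fun x hx => ⟨hτ.mem hx.1, (cf1 F).keepP hτ e hx.1 hx.2⟩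
  obtain ⟨g, e, f, h, c⟩ := hN α a
  exact ⟨g, e, f, h, iso_sg a c, fun x hx => by rw [← b x hx, c]⟩

theorem ex2 (hF : F.IsSaturated 3) (hN : Nrm F) (hτ : F.Iso E2 E2 τ) (e : (τ gz⁻¹).a = 0) :
    ∃ g e f h, F.Iso ⊤ ⊤ (sg e f h) ∧ ∀ x ∈ E2, τ x = g * sg e f h x * g⁻¹ := by
  obtain ⟨α, a, b⟩ := x2 hF hτ fun x hx => ⟨(cf2 F).keepP hτ e hx.2 hx.1, hτ.mem hx.2⟩
  obtain ⟨g, e, f, h, c⟩ := hN α a
  exact ⟨g, e, f, h, iso_sg a c, fun x hx => by rw [← b x hx, c]⟩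

def nc1 (p q r : K3) (x : Sy) : Sy :=
  ⟨x.r + p * x.u, -x.q + q * x.u, x.p + r * x.u, x.t, -x.s, x.u, x.a, -x.z, x.b⟩
theorem homOn_nc1 (p q r : K3) : HomOn (nc1 p q r) E1 := fun x hx y hy => by
  simp only [mem_E1] at hx hy; ext <;> simp [nc1, hx, hy] <;> ring

theorem nf1 (hF : F.IsSaturated 3) (hN : Nrm F) (h : ∃ σ, F.Iso E1 E1 σ ∧ ∃ x ∈ JZ, σ x ∉ JZ) :
    F.Iso ⊤ ⊤ (sg false true false) ∧ ∃ i, F.Iso E1 E1 (n1 i) := by
  obtain ⟨σ, hσ, x, hx, hx'⟩ := h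
  obtain ⟨w, i, act, q⟩ := (cf1 F).rot hσ fun e =>
    hx' ⟨hσ.mem hx.1, (cf1 F).keepP hσ e hx.1 hx.2⟩
  have bE : gb ∈ E1 := by simp [gb]
  have zE : gz ∈ E1 := by simp [gz]
  have uJ : gu ∈ J := by decide
  have wJ := hom_J (i.homOn.mono JE1)
  have wu : ∀ x ∈ J, (w x).u = x.u := fun x hx => by
    have := (q x hx).1; simp only [mul_u, inv_u] at this; linear_combination this
  obtain ⟨g, e, f, h, it, c⟩ := ex1 hF hN (i.trans i) (by
    rw [Perm.mul_apply, (act _ (i.mem zE)).1, (act _ zE).2]; simp [gz])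
  simp only [Perm.mul_apply] at c
  have c1 := congrArg Sy.b (c _ bE); have c2 := congrArg Sy.z (c _ bE)
  have c3 := congrArg Sy.z (c _ zE); have c4 := congrArg Sy.u (c _ (JE1 uJ))
  rw [(act _ (i.mem bE)).1, (act _ bE).2] at c1
  rw [(act _ (i.mem bE)).2, (act _ bE).1] at c2
  rw [(act _ (i.mem zE)).2, (act _ zE).1] at c3
  rw [wu _ (wJ _ uJ), wu _ uJ] at c4
  obtain rfl : f = true := sn_neg (by simpa [sg_apply, sgF, gb] using c1.symm)
  obtain rfl : h = false := sn_one (by simpa [sg_apply, sgF, gu] using c4.symm)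
  obtain rfl : e = false := sn_one (by
    simp [sg_apply, sgF, gz] at c3; linear_combination c3)
  have ga0 : g.a = 0 := by simp [sg_apply, sgF, gb] at c2; linear_combination c2
  refine ⟨it, ?_⟩
  obtain ⟨k, hk, cm⟩ := exists_comm i.homOn i.mem_setStab (sgA false true false)
    (sgF_sgF _ _ _) (fun x hx => by rw [mem_E1] at hx; simp [sgA, sgF, hx]) (mem_E1.2 ga0) c
  have i1 := i.trans (F.iso_cj le_top trivial (nE1 k))
  have act1 : ∀ v ∈ E1, ((cj k * w) v).b = -v.z ∧ ((cj k * w) v).z = v.b := fun v hv => by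
    have := mem_E1.1 (i.mem hv); simp [act v hv, this, mem_E1.1 hk]
  have wu1 : ((cj k * w) gu).u = 1 := by simp [wu _ uJ]; rfl
  generalize cj k * w = w1 at i1 act1 wu1 cm
  have tb := cm _ bE; have tz := cm _ zE
  rw [show sgA false true false gb = gb⁻¹ by decide, i1.homOn.map_inv bE] at tb
  rw [show sgA false true false gz = gz⁻¹ by decide, i1.homOn.map_inv zE] at tz
  have co : w1 gb * w1 gz = w1 gz * w1 gb := by
    rw [← i1.homOn bE zE, ← i1.homOn zE bE]; rfl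
  have ab := act1 _ bE; have az := act1 _ zE
  have mb := mem_E1.1 (i1.mem bE); have mz := mem_E1.1 (i1.mem zE)
  obtain ⟨s, eb, ez⟩ : ∃ s, sm s gu * w1 gb * (sm s gu)⁻¹ = gz ∧
      sm s gu * w1 gz * (sm s gu)⁻¹ = gb⁻¹ := by
    generalize w1 gb = y, w1 gz = y' at tb tz co ab az mb mz
    obtain ⟨p, q, r, s, t, u, a, b, z⟩ := y
    obtain ⟨p', q', r', s', t', u', a', b', z'⟩ := y'
    simp only [gb, gz, neg_zero] at ab az mb mz
    obtain ⟨rfl, rfl⟩ := ab; obtain ⟨rfl, rfl⟩ := az; subst mb mz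
    simp only [Sy.ext_iff, sgA, sgF, MulEquiv.coe_mk, Equiv.coe_fn_mk, mul_p, mul_q, mul_r, mul_s,
      mul_t, mul_u, inv_p, inv_q, inv_r, inv_s, inv_t, inv_u, sn_true, sn_false] at tb tz co
    obtain rfl : u = 0 := neg_self (by linear_combination -tb.2.2.2.2.2.1)
    obtain rfl : u' = 0 := neg_self (by linear_combination -tz.2.2.2.2.2.1)
    obtain rfl : r = 0 := neg_self (by linear_combination -tb.2.2.1)
    obtain rfl : p' = 0 := neg_self (by linear_combination -tz.1)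
    obtain rfl : s' = 0 := by linear_combination 2 * co.1 - s' * h3
    obtain rfl : t = 0 := by linear_combination 2 * co.2.2.1 - t * h3
    obtain rfl : q = 0 := neg_self (by linear_combination -tb.2.1)
    obtain rfl : q' = 0 := neg_self (by linear_combination -tz.2.1)
    obtain rfl : t' = -s := by linear_combination co.2.1
    obtain rfl : p = s := by linear_combination -2 * tb.1 - (p - s) * h3
    obtain rfl : p = r' := by linear_combination 2 * tz.2.2.1 - (p - r') * h3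
    refine ⟨p, ?_, ?_⟩ <;> ext <;> simp [sm, gu, gz, gb] <;> ring_nf <;> simp [h3]
  have i2 := i1.trans (F.iso_cj le_top trivial (nE1 (sm s gu)))
  have tu := cm _ (JE1 uJ)
  rw [show sgA false true false gu = gu by decide] at tu
  have vJ := hom_J (i1.homOn.mono JE1) _ uJ
  have eq : ∀ x ∈ E1, (cj (sm s gu) * w1) x = nc1 (w1 gu).p (w1 gu).q (w1 gu).r x := fun x hx => by
    refine (gen_E1 (H := eqz i2.homOn (homOn_nc1 _ _ _)) ⟨bE, eb.trans ?_⟩ ⟨zE, ez.trans ?_⟩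
      ⟨JE1 uJ, ?_⟩ hx).2
    · ext <;> simp [nc1, gb, gz]
    · ext <;> simp [nc1, gb, gz]
    · rw [Perm.mul_apply, cj_apply, J_comm (sm_J _ _) vJ, mul_inv_cancel_right]
      have s0 := neg_self (k := (w1 gu).s) (by simpa [sgA, sgF] using congrArg Sy.s tu)
      have t0 := neg_self (k := (w1 gu).t) (by simpa [sgA, sgF] using congrArg Sy.t tu)
      rw [mem_J] at vJ
      revert s0 t0 vJ wu1; generalize w1 gu = v; intro _ _ _ _
      ext <;> simp [nc1, gu, *]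
  generalize cj (sm s gu) * w1 = w2, (w1 gu).p = p, (w1 gu).q = q, (w1 gu).r = r at i2 eq
  have i3 := (cf1 F).ix.trans i2
  have e3 : ∀ x ∈ E1, (w2 * cj ga) x = nc1 p q r (ga * x * ga⁻¹) := fun x hx =>
    eq _ ((cf1 F).ix.mem hx)
  obtain ⟨g, e, f, h, -, c⟩ := ex1 hF hN (i2.trans i2) (by
    rw [Perm.mul_apply, eq _ (i2.mem zE), eq _ zE]; simp [nc1, gz])
  have r1 := fixu (P := r + p) (Q := 0) (R := p + r) ((c _ (JE1 uJ)).symm.trans (by
    rw [Perm.mul_apply, eq _ (i2.mem (JE1 uJ)), eq _ (JE1 uJ)]; ext <;> simp [nc1, gu]))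
  generalize w2 * cj ga = T at i3 e3
  obtain ⟨g, e, f, h, -, c⟩ := ex1 hF hN ((i3.trans i3).trans i3) (by
    rw [Perm.mul_apply, Perm.mul_apply, e3 _ (i3.mem (i3.mem zE)), e3 _ (i3.mem zE), e3 _ zE]
    simp [nc1, gz, ga])
  have r2 := fixu (P := 2 * (p + q + r)) (Q := -(p + q + r)) (R := 2 * (p + q + r))
    ((c _ (JE1 uJ)).symm.trans (by
      rw [Perm.mul_apply, Perm.mul_apply, e3 _ (i3.mem (i3.mem (JE1 uJ))),
        e3 _ (i3.mem (JE1 uJ)), e3 _ (JE1 uJ)]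
      ext <;> simp [nc1, gu, ga] <;> ring_nf <;> simp [h3]))
  obtain rfl : r = -p := by linear_combination r1.1
  obtain rfl : q = 0 := by linear_combination 2 * r2.1 - q * h3
  exact ⟨p, i2.congr fun x hx => by rw [eq x hx]; ext <;> simp [nc1, n1_apply]; ring⟩

def nc2 (α β γ : K3) (x : Sy) : Sy :=
  ⟨x.p + α * x.r + β * x.t + γ * x.u, x.s, x.u, -x.q, -x.t, x.r, x.z, x.b, -x.a⟩
theorem homOn_nc2 (α β γ : K3) : HomOn (nc2 α β γ) E2 := fun x hx y hy => by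
  simp only [mem_E2] at hx hy; ext <;> simp [nc2, hx, hy] <;> ring

theorem nf2 (hF : F.IsSaturated 3) (hN : Nrm F) (h : ∃ σ, F.Iso E2 E2 σ ∧ ∃ x ∈ JZ, σ x ∉ JZ) :
    F.Iso ⊤ ⊤ (sg true false false) ∧ ∃ i, F.Iso E2 E2 (n2 i) := by
  obtain ⟨σ, hσ, x, hx, hx'⟩ := h
  obtain ⟨w, i, act, q⟩ := (cf2 F).rot hσ fun e =>
    hx' ⟨(cf2 F).keepP hσ e hx.2 hx.1, hσ.mem hx.2⟩
  have aE : ga ∈ E2 := by simp [ga]
  have zE : gz ∈ E2 := by simp [gz]
  have zE' := E2.inv_mem zE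
  have pE : gp ∈ E2 := by simp [gp]
  have wp : w gp = gp := by
    have := Subgroup.mem_bot.1 (q gp (by simp [gp])); rw [inv_mul_eq_one] at this; exact this.symm
  have act' : ∀ v ∈ E2, (w v).a = v.z ∧ (w v).z = -v.a := fun v hv =>
    ⟨by simpa using (act v hv).1, by rw [← (act v hv).2, neg_neg]⟩
  clear act q
  obtain ⟨g, e, f, h, it, c⟩ := ex2 hF hN (i.trans i) (by
    rw [Perm.mul_apply, (act' _ (i.mem zE')).1, (act' _ zE').2]; simp [gz])
  simp only [Perm.mul_apply] at c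
  have c1 := congrArg Sy.a (c _ aE); have c2 := congrArg Sy.z (c _ aE)
  have c3 := congrArg Sy.z (c _ zE); have c4 := c _ pE
  rw [(act' _ (i.mem aE)).1, (act' _ aE).2] at c1
  rw [(act' _ (i.mem aE)).2, (act' _ aE).1] at c2
  rw [(act' _ (i.mem zE)).2, (act' _ zE).1] at c3
  rw [wp, wp, cj_J (by simp [sg_apply, sgF, gp])] at c4
  obtain rfl : e = true := sn_neg (by simpa [sg_apply, sgF, ga] using c1.symm)
  obtain rfl : h = false := sn_one (by simpa [sg_apply, sgF, gp] using (congrArg Sy.p c4).symm)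
  obtain rfl : f = false := sn_one (by
    simp [sg_apply, sgF, gz] at c3; linear_combination c3)
  have gb0 : g.b = 0 := by simp [sg_apply, sgF, ga] at c2; linear_combination -c2
  refine ⟨it, ?_⟩
  obtain ⟨k, hk, cm⟩ := exists_comm i.homOn i.mem_setStab (sgA true false false)
    (sgF_sgF _ _ _) (fun x hx => by rw [mem_E2] at hx; simp [sgA, sgF, hx]) (mem_E2.2 gb0) c
  have i1 := i.trans (F.iso_cj le_top trivial (nE2 k))
  have act1 : ∀ v ∈ E2, ((cj k * w) v).a = v.z ∧ ((cj k * w) v).z = -v.a := fun v hv => by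
    have := mem_E2.1 (i.mem hv); simp [act' v hv, this, mem_E2.1 hk]
  have wp1 : (cj k * w) gp = gp := by
    rw [Perm.mul_apply, wp, cj_apply, cj_J (by decide)]; ext <;> simp [gp]
  generalize cj k * w = w1 at i1 act1 wp1 cm
  have ta := cm _ aE; have tz := cm _ zE
  rw [show sgA true false false ga = ga⁻¹ by decide, i1.homOn.map_inv aE] at ta
  rw [show sgA true false false gz = gz⁻¹ by decide, i1.homOn.map_inv zE] at tz
  have co : w1 ga * w1 gz = w1 gz * w1 ga := by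
    rw [← i1.homOn aE zE, ← i1.homOn zE aE]; rfl
  have aa := act1 _ aE; have az := act1 _ zE
  have ma := mem_E2.1 (i1.mem aE); have mz := mem_E2.1 (i1.mem zE)
  obtain ⟨j, jf, ea, ez⟩ : ∃ j, (j ∈ J ∧ sgA true false false j = j) ∧ j * w1 ga * j⁻¹ = gz⁻¹ ∧
      j * w1 gz * j⁻¹ = ga := by
    generalize w1 ga = y, w1 gz = y' at ta tz co aa az ma mz
    obtain ⟨p, q, r, s, t, u, a, b, z⟩ := y
    obtain ⟨p', q', r', s', t', u', a', b', z'⟩ := y'
    simp only [ga, gz, neg_zero] at aa az ma mz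
    obtain ⟨rfl, rfl⟩ := aa; obtain ⟨rfl, rfl⟩ := az; subst ma mz
    simp only [Sy.ext_iff, sgA, sgF, MulEquiv.coe_mk, Equiv.coe_fn_mk, mul_p, mul_q, mul_r, mul_s,
      mul_t, mul_u, inv_p, inv_q, inv_r, inv_s, inv_t, inv_u, sn_true, sn_false] at ta tz co
    obtain rfl : u = 0 := neg_self (by linear_combination -ta.2.2.2.2.2.1)
    obtain rfl : u' = 0 := neg_self (by linear_combination -tz.2.2.2.2.2.1)
    obtain rfl : t = 0 := neg_self (by linear_combination -ta.2.2.2.2.1)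
    obtain rfl : t' = 0 := neg_self (by linear_combination -tz.2.2.2.2.1)
    obtain rfl : r = 0 := neg_self (by linear_combination -ta.2.2.1)
    obtain rfl : r' = 0 := neg_self (by linear_combination -tz.2.2.1)
    obtain rfl : p = -s := by linear_combination -2 * ta.1 - (p + s) * h3
    obtain rfl : p' = q' := by linear_combination -2 * tz.1 - (p' - q') * h3
    obtain rfl : s' = -q := by linear_combination -2 * co.1 - (s' + q) * h3
    refine ⟨jv 0 0 p' 0 (-q) (-s), ⟨⟨rfl, rfl, rfl⟩, by ext <;> simp [sgA, sgF]⟩, ?_, ?_⟩ <;>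
      ext <;> simp [gz, ga] <;> ring_nf <;> simp [h3]
  have i2 := i1.trans (F.iso_cj le_top trivial (nE2 j))
  have cm2 : ∀ x ∈ J, (cj j * w1) x = w1 x := fun x hx => by
    rw [Perm.mul_apply, cj_apply, J_comm jf.1 (hom_J (i1.homOn.mono JE2) x hx), mul_inv_cancel_right]
  have w2a : (cj j * w1) ga = gz⁻¹ := ea
  have w2z : (cj j * w1) gz = ga := ez
  have w2p : (cj j * w1) gp = gp := (cm2 _ (by decide)).trans wp1
  have fx : ∀ x ∈ J, sgA true false false x = x → ((cj j * w1) x).q = 0 ∧ ((cj j * w1) x).s = 0 :=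
    fun x hx e => by
      have := cm _ (JE2 hx)
      rw [e, ← cm2 x hx] at this
      exact ⟨neg_self (by simpa [sgA, sgF] using congrArg Sy.q this),
        neg_self (by simpa [sgA, sgF] using congrArg Sy.s this)⟩
  generalize cj j * w1 = w2 at i2 w2a w2z w2p fx
  have wJ := hom_J (i2.homOn.mono JE2)
  have bb : ∀ x ∈ J, ∀ y ∈ E2, ∀ y' ∈ E2, (w2 (bt (bt x y) y')).p =
      (bt (bt (w2 x) (w2 y)) (w2 y')).p := fun x hx y hy y' hy' => by
    rw [hom_bt i2.homOn (JE2 (bt_mem hx _)) hy', hom_bt i2.homOn (JE2 hx) hy]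
  have one := i2.homOn.map_one
  have ip : w2 gp⁻¹ = gp⁻¹ := by rw [i2.homOn.map_inv pE, w2p]
  have co : ∀ x ∈ J, sgA true false false x = x → (w2 (bt (bt x ga) ga)).p = -(w2 x).u ∧
      (w2 (bt (bt x gz) gz)).p = -(w2 x).r ∧ (w2 (bt (bt x ga) gz)).p = (w2 x).t := fun x hx e => by
    have v := wJ x hx; have := fx x hx e
    rw [bb x hx _ aE _ aE, bb x hx _ zE _ zE, bb x hx _ aE _ zE, w2a, w2z,
      bt_eq (bt_mem v _), bt_eq (bt_mem v _), bt_eq (bt_mem v _), bt_eq v, bt_eq v]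
    simp [ga, gz, this]
    exact ⟨by linear_combination (w2 x).u * h3, by linear_combination (w2 x).r * h3,
      by linear_combination -(w2 x).t * h3⟩
  have gen : ∀ x ∈ J, sgA true false false x = x → ∀ α β γ : K3,
      (w2 x).p = x.p + α * x.r + β * x.t + γ * x.u → (w2 x).r = x.u → (w2 x).t = -x.t →
      (w2 x).u = x.r → x.q = 0 → x.s = 0 → w2 x = nc2 α β γ x := fun x hx e _ _ _ a b c d q s => by
    have v := mem_J.1 (wJ x hx); have := fx x hx e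
    rw [mem_J] at hx
    ext <;> simp [nc2, *]
  have eq : ∀ x ∈ E2, w2 x = nc2 (w2 gr).p (w2 gt).p (w2 gu).p x := fun x hx => by
    have cr := co gr (by decide) (by decide); have ct := co gt (by decide) (by decide)
    have cu := co gu (by decide) (by decide)
    rw [show bt (bt gr ga) ga = gp⁻¹ by decide, show bt (bt gr gz) gz = 1 by decide,
      show bt (bt gr ga) gz = 1 by decide, one, ip] at cr
    rw [show bt (bt gt ga) ga = 1 by decide, show bt (bt gt gz) gz = 1 by decide,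
      show bt (bt gt ga) gz = gp⁻¹ by decide, one, ip] at ct
    rw [show bt (bt gu ga) ga = 1 by decide, show bt (bt gu gz) gz = gp⁻¹ by decide,
      show bt (bt gu ga) gz = 1 by decide, one, ip] at cu
    refine (gen_E2 (H := eqz i2.homOn (homOn_nc2 _ _ _)) ⟨aE, w2a.trans ?_⟩ ⟨zE, w2z.trans ?_⟩
      ⟨by simp [gr], gen _ (by decide) (by decide) _ _ _ (by simp [gr]) ?_ ?_ ?_ rfl rfl⟩
      ⟨by simp [gt], gen _ (by decide) (by decide) _ _ _ (by simp [gt]) ?_ ?_ ?_ rfl rfl⟩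
      ⟨by simp [gu], gen _ (by decide) (by decide) _ _ _ (by simp [gu]) ?_ ?_ ?_ rfl rfl⟩ hx).2
    · ext <;> simp [nc2, ga, gz]
    · ext <;> simp [nc2, ga, gz]
    all_goals simp only [gp, one_p, inv_p] at cr ct cu
    · exact neg_inj.1 (cr.2.1.symm.trans (by decide))
    · exact cr.2.2.symm.trans (by decide)
    · exact neg_inj.1 (cr.1.symm.trans (by decide))
    · exact neg_inj.1 (ct.2.1.symm.trans (by decide))
    · exact ct.2.2.symm.trans (by decide)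
    · exact neg_inj.1 (ct.1.symm.trans (by decide))
    · exact neg_inj.1 (cu.2.1.symm.trans (by decide))
    · exact cu.2.2.symm.trans (by decide)
    · exact neg_inj.1 (cu.1.symm.trans (by decide))
  generalize (w2 gr).p = α, (w2 gt).p = β, (w2 gu).p = γ at eq
  have uE : gu ∈ E2 := by simp [gu]
  have i3 := (cf2 F).ix.trans i2
  have e3 : ∀ x ∈ E2, (w2 * cj gb) x = nc2 α β γ (gb * x * gb⁻¹) := fun x hx =>
    eq _ ((cf2 F).ix.mem hx)
  obtain ⟨g, e, f, h, -, c⟩ := ex2 hF hN (i2.trans i2) (by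
    rw [Perm.mul_apply, eq _ (i2.mem zE'), eq _ zE']; simp [nc2, gz])
  have r1 := fixu (P := α + γ) (Q := 0) (R := 0) ((c _ uE).symm.trans (by
    rw [Perm.mul_apply, eq _ (i2.mem uE), eq _ uE]; ext <;> simp [nc2, gu]; ring))
  generalize w2 * cj gb = T at i3 e3
  obtain ⟨g, e, f, h, -, c⟩ := ex2 hF hN ((i3.trans i3).trans i3) (by
    rw [Perm.mul_apply, Perm.mul_apply, e3 _ (i3.mem (i3.mem zE')), e3 _ (i3.mem zE'), e3 _ zE']
    simp [nc2, gz, gb])
  have r2 := fixu (P := 2 * α + β + 2 * γ) (Q := 0) (R := 0) ((c _ uE).symm.trans (by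
      rw [Perm.mul_apply, Perm.mul_apply, e3 _ (i3.mem (i3.mem uE)), e3 _ (i3.mem uE), e3 _ uE]
      ext <;> simp [nc2, gu, gb] <;> ring_nf <;> simp [h3]))
  obtain rfl : γ = -α := by linear_combination r1.1
  obtain rfl : β = 0 := by linear_combination r2.1
  exact ⟨α, i2.congr fun x hx => by rw [eq x hx]; ext <;> simp [nc2, n2_apply]; ring⟩

end Cfsg.Agent.Co
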