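import Cfsg.Agent.Co.N3a

/-! Normal form of `Aut_F(E3)`. -/

set_option autoImplicit false
set_option linter.unusedSimpArgs false
open Equiv

namespace Cfsg.Agent.Co.T3
open Cfsg.Fus Cfsg.FusionSystem

variable {F : FS} {σ τ : Perm Sy}

theorem step (h : HomOn σ E3) {H K : Subgroup Sy} (hH : H ≤ E3) (kH : Kp σ H) (kK : Kp σ K) {g : Sy}
    (hg : g ∈ H) (l : Sy → K3) (hl : ∀ x ∈ H, ∀ y ∈ H, l (x * y) = l x + l y) (h1 : l g = 1)
    (h0 : ∀ x ∈ H, l x = 0 → x ∈ K) (h0' : ∀ x ∈ K, l x = 0) (e : l (σ g) = 1) :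
    ∀ x ∈ H, x⁻¹ * σ x ∈ K := fun x hx => by
  have m := H.mul_mem (H.inv_mem hx) (kH x hx)
  have := hl x hx _ m
  rw [mul_inv_cancel_left, lin1 h hH kH kK hg l l hl h1 hl h0 h0' x hx, e] at this
  exact h0 _ m (by linear_combination -this)

theorem ez : gz = bt ga gb := by decide
theorem es : gs = bt ga gt := by decide
theorem er : gr = bt gt gb := by decide
theorem eq' : gq = bt gb gs := by decide
theorem ep : gp = bt gq ga := by decide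

theorem uni (hF : F.IsSaturated 3) (h : Ac F σ 1 1 0 0 1) : ∃ k ∈ E3, ∀ x ∈ E3, σ x = k * x * k⁻¹ := by
  have i := h.iso
  have hh := i.homOn
  obtain ⟨v1, v2, v3, v4, v5⟩ := h.vals
  have a1 := mem_E3.1 (i.mem ma)
  have b1 := mem_VV.1 (kVV i _ mb)
  have t1 := mem_VV.1 (kVV i _ (l2 mt))
  have k4 := kK4 i h.kPH
  have e2 := l2.trans l1
  have e3 := l3.trans e2
  have e4 := l4.trans e3
  have e5 := l5.trans e4
  have e6 := l6.trans e5
  have vs : (σ gs).s = 1 := by rw [es, hom_bt hh ma (e2 mt)]; simp [bt, *]; grind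
  have vq : (σ gq).q = 1 := by
    have s1 := mem_K4.1 (k4 _ ms)
    rw [eq', hom_bt hh (l1 mb) (e4 ms)]; simp [bt, *]; grind
  have vp : σ gp = gp := by
    have s1 := mem_L2.1 (kL2 i _ mq)
    rw [ep, hom_bt hh (e6 mq) ma, ← ep, bt_eq s1.2.2.2.2]; ext <;> simp [gp, *]; rfl
  obtain ⟨k, -, hk⟩ := innS_of_ch ((fnE3 F).isFullyAutomized hF isP_top) (fun g _ => ch_cj g) i
    ⟨l1, step hh le_rfl (fun _ => i.mem) (kVV i) ma (·.a) (fun _ _ _ _ => rfl) rfl (fun _ a b => ⟨a, b⟩)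
      (fun _ a => a.2) v1,
    l2, step hh l1 (kVV i) h.kPH mb (·.b) (fun _ _ _ _ => rfl) rfl (fun _ a b => ⟨a.1, a.2, b⟩)
      (fun _ a => a.2.2) v2,
    l3, step hh e2 h.kPH (kWW i) mt (·.t) (fun x a y b => at' x (l2 a) y (l2 b)) rfl (fun _ a b => ⟨b, a⟩)
      (fun _ a => a.1) v5,
    l4, step hh e3 (kWW i) k4 mz (·.z) (fun x a y b => by simp [a.2.2.1]) rfl
      (fun _ a b => ⟨a.1, a.2.1, a.2.2.1, a.2.2.2, b⟩) (fun _ a => a.2.2.2.2)
      (by rw [ez, hom_bt hh ma (l1 mb)]; simp [bt, *]; ring),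
    l5, step hh e4 k4 (kCC i) ms (·.s) (fun x a y b => by simp [b.1, b.2.1]) rfl
      (fun _ a b => ⟨b, a⟩) (fun _ a => a.1) vs,
    l6, step hh e5 (kCC i) (kL2 i) mr (·.r) (fun x a y b => by simp [b.2.1, b.2.2.1]) rfl
      (fun _ a b => ⟨b, a⟩) (fun _ a => a.1) (by rw [er, hom_bt hh (e2 mt) (l1 mb)]; simp [bt, *]; grind),
    l7, step hh e6 (kL2 i) (kZL i) mq (·.q) (fun x a y b => by simp [b.1, b.2.1, b.2.2.1, b.2.2.2.1]) rfl
      (fun _ a b => ⟨b, a⟩) (fun _ a => a.1) vq, fun x hx => by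
      rcases G.ZL_cases hx with rfl | rfl | rfl
      exacts [hh.map_one, vp, by rw [hh.map_inv (e6 (l7 mp)), vp]]⟩
  refine ⟨k, ?_, hk⟩
  have := (ac_cj F k).vals.2.2.2.1
  rw [cj_apply, ← hk _ (l1 mb), v4] at this
  exact neg_eq_zero.1 this.symm

theorem E3_le {H : Subgroup Sy} (h1 : ga ∈ H) (h2 : gb ∈ H) (h3 : gt ∈ H) : E3 ≤ H := fun x hx => by
  have b : ∀ {x y}, x ∈ H → y ∈ H → bt x y ∈ H := fun a b =>
    H.mul_mem (H.inv_mem b) (H.mul_mem (H.mul_mem a b) (H.inv_mem a))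
  have z := ez ▸ b h1 h2
  have s := es ▸ b h1 h3
  have q := eq' ▸ b h2 s
  obtain ⟨y, hy, ya, yb⟩ := span2 (H := H ⊓ E3) ⟨h1, ma⟩ ⟨h2, l1 mb⟩ (by decide) x.a x.b
  obtain ⟨e, he, ea, eb, e3⟩ := adj (H := H ⊓ E3) (d := gz) ⟨z, rfl⟩ (by decide) hy x.z
  have := H0_le (ep ▸ b q h1) q (er ▸ b h3 h2) s h3 (modJ (ea.trans ya) (eb.trans yb) e3)
    (E3.mul_mem (E3.inv_mem he.2) hx)
  simpa using H.mul_mem he.1 this

theorem eq_on (h : HomOn σ E3) (h' : HomOn τ E3) (h1 : σ ga = τ ga) (h2 : σ gb = τ gb) (h3 : σ gt = τ gt) :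
    ∀ x ∈ E3, σ x = τ x := fun _ hx =>
  (E3_le (H := csub (fun x => x ∈ E3 ∧ σ x = τ x) ⟨E3.one_mem, by rw [h.map_one, h'.map_one]⟩
    (fun _ _ a b => ⟨E3.mul_mem a.1 b.1, by rw [h a.1 b.1, h' a.1 b.1, a.2, b.2]⟩)
    fun _ a => ⟨E3.inv_mem a.1, by rw [h.map_inv a.1, h'.map_inv a.1, a.2]⟩)
    ⟨ma, h1⟩ ⟨l1 mb, h2⟩ ⟨l1 (l2 mt), h3⟩ hx).2

/-- `su k` -/
abbrev su (k : K3) : Sy := jv 0 0 0 0 0 k

theorem exists_w (h : F.Iso E3 E3 σ) (hb : (σ gt).b ≠ 0) : ∃ w, Ac F w 1 0 1 (-1) 0 := by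
  have h1 := ac h
  obtain ⟨α', a', b', c', d', h2, e0, e1, e2, e3, e4⟩ := h1.inv
  have r1 := sq1 _ hb
  have r2 : b' * b' = 1 := sq1 _ fun e => by grind
  have y : Ac F _ 1 1 1 0 1 := (((ac_cj F (su ((σ gt).t * (σ gt).b))).mul ((h1.mul
    (ac_cj F (su (-((σ gt).b * b'))))).mul h2)).mul (ac_cj F (su (-((σ gt).t * (σ gt).b))))).cast (by
      simp only []; grind)
  exact ⟨_, (((ac_cj F gu).mul y).mul (ac_cj F gu)).cast (by decide)⟩

theorem ac_T (h : F.Iso ⊤ ⊤ (sg false true false)) : Ac F (sg false true false) 1 (-1) 0 0 (-1) where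
  iso := (h.isMap.mono le_top).iso_self fun x hx => by rw [mem_E3] at hx ⊢; simp [sg_apply, sgF, hx]
  ea x _ := by simp [sg_apply, sgF]
  eb x _ := by simp [sg_apply, sgF]
  et x _ := by simp [sg_apply, sgF]

theorem iso_T (hF : F.IsSaturated 3) (hN : Nrm F) {w : Perm Sy} (h : Ac F w 1 0 1 (-1) 0) :
    F.Iso ⊤ ⊤ (sg false true false) := by
  have h2 : Ac F (w * w) 1 (-1) 0 0 (-1) := (h.mul h).cast (by decide)
  obtain ⟨α, a1, a2⟩ := x3 hF h2.iso h2.kPH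
  obtain ⟨g, e, f, k, hg⟩ := hN α a1
  obtain ⟨v1, v2, -, -, v5⟩ := h2.vals
  rw [← a2 _ ma, hg] at v1
  rw [← a2 _ (l1 mb), hg] at v2
  rw [← a2 _ (l1 (l2 mt)), hg] at v5
  have : e = false ∧ f = true ∧ k = false := by
    simp only [sg_apply, sgF, ga, gb, gt, mul_a, mul_b, mul_t, inv_a, inv_b, inv_t, inv_u] at v1 v2 v5
    have u1 : sn e = 1 := by linear_combination v1
    have u2 : sn f = -1 := by linear_combination v2
    have u3 : sn f * sn k = -1 := by linear_combination v5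
    revert u1 u2 u3; cases e <;> cases f <;> cases k <;> decide
  obtain ⟨rfl, rfl, rfl⟩ := this
  exact (a1.trans ((F.isMap_cj le_rfl (g := g⁻¹) trivial).iso_self fun _ _ => trivial)).congr fun x _ => by
    rw [Perm.mul_apply, hg, cj_apply]; group

theorem comm_T (hF : F.IsSaturated 3) (hT : F.Iso ⊤ ⊤ (sg false true false)) {w : Perm Sy}
    (h : Ac F w 1 0 1 (-1) 0) : ∃ v, Ac F v 1 0 1 (-1) 0 ∧
      ∀ x ∈ E3, v (sgA false true false x) = sgA false true false (v x) := by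
  set T := sgA false true false with hTd
  have TT : ∀ x, T (T x) = x := sgF_sgF _ _ _
  have t := ac_T hT
  have tm : ∀ x ∈ E3, T x ∈ E3 := fun x hx => t.iso.mem hx
  obtain ⟨α', a', b', c', d', h2, e0, e1, e2, e3, e4⟩ := h.inv
  obtain ⟨k, k1, k2⟩ := uni hF ((((h.mul t).mul h2).mul t).cast (by grind))
  have k3 : ∀ x ∈ E3, w (T x) = k * T (w x) * k⁻¹ := fun x hx => by
    have := k2 (T (w x)) (tm _ (h.iso.mem hx))
    simp only [Perm.mul_apply] at this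
    rw [← this]
    change _ = w (T (w⁻¹ (T (T (w x)))))
    rw [TT, perm_inv_apply_self]
  have k4 : ∀ y ∈ E3, k * T k * y = y * (k * T k) := fun y hy => by
    obtain ⟨x, hx, rfl⟩ := h.iso.exists_eq hy
    have := k3 _ (tm x hx)
    rw [TT, k3 x hx, map_mul, map_mul, TT, map_inv] at this
    conv_rhs => rw [this]
    group
  have k5 : ∀ y, (T k)⁻¹ * (k * k) * y = y * ((T k)⁻¹ * (k * k)) := fun y => by
    have a := k4 ga ma; have b := k4 gb (l1 mb); have c := k4 gt (l1 (l2 mt))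
    rw [mem_E3] at k1
    have m : (T k)⁻¹ * (k * k) ∈ ZL := by
      simp only [Sy.ext_iff] at a b c
      simp [hTd, sgA, sgF, ga, gb, gt, k1] at a b c ⊢
      grind
    rcases G.ZL_cases m with e | e | e <;> rw [e]
    · simp
    · ext <;> simp [gp]; ring
    · ext <;> simp [gp]; ring
  refine ⟨cj k * w, ((ac_cj F k).mul h).cast (by rw [mem_E3.1 k1]; decide), fun x hx => ?_⟩
  simp only [Perm.mul_apply, cj_apply, k3 x hx, map_mul, map_inv]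
  calc _ = T k * ((T k)⁻¹ * (k * k) * T (w x)) * k⁻¹ * k⁻¹ := by group
    _ = _ := by rw [k5]; simp only [mul_assoc, mul_inv_cancel_left, mul_inv_cancel, mul_one]

theorem fin3 : ∀ p q s : K3, ∃ β γ δ : K3,
    (⟨0, δ, γ, 0, 0, 0, β, 0, 0⟩ : Sy) * ⟨p, q, 0, 0, 0, 0, 1, 0, 0⟩ * (⟨0, δ, γ, 0, 0, 0, β, 0, 0⟩ : Sy)⁻¹ = n3 ga ∧
    (⟨0, δ, γ, 0, 0, 0, β, 0, 0⟩ : Sy) * ⟨0, 0, 0, s, -1, 0, 0, 0, 0⟩ * (⟨0, δ, γ, 0, 0, 0, β, 0, 0⟩ : Sy)⁻¹ = n3 gb ∧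
    (⟨0, δ, γ, 0, 0, 0, β, 0, 0⟩ : Sy) * ⟨0, 0, 0, 0, 0, 0, 0, 1, -s⟩ * (⟨0, δ, γ, 0, 0, 0, β, 0, 0⟩ : Sy)⁻¹ = n3 gt := by
  simp only [n3_apply]; decide +kernel

theorem iso_n3 {v : Perm Sy} (h : Ac F v 1 0 1 (-1) 0)
    (hc : ∀ x ∈ E3, v (sgA false true false x) = sgA false true false (v x)) : F.Iso E3 E3 n3 := by
  have i := h.iso
  have hh := i.homOn
  have mt' := l1 (l2 mt)
  obtain ⟨v1, v2, v3, v4, v5⟩ := h.vals
  have a1 := mem_E3.1 (i.mem ma)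
  have b1 := mem_VV.1 (kVV i _ mb)
  have t1 := mem_VV.1 (kVV i _ (l2 mt))
  have c1 := hc ga ma
  have c2 := hc gb (l1 mb)
  have c3 := hc gt mt'
  rw [show sgA false true false ga = ga by decide] at c1
  rw [show sgA false true false gb = gb⁻¹ by decide, hh.map_inv (l1 mb)] at c2
  rw [show sgA false true false gt = gt⁻¹ by decide, hh.map_inv mt'] at c3
  have r1 : v ga * v ga * v ga = 1 := by
    rw [← hh ma ma, ← hh (E3.mul_mem ma ma) ma, show ga * ga * ga = 1 by decide, hh.map_one]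
  have mz' : bt ga gb ∈ E3 := ez ▸ (rfl : gz ∈ E3)
  have ms' : bt ga gt ∈ E3 := es ▸ (rfl : gs ∈ E3)
  have r2 : bt (v gb) (bt (v ga) (v gb)) = 1 := by
    rw [← hom_bt hh ma (l1 mb), ← hom_bt hh (l1 mb) mz', show bt gb (bt ga gb) = 1 by decide, hh.map_one]
  have r3 : bt (v gt) (bt (v ga) (v gt)) = 1 := by
    rw [← hom_bt hh ma mt', ← hom_bt hh mt' ms', show bt gt (bt ga gt) = 1 by decide, hh.map_one]
  have r4 : bt (v gb) (bt (v ga) (v gt)) = bt (bt (v ga) (v gb)) (v gt) := by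
    rw [← hom_bt hh ma mt', ← hom_bt hh (l1 mb) ms', ← hom_bt hh ma (l1 mb), ← hom_bt hh mz' mt',
      show bt gb (bt ga gt) = bt (bt ga gb) gt by decide]
  obtain ⟨β, γ, δ, f1, f2, f3⟩ := fin3 (v ga).p (v ga).q (v gb).s
  generalize hA : v ga = A at *
  generalize hB : v gb = B at *
  generalize hD : v gt = D at *
  simp only [Sy.ext_iff] at c1 c2 c3
  simp [sgA, sgF, v1, v2, v3, v4, v5, a1, b1, t1] at c1 c2 c3
  have As : A.s = 0 := by grind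
  have At : A.t = 0 := by grind
  have Ab : A.b = 0 := by grind
  have Az : A.z = 0 := by grind
  have p1 := congrArg Sy.p r1
  have p2 := congrArg Sy.p r2
  have p3 := congrArg Sy.p r3
  have p4 := congrArg Sy.p r4
  simp [bt, v1, v2, v3, v4, v5, a1, b1, t1, As, At, Ab, Az] at p1 p2 p3 p4
  have Ar : A.r = 0 := by grind
  have Bz : B.z = 0 := by grind
  have Ds : D.s = 0 := by grind
  have Dz : D.z = -B.s := by grind
  have eA : A = ⟨A.p, A.q, 0, 0, 0, 0, 1, 0, 0⟩ := by ext <;> simp [v1, a1, As, At, Ab, Az, Ar]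
  have eB : B = ⟨0, 0, 0, B.s, -1, 0, 0, 0, 0⟩ := by ext <;> simp [v2, v4, b1, Bz] <;> grind
  have eD : D = ⟨0, 0, 0, 0, 0, 0, 0, 1, -B.s⟩ := by ext <;> simp [v3, v5, t1, Ds, Dz] <;> grind
  rw [← eA] at f1; rw [← eB] at f2; rw [← eD] at f3
  have j := i.trans (ac_cj F ⟨0, δ, γ, 0, 0, 0, β, 0, 0⟩).iso
  exact j.congr (eq_on homOn_n3 j.homOn (by rw [← f1, ← hA]; rfl) (by rw [← f2, ← hB]; rfl)
    (by rw [← f3, ← hD]; rfl))

end Cfsg.Agent.Co.T3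

namespace Cfsg.Agent.Co
open Cfsg.Fus Cfsg.FusionSystem T3

theorem nf3 : ∀ {F : FS}, F.IsSaturated 3 → Nrm F → (∃ σ, F.Iso E3 E3 σ ∧ ∃ x ∈ PH, σ x ∉ PH) →
    F.Iso E3 E3 n3 := fun {F} hF hN ⟨σ, h, x, hx, hx'⟩ => by
  obtain ⟨w, hw⟩ := exists_w h fun e => hx' ((e ▸ ac h).kPH x hx)
  obtain ⟨v, h1, h2⟩ := comm_T hF (iso_T hF hN hw) hw
  exact iso_n3 h1 h2

theorem u3 : ∀ {F F' : FS} {k : K3} {σ : Perm Sy}, NF F k → NF F' k →
    (∀ α, F.Iso ⊤ ⊤ α → F'.Iso ⊤ ⊤ α) → F.Iso E3 E3 σ → F'.IsMap E3 σ := fun {F F' _ σ} h h' hα hσ => by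
  have key : ∀ {τ}, F.Iso E3 E3 τ → (τ gt).b = 0 → F'.Iso E3 E3 τ := fun hτ e => by
    obtain ⟨α, a1, a2⟩ := x3 h.sat hτ (e ▸ ac hτ).kPH
    exact (((hα α a1).isMap.mono le_top).congr fun x hx => (a2 x hx).symm).iso_self fun _ => hτ.mem
  by_cases e : (σ gt).b = 0
  · exact (key hσ e).isMap
  · have m := mem_VV.1 (kVV hσ _ (l2 mt))
    have := key ((hσ.trans (ac_cj F (su ((σ gt).t * (σ gt).b))).iso).trans h.m3) (by
      simp only [Perm.mul_apply, n3_apply, cj_apply]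
      simp [m]
      linear_combination -(σ gt).t * sq1 _ e)
    exact (((this.trans h'.m3.symm).trans (ac_cj F' (su ((σ gt).t * (σ gt).b))).iso.symm).congr
      fun x _ => by simp).isMap

end Cfsg.Agent.Co
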