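import Cfsg.Agent.Co.B6
import Cfsg.Agent.Co.G1

/-! Characteristic subgroups of `E3` and the extension lemma. -/

set_option autoImplicit false
set_option linter.unusedSimpArgs false
open Equiv

namespace Cfsg.Agent.Co.T3
open Cfsg.Fus Cfsg.FusionSystem

variable {F : FS} {σ τ : Perm Sy}

/-- `σ` keeps `A` -/
def Kp (σ : Perm Sy) (A : Subgroup Sy) : Prop := ∀ x ∈ A, σ x ∈ A

theorem kp_of (h : HomOn σ E3) {A B C D : Subgroup Sy} (hA : A ≤ E3) (hB : B ≤ E3) (kA : Kp σ A)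
    (kB : Kp σ B) (kC : Kp σ C) (h1 : ∀ x ∈ D, x ∈ A ∧ ∀ y ∈ B, bt x y ∈ C)
    (h2 : ∀ x ∈ A, (∀ y ∈ B, bt x y ∈ C) → x ∈ D) : Kp σ D := fun x hx =>
  h2 _ (kA x (h1 x hx).1) fun y hy => by
    have hy' : σ⁻¹ y ∈ B := (mem_setStab_of_finite kB _).1 (by simpa using hy)
    rw [← perm_apply_inv_self σ y, ← hom_bt h (hA (h1 x hx).1) (hB hy')]
    exact kC _ ((h1 x hx).2 _ hy')

theorem kp_bot (h : HomOn σ E3) : Kp σ ⊥ := fun x hx => by
  rw [Subgroup.mem_bot.1 hx, h.map_one]; exact Subgroup.one_mem _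

theorem ma : ga ∈ E3 := rfl
theorem mb : gb ∈ VV := ⟨rfl, rfl⟩
theorem mt : gt ∈ PH := ⟨rfl, rfl, rfl⟩
theorem mz : gz ∈ WW := ⟨rfl, rfl, rfl, rfl⟩
theorem ms : gs ∈ K4 := ⟨rfl, rfl, rfl, rfl, rfl⟩
theorem mr : gr ∈ CC := ⟨rfl, rfl, rfl, rfl, rfl, rfl⟩
theorem mq : gq ∈ L2 := ⟨rfl, rfl, rfl, rfl, rfl, rfl, rfl⟩
theorem mp : gp ∈ ZL := ⟨rfl, rfl, rfl, rfl, rfl, rfl, rfl, rfl⟩
theorem l1 : VV ≤ E3 := fun _ h => h.1
theorem l2 : PH ≤ VV := fun _ h => ⟨h.1, h.2.1⟩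
theorem l3 : WW ≤ PH := fun _ h => h.2
theorem l4 : K4 ≤ WW := fun _ h => ⟨h.1, h.2.1, h.2.2.1, h.2.2.2.1⟩
theorem l5 : CC ≤ K4 := fun _ h => h.2
theorem l6 : L2 ≤ CC := fun _ h => h.2
theorem l7 : ZL ≤ L2 := fun _ h => h.2

theorem kZL (h : F.Iso E3 E3 σ) : Kp σ ZL := by
  refine kp_of h.homOn le_rfl le_rfl (fun _ => h.mem) (fun _ => h.mem) (kp_bot h.homOn)
    (fun x hx => ⟨hx.2.2.2.2.1, fun y _ => ?_⟩) fun x hx H => ?_
  · rw [bt_eq hx.2.2.2.2.2, Subgroup.mem_bot]; rw [mem_ZL] at hx; ext <;> simp [hx]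
  · simp only [Subgroup.mem_bot, Sy.ext_iff] at H
    have a := H ga rfl; have b := H gb rfl; have t := H gt rfl
    rw [mem_E3] at hx
    simp [bt, ga, gb, gt, hx] at a b t ⊢
    grind

theorem kL2 (h : F.Iso E3 E3 σ) : Kp σ L2 := by
  refine kp_of h.homOn le_rfl le_rfl (fun _ => h.mem) (fun _ => h.mem) (kZL h)
    (fun x hx => ⟨hx.2.2.2.1, fun y _ => ?_⟩) fun x hx H => ?_
  · rw [bt_eq hx.2.2.2.2]; rw [mem_L2] at hx; simp [hx]
  · have a := H ga rfl; have b := H gb rfl; have t := H gt rfl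
    rw [mem_E3] at hx
    simp [bt, ga, gb, gt, hx] at a b t ⊢
    grind

theorem kWW (h : F.Iso E3 E3 σ) : Kp σ WW := by
  refine kp_of h.homOn le_rfl le_rfl (fun _ => h.mem) (fun _ => h.mem) (kL2 h)
    (fun x hx => ⟨hx.2.1, fun y hy => ?_⟩) fun x hx H => ?_
  · rw [mem_WW] at hx; rw [mem_E3] at hy; simp [bt, hx, hy]
  · have a := H ga rfl; have b := H gb rfl; have t := H gt rfl
    rw [mem_E3] at hx
    simp [bt, ga, gb, gt, hx] at a b t ⊢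
    grind

theorem kVV (h : F.Iso E3 E3 σ) : Kp σ VV := by
  refine kp_of h.homOn le_rfl (l6.trans (l5.trans (l4.trans (l3.trans (l2.trans l1))))) (fun _ => h.mem)
    (kL2 h) (kp_bot h.homOn) (fun x hx => ⟨hx.1, fun y hy => ?_⟩) fun x hx H => ?_
  · rw [mem_VV] at hx; rw [mem_L2] at hy; rw [Subgroup.mem_bot]; ext <;> simp [bt, hx, hy] <;> ring
  · simp only [Subgroup.mem_bot, Sy.ext_iff] at H
    have a := H gq mq
    rw [mem_E3] at hx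
    simp [bt, gq, hx] at a ⊢
    grind

theorem kCC (h : F.Iso E3 E3 σ) : Kp σ CC := by
  refine kp_of h.homOn l1 l1 (kVV h) (kVV h) (kp_bot h.homOn)
    (fun x hx => ⟨⟨hx.2.2.1, hx.2.2.2.1⟩, fun y hy => ?_⟩) fun x hx H => ?_
  · rw [mem_CC] at hx; rw [mem_VV] at hy; rw [Subgroup.mem_bot]; ext <;> simp [bt, hx, hy] <;> ring
  · simp only [Subgroup.mem_bot, Sy.ext_iff] at H
    have b := H gb mb; have t := H gt (l2 mt)
    rw [mem_VV] at hx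
    simp [bt, gb, gt, hx] at b t ⊢
    grind

theorem kK4 (h : F.Iso E3 E3 σ) (hP : Kp σ PH) : Kp σ K4 := by
  refine kp_of h.homOn (l3.trans (l2.trans l1)) (l2.trans l1) (kWW h) hP (kZL h)
    (fun x hx => ⟨l4 hx, fun y hy => ?_⟩) fun x hx H => ?_
  · rw [mem_K4] at hx; rw [mem_PH] at hy; simp [bt, hx, hy]
  · have t := H gt mt
    rw [mem_WW] at hx
    simp [bt, gt, hx] at t ⊢
    grind

theorem add1 {H : Subgroup Sy} {g : Sy} (hg : g ∈ H) (l φ : Sy → K3)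
    (hl : ∀ x ∈ H, ∀ y ∈ H, l (x * y) = l x + l y) (h1 : l g = 1)
    (hφ : ∀ x ∈ H, ∀ y ∈ H, φ (x * y) = φ x + φ y) (h0 : ∀ x ∈ H, l x = 0 → φ x = 0) :
    ∀ x ∈ H, φ x = l x * φ g := fun x hx => by
  have e1 := hl x hx g hg
  have e2 := hφ x hx g hg
  have e3 := hl _ (H.mul_mem hx hg) g hg
  have e4 := hφ _ (H.mul_mem hx hg) g hg
  rcases k3 (l x) with c | c | c
  · rw [h0 x hx c, c, zero_mul]
  · rw [h0 _ (H.mul_mem (H.mul_mem hx hg) hg) (by rw [e3, e1, c, h1]; rfl), e2] at e4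
    rw [c]; linear_combination -e4 - φ g * h3
  · rw [h0 _ (H.mul_mem hx hg) (by rw [e1, c, h1]; rfl)] at e2
    rw [c]; linear_combination -e2

theorem lin1 (h : HomOn σ E3) {H K : Subgroup Sy} (hH : H ≤ E3) (kH : Kp σ H) (kK : Kp σ K) {g : Sy}
    (hg : g ∈ H) (l l' : Sy → K3) (hl : ∀ x ∈ H, ∀ y ∈ H, l (x * y) = l x + l y) (h1 : l g = 1)
    (hl' : ∀ x ∈ H, ∀ y ∈ H, l' (x * y) = l' x + l' y) (h0 : ∀ x ∈ H, l x = 0 → x ∈ K)
    (h0' : ∀ x ∈ K, l' x = 0) : ∀ x ∈ H, l' (σ x) = l x * l' (σ g) :=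
  add1 hg l (fun x => l' (σ x)) hl h1 (fun x hx y hy => by
    simp only [h (hH hx) (hH hy)]; exact hl' _ (kH x hx) _ (kH y hy)) fun x hx e => h0' _ (kK x (h0 x hx e))

theorem at' : ∀ x ∈ VV, ∀ y ∈ VV, (x * y).t = x.t + y.t := fun _ _ y hy => by simp [hy.1]

/-- the action on `E3 / VV` and on `VV / WW` -/
structure Ac (F : FS) (σ : Perm Sy) (α a b c d : K3) : Prop where
  iso : F.Iso E3 E3 σ
  ea : ∀ x ∈ E3, (σ x).a = α * x.a
  eb : ∀ x ∈ VV, (σ x).b = a * x.b + b * x.t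
  et : ∀ x ∈ VV, (σ x).t = c * x.b + d * x.t

theorem lin2 (h : F.Iso E3 E3 σ) (l : Sy → K3) (hl : ∀ x ∈ VV, ∀ y ∈ VV, l (x * y) = l x + l y)
    (h0 : ∀ x ∈ WW, l x = 0) : ∀ x ∈ VV, l (σ x) = l (σ gb) * x.b + l (σ gt) * x.t := fun x hx => by
  have hm : ∀ x ∈ VV, ∀ y ∈ VV, l (σ (x * y)) = l (σ x) + l (σ y) := fun x hx y hy => by
    rw [h.homOn (l1 hx) (l1 hy)]; exact hl _ (kVV h x hx) _ (kVV h y hy)
  have := add1 mb (·.b) (fun x => l (σ x) - x.t * l (σ gt)) (fun _ _ _ _ => rfl) rfl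
    (fun x hx y hy => by simp only [hm x hx y hy, at' x hx y hy]; ring) (fun y hy e => by
      rw [add1 mt (·.t) (fun x => l (σ x)) (fun x hx y hy => at' x (l2 hx) y (l2 hy)) rfl
        (fun x hx y hy => hm x (l2 hx) y (l2 hy)) (fun x hx e => h0 _ (kWW h x ⟨e, hx⟩)) y ⟨hy.1, hy.2, e⟩]
      exact sub_self _) x hx
  simp only [show gb.t = 0 from rfl] at this
  linear_combination this

theorem ac (h : F.Iso E3 E3 σ) : Ac F σ (σ ga).a (σ gb).b (σ gt).b (σ gb).t (σ gt).t where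
  iso := h
  ea x hx := by
    rw [mul_comm]
    exact lin1 h.homOn le_rfl (fun _ => h.mem) (kVV h) ma (·.a) (·.a) (fun _ _ _ _ => rfl) rfl
      (fun _ _ _ _ => rfl) (fun x hx e => ⟨hx, e⟩) (fun x hx => hx.2) x hx
  eb := lin2 h (·.b) (fun _ _ _ _ => rfl) fun _ hx => hx.2.2.2
  et := lin2 h (·.t) at' fun _ hx => hx.1

variable {α a b c d α' a' b' c' d' : K3}

theorem Ac.mul (h : Ac F σ α a b c d) (h' : Ac F τ α' a' b' c' d') :
    Ac F (σ * τ) (α * α') (a * a' + b * c') (a * b' + b * d') (c * a' + d * c') (c * b' + d * d') where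
  iso := h'.iso.trans h.iso
  ea x hx := by rw [Perm.mul_apply, h.ea _ (h'.iso.mem hx), h'.ea x hx]; ring
  eb x hx := by rw [Perm.mul_apply, h.eb _ (kVV h'.iso x hx), h'.eb x hx, h'.et x hx]; ring
  et x hx := by rw [Perm.mul_apply, h.et _ (kVV h'.iso x hx), h'.eb x hx, h'.et x hx]; ring

theorem Ac.cast (h : Ac F σ α a b c d) (e : α = α' ∧ a = a' ∧ b = b' ∧ c = c' ∧ d = d') :
    Ac F σ α' a' b' c' d' := by
  obtain ⟨rfl, rfl, rfl, rfl, rfl⟩ := e; exact h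

theorem Ac.vals (h : Ac F σ α a b c d) :
    (σ ga).a = α ∧ (σ gb).b = a ∧ (σ gt).b = b ∧ (σ gb).t = c ∧ (σ gt).t = d := by
  rw [h.ea _ ma, h.eb _ mb, h.eb _ (l2 mt), h.et _ mb, h.et _ (l2 mt)]; simp [ga, gb, gt]

theorem Ac.inv (h : Ac F σ α a b c d) : ∃ α' a' b' c' d', Ac F σ⁻¹ α' a' b' c' d' ∧ α * α' = 1 ∧
    a * a' + b * c' = 1 ∧ a * b' + b * d' = 0 ∧ c * a' + d * c' = 0 ∧ c * b' + d * d' = 1 := by
  have := (h.mul (ac h.iso.symm)).vals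
  rw [mul_inv_cancel] at this
  exact ⟨_, _, _, _, _, ac h.iso.symm, this.1.symm, this.2.1.symm, this.2.2.1.symm, this.2.2.2.1.symm,
    this.2.2.2.2.symm⟩

theorem Ac.kPH (h : Ac F σ α a 0 c d) : Kp σ PH := fun x hx =>
  have := kVV h.iso x (l2 hx)
  ⟨this.1, this.2, by rw [h.eb x (l2 hx), hx.2.2]; simp⟩

theorem nE3 (g : Sy) : g ∈ Subgroup.normalizer (E3 : Set Sy) :=
  mem_normalizer_of_finite fun x hx => by rw [mem_E3] at hx ⊢; simp [hx]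

theorem ac_cj (F : FS) (g : Sy) : Ac F (cj g) 1 1 0 (-g.u) 1 where
  iso := F.iso_cj le_top trivial (nE3 g)
  ea x _ := by simp [cj_apply]
  eb x _ := by simp [cj_apply]
  et x hx := by simp [cj_apply, hx.1, hx.2]; ring

theorem ch_cj (g : Sy) : Ch (cj g) E3 [VV, PH, WW, K4, CC, L2, ZL] := by
  refine ⟨l1, fun x hx => ?_, l2, fun x hx => ?_, l3, fun x hx => ?_, l4, fun x hx => ?_, l5, fun x hx => ?_,
    l6, fun x hx => ?_, l7, fun x hx => ?_, fun x hx => ?_⟩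
  · rw [mem_E3] at hx; simp [cj_apply, hx]
  · rw [mem_VV] at hx; simp [cj_apply, hx]
  · rw [mem_PH] at hx; simp [cj_apply, hx]; ring
  · rw [mem_WW] at hx; simp [cj_apply, hx]; grind
  · rw [cj_apply, cj_J hx.2.2]; rw [mem_K4] at hx; simp [hx]
  · rw [cj_apply, cj_J hx.2.2.2]; rw [mem_CC] at hx; simp [hx]
  · rw [cj_apply, cj_J hx.2.2.2.2]; rw [mem_L2] at hx; simp [hx]
  · rw [cj_apply, cj_J hx.2.2.2.2.2]; rw [mem_ZL] at hx; ext <;> simp [hx]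

theorem fnE3 (F : FS) : F.IsFullyNormalized E3 := F.isFullyNormalized_of_le_normalizer le_top fun g _ => nE3 g

end Cfsg.Agent.Co.T3

namespace Cfsg.Agent.Co
open Cfsg.Fus Cfsg.FusionSystem T3

theorem x3 : ∀ {F : FS} {σ : Perm Sy}, F.IsSaturated 3 → F.Iso E3 E3 σ → (∀ x ∈ PH, σ x ∈ PH) →
    ∃ α, F.Iso ⊤ ⊤ α ∧ ∀ x ∈ E3, α x = σ x := fun {F σ} hF h hP => by
  refine H4.Sp.exists_ext_top ((fnE3 F).isReceptive hF isP_top) (fun g _ => nE3 g) h fun g _ => ?_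
  obtain ⟨k, k1, k2⟩ := innS_of_ch ((fnE3 F).isFullyAutomized hF isP_top) (fun g _ => ch_cj g)
    (h.conj (ac_cj F g).iso) ((ch_cj g).conj h.homOn fun A hA => mem_setStab_of_finite (by
      simp only [List.mem_cons, List.not_mem_nil, or_false] at hA
      rcases hA with rfl | rfl | rfl | rfl | rfl | rfl | rfl | rfl
      exacts [fun _ => h.mem, kVV h, hP, kWW h, kK4 h hP, kCC h, kL2 h, kZL h]))
  exact mem_innS.2 ⟨k, trivial, k1, k2⟩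

end Cfsg.Agent.Co
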