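import Cfsg.Agent.Co.I
import Cfsg.Agent.H5.Flag

/-! Slice (P): the groups `Sp₆(3)` and `GSp₆(3)`. -/

set_option autoImplicit false
set_option linter.unusedSimpArgs false

namespace Cfsg.Agent.Co

open Matrix

namespace Pp

abbrev M3 : Type := Matrix (Fin 3) (Fin 3) K3
abbrev M6 : Type := Matrix (Fin 3 ⊕ Fin 3) (Fin 3 ⊕ Fin 3) K3

theorem all3 {P : Fin 3 → Prop} : (∀ i, P i) ↔ P 0 ∧ P 1 ∧ P 2 :=
  ⟨fun h => ⟨h 0, h 1, h 2⟩, fun ⟨a, b, c⟩ i => by fin_cases i <;> assumption⟩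

theorem mul3 (M N : M3) (i j : Fin 3) : (M * N) i j = M i 0 * N 0 j + M i 1 * N 1 j + M i 2 * N 2 j := by
  rw [Matrix.mul_apply, Fin.sum_univ_three]

theorem one3 : (1 : M3) = !![1, 0, 0; 0, 1, 0; 0, 0, 1] := one_fin_three

def Am (x : Sy) : M3 := !![1, x.a, x.z; 0, 1, x.b; 0, 0, 1]
def Bm (x : Sy) : M3 := !![1, 0, 0; -x.a, 1, 0; x.a * x.b - x.z, -x.b, 1]
def Xm (x : Sy) : M3 := !![x.p, x.q, x.s; x.q, x.r, x.t; x.s, x.t, x.u]

theorem Am_mul (x y : Sy) : Am (x * y) = Am x * Am y := by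
  simp only [← Matrix.ext_iff, all3, mul3, one3, transpose_apply, Matrix.add_apply, Matrix.smul_apply, smul_eq_mul, Matrix.zero_apply, Matrix.neg_apply, of_apply, cons_val, mul_zero, zero_mul, mul_one, one_mul, add_zero, zero_add, true_and, and_true, neg_zero, neg_neg, sub_zero, zero_sub, mul_neg, neg_mul, Am, mul_a, mul_b, mul_z]
  refine ⟨⟨?_, ?_⟩, ?_⟩ <;> ring

theorem Bm_mul (x y : Sy) : Bm (x * y) = Bm x * Bm y := by
  simp only [← Matrix.ext_iff, all3, mul3, one3, transpose_apply, Matrix.add_apply, Matrix.smul_apply, smul_eq_mul, Matrix.zero_apply, Matrix.neg_apply, of_apply, cons_val, mul_zero, zero_mul, mul_one, one_mul, add_zero, zero_add, true_and, and_true, neg_zero, neg_neg, sub_zero, zero_sub, mul_neg, neg_mul, Bm, mul_a, mul_b, mul_z]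
  refine ⟨?_, ?_, ?_⟩ <;> ring

theorem Xm_mul (x y : Sy) : Xm (x * y) = Xm x + Am x * Xm y * (Am x)ᵀ := by
  simp only [← Matrix.ext_iff, all3, mul3, one3, transpose_apply, Matrix.add_apply, Matrix.smul_apply, smul_eq_mul, Matrix.zero_apply, Matrix.neg_apply, of_apply, cons_val, mul_zero, zero_mul, mul_one, one_mul, add_zero, zero_add, true_and, and_true, neg_zero, neg_neg, sub_zero, zero_sub, mul_neg, neg_mul, Xm, Am, mul_p, mul_q, mul_r, mul_s, mul_t, mul_u]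
  refine ⟨⟨?_, ?_, ?_⟩, ⟨?_, ?_, ?_⟩, ?_, ?_⟩ <;> ring

theorem AB (x : Sy) : (Am x)ᵀ * Bm x = 1 := by
  simp only [← Matrix.ext_iff, all3, mul3, one3, transpose_apply, Matrix.add_apply, Matrix.smul_apply, smul_eq_mul, Matrix.zero_apply, Matrix.neg_apply, of_apply, cons_val, mul_zero, zero_mul, mul_one, one_mul, add_zero, zero_add, true_and, and_true, neg_zero, neg_neg, sub_zero, zero_sub, mul_neg, neg_mul, Am, Bm]
  refine ⟨?_, ?_, ?_⟩ <;> ring

theorem Xm_T (x : Sy) : (Xm x)ᵀ = Xm x := by simp [← Matrix.ext_iff, all3, Xm]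

theorem Am_J {x : Sy} (h : x ∈ J) : Am x = 1 := by simp [← Matrix.ext_iff, all3, Am, h.1, h.2.1, h.2.2]
theorem Bm_J {x : Sy} (h : x ∈ J) : Bm x = 1 := by simp [← Matrix.ext_iff, all3, Bm, h.1, h.2.1, h.2.2]

def mat (x : Sy) : M6 := fromBlocks (Am x) (Xm x * Bm x) 0 (Bm x)

theorem mat_J {x : Sy} (h : x ∈ J) : mat x = fromBlocks 1 (Xm x) 0 1 := by rw [mat, Am_J h, Bm_J h, mul_one]

def matH : Sy →* M6 where
  toFun := mat
  map_one' := by
    rw [mat_J (one_mem _), ← fromBlocks_one]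
    congr 1
    simp [← Matrix.ext_iff, all3, Xm]
  map_mul' x y := by
    simp only [mat, fromBlocks_multiply, Am_mul, Bm_mul, Xm_mul, mul_zero, zero_mul, add_zero, zero_add, add_mul]
    rw [mul_assoc _ (Am x)ᵀ, ← mul_assoc (Am x)ᵀ, AB, one_mul, add_comm, mul_assoc, mul_assoc]

abbrev JJ : M6 := Matrix.J (Fin 3) K3

theorem mat_sp (x : Sy) : mat x * JJ * (mat x)ᵀ = JJ := by
  have h := congrArg transpose (AB x)
  rw [transpose_mul, transpose_transpose, transpose_one, mul_eq_one_comm] at h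
  simp only [mat, Matrix.J, fromBlocks_transpose, fromBlocks_multiply, mul_zero, zero_mul, add_zero, zero_add, mul_one,
    mul_neg, neg_mul, transpose_mul, Xm_T, transpose_zero, neg_zero, h, mul_eq_one_comm.1 (AB x), mul_assoc]
  rw [← mul_assoc (Am x), h, one_mul, add_neg_cancel]

theorem sn_xor (f g : Bool) : sn (f ^^ g) = sn f * sn g := by cases f <;> cases g <;> decide

/-- `Sp₆(3)` or `GSp₆(3)` -/
def GG (e : Bool) : Subgroup M6ˣ := H5.Cl.sgOf
  { carrier := {g | ∃ f : Bool, (f = true → e = true) ∧ g.1 * JJ * g.1ᵀ = sn f • JJ}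
    one_mem' := ⟨false, by simp, by simp⟩
    mul_mem' := fun {a b} ⟨f, h1, h2⟩ ⟨f', k1, k2⟩ => ⟨f ^^ f', by cases f <;> cases f' <;> simp_all, by
      rw [Units.val_mul, transpose_mul, mul_assoc a.1, mul_assoc a.1, ← mul_assoc _ b.1ᵀ, k2, smul_mul_assoc,
        mul_smul_comm, ← mul_assoc, h2, smul_smul, sn_xor, mul_comm]⟩ }

theorem exists_el {e f : Bool} (hf : f = true → e = true) {M : M6} (h : M * JJ * Mᵀ = sn f • JJ) :
    ∃ g : GG e, g.1.1 = M := by
  have : M * (JJ * Mᵀ * (-sn f • JJ)) = 1 := by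
    rw [← mul_assoc, ← mul_assoc, h, smul_mul_smul_comm, J_squared, mul_neg, sn_mul_self]; simp
  obtain ⟨u, rfl⟩ := IsUnit.of_mul_eq_one _ this
  exact ⟨⟨u, f, hf, h⟩, rfl⟩

noncomputable def io (e : Bool) : Sy →* GG e :=
  matH.toHomUnits.codRestrict _ fun x => ⟨false, by simp, (mat_sp x).trans (one_smul _ _).symm⟩

theorem conj_iff {e : Bool} {g : GG e} {x y : Sy} :
    g * io e x * g⁻¹ = io e y ↔ g.1.1 * mat x = mat y * g.1.1 := by
  rw [mul_inv_eq_iff_eq_mul, Subtype.ext_iff, Units.ext_iff]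
  rfl

theorem exists_blk {e : Bool} {W : M3} (h : W * Wᵀ = 1) {f : Sy → Sy} (h1 : ∀ j ∈ J, f j ∈ J)
    (h2 : ∀ j ∈ J, W * Xm j = Xm (f j) * W) : ∃ g : GG e, ∀ j ∈ J, g * io e j * g⁻¹ = io e (f j) := by
  obtain ⟨g, hg⟩ := exists_el (e := e) (f := false) (by simp) (M := fromBlocks W 0 0 W) (by
    simp [Matrix.J, fromBlocks_transpose, fromBlocks_multiply, h])
  refine ⟨g, fun j hj => conj_iff.2 ?_⟩
  simp [hg, mat_J hj, mat_J (h1 j hj), fromBlocks_multiply, h2 j hj]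

theorem gd (e : Bool) : GD (io e) 0 (om13 e) := by
  refine ⟨inferInstance, (injective_iff_map_eq_one _).2 fun x hx => ?_, fun g ⟨n, hn⟩ h => ?_,
    fun g j hj j' hj' h ⟨x, y, w, f, f1, f2⟩ => ?_, ?_, ?_, ?_⟩
  · have h : mat x = 1 := congrArg (fun g : GG e => g.1.1) hx
    rw [mat, ← fromBlocks_one, fromBlocks_inj] at h
    obtain ⟨h1, h2, -, h3⟩ := h
    rw [h3, mul_one] at h2
    simp [← Matrix.ext_iff, all3, Am, Xm] at h1 h2
    ext <;> simp [h1, h2]
  · obtain ⟨P, Q, R, T, hg⟩ : ∃ P Q R T, g.1.1 = fromBlocks P Q R T := ⟨_, _, _, _, (fromBlocks_toBlocks _).symm⟩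
    have k : ∀ j ∈ J, Xm j * R = 0 ∧ P * Xm j = Xm j * T := fun j hj => by
      have := conj_iff.1 (mul_inv_eq_of_eq_mul (h j hj))
      simp only [hg, mat_J hj, fromBlocks_multiply, fromBlocks_inj, mul_one, one_mul, mul_zero, zero_mul, add_zero,
        zero_add] at this
      exact ⟨left_eq_add.1 this.1, add_right_cancel (this.2.1.trans (add_comm _ _))⟩
    have x1 : Xm (jv 1 0 1 0 0 1) = 1 := by simp [← Matrix.ext_iff, all3, Xm]
    obtain ⟨rfl, rfl⟩ : R = 0 ∧ P = T := by simpa [x1] using k (jv 1 0 1 0 0 1) ⟨rfl, rfl, rfl⟩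
    have k1 := (k gp ⟨rfl, rfl, rfl⟩).2
    have k2 := (k gq ⟨rfl, rfl, rfl⟩).2
    have k3 := (k gs ⟨rfl, rfl, rfl⟩).2
    simp only [← Matrix.ext_iff, all3, mul3, one3, transpose_apply, Matrix.add_apply, Matrix.smul_apply, smul_eq_mul, Matrix.zero_apply, Matrix.neg_apply, of_apply, cons_val, mul_zero, zero_mul, mul_one, one_mul, add_zero, zero_add, true_and, and_true, neg_zero, neg_neg, sub_zero, zero_sub, mul_neg, neg_mul, Xm, gp, gq, gs] at k1 k2 k3
    have k4 : P = P 0 0 • (1 : M3) := by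
      simp only [← Matrix.ext_iff, all3, mul3, one3, transpose_apply, Matrix.add_apply, Matrix.smul_apply, smul_eq_mul, Matrix.zero_apply, Matrix.neg_apply, of_apply, cons_val, mul_zero, zero_mul, mul_one, one_mul, add_zero, zero_add, true_and, and_true, neg_zero, neg_neg, sub_zero, zero_sub, mul_neg, neg_mul, true_and]
      grind
    have k5 : ∀ m : ℕ, ∃ Q', (g ^ m).1.1 = fromBlocks (P 0 0 ^ m • 1) Q' 0 (P 0 0 ^ m • 1) := fun m => by
      induction m with
      | zero => exact ⟨0, by simp⟩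
      | succ m ih =>
        obtain ⟨Q', e⟩ := ih
        refine ⟨P 0 0 ^ m • Q + Q' * P, ?_⟩
        rw [pow_succ, Subgroup.coe_mul, Units.val_mul, e, hg, fromBlocks_multiply]
        simp only [mul_zero, zero_mul, add_zero, zero_add, smul_mul_assoc, one_mul, pow_succ, mul_smul, ← k4, smul_zero]
    obtain ⟨Q', k6⟩ := k5 (3 ^ n)
    have k7 := congrFun (congrFun k6 (.inl 0)) (.inl 0)
    rw [hn, ZMod.pow_card_pow] at k7
    simp at k7
    rw [← k7, one_smul] at k4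
    subst k4
    obtain ⟨f, -, k8⟩ := g.2
    simp [hg, Matrix.J, fromBlocks_transpose, fromBlocks_multiply, fromBlocks_smul, add_neg_eq_zero] at k8
    have k9 := fun i j => congrFun (congrFun k8.1 i) j
    refine ⟨jv (Q 0 0) (Q 0 1) (Q 1 1) (Q 0 2) (Q 1 2) (Q 2 2), ⟨rfl, rfl, rfl⟩, Subtype.ext (Units.ext ?_)⟩
    rw [hg]
    refine .trans ?_ (mat_J ⟨rfl, rfl, rfl⟩).symm
    congr 1
    simp [← Matrix.ext_iff, all3, Xm]
    exact ⟨k9 1 0, k9 2 0, k9 2 1⟩
  · obtain ⟨P, Q, R, T, hg⟩ : ∃ P Q R T, g.1.1 = fromBlocks P Q R T := ⟨_, _, _, _, (fromBlocks_toBlocks _).symm⟩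
    obtain ⟨f', k1, k2⟩ := g.2
    have k3 := conj_iff.1 h
    simp only [hg, mat_J hj, mat_J hj', fromBlocks_multiply, fromBlocks_inj, mul_one, one_mul, mul_zero, zero_mul,
      add_zero, zero_add, Matrix.J, fromBlocks_transpose, fromBlocks_smul, mul_neg, neg_mul] at k2 k3
    have k4 : Xm j' = sn f' • (P * Xm j * Pᵀ) := by
      rw [add_right_cancel (k3.2.1.trans (add_comm _ _)), mul_assoc, eq_add_of_add_neg_eq k2.2.2.1, mul_add, ← mul_assoc,
        left_eq_add.1 k3.1, zero_mul, add_zero, mul_smul_comm, smul_smul, sn_mul_self, one_smul, mul_one]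
    subst f2
    simp only [← Matrix.ext_iff, all3, mul3, one3, transpose_apply, Matrix.add_apply, Matrix.smul_apply, smul_eq_mul, Matrix.zero_apply, Matrix.neg_apply, of_apply, cons_val, mul_zero, zero_mul, mul_one, one_mul, add_zero, zero_add, true_and, and_true, neg_zero, neg_neg, sub_zero, zero_sub, mul_neg, neg_mul, Xm] at k4
    refine ⟨P 0 0 * x + P 0 1 * y + P 0 2 * w, P 1 0 * x + P 1 1 * y + P 1 2 * w, P 2 0 * x + P 2 1 * y + P 2 2 * w,
      f' ^^ f, by clear * - f1 k1; cases f <;> cases f' <;> simp_all, ?_⟩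
    ext <;> simp only [sn_xor, hj'.1, hj'.2.1, hj'.2.2]
    · rw [k4.1.1]; ring
    · rw [k4.1.2.1]; ring
    · rw [k4.2.1.2.1]; ring
    · rw [k4.1.2.2]; ring
    · rw [k4.2.1.2.2]; ring
    · rw [k4.2.2.2.2]; ring
  · refine exists_blk (W := !![0, 1, 0; -1, 0, 0; 0, 0, 1]) (by decide +kernel) (fun j hj => by simp_all [n1_apply])
      fun j _ => by simp [← Matrix.ext_iff, all3, Xm, n1_apply, Matrix.mul_apply, Fin.sum_univ_three]
  · refine exists_blk (W := !![1, 0, 0; 0, 0, 1; 0, -1, 0]) (by decide +kernel) (fun j hj => by simp_all [n2_apply])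
      fun j _ => by simp [← Matrix.ext_iff, all3, Xm, n2_apply, Matrix.mul_apply, Fin.sum_univ_three]
  · obtain ⟨g, hg⟩ := exists_el (e := e) (f := false) (by simp) (M := fromBlocks !![1, 0, 0; 0, 1, 0; 0, 0, 0]
      !![0, 0, 0; 0, 0, 0; 0, 0, 1] !![0, 0, 0; 0, 0, 0; 0, 0, -1] !![1, 0, 0; 0, 1, 0; 0, 0, 0]) (by decide +kernel)
    exact ⟨g, gs, ⟨rfl, rfl, rfl⟩, gz, fun h => one_ne_zero h.2.2, conj_iff.2 (by rw [hg]; decide +kernel)⟩

end Pp

open Pp in
instance instSpP : SpP := ⟨fun e => ⟨_, _, io e, gd e, fun he => by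
  obtain ⟨g, hg⟩ := exists_el (e := e) (f := true) (fun _ => he) (M := fromBlocks 1 0 0 (-1)) (by decide +kernel)
  refine ⟨g, fun j hj => conj_iff.2 ?_⟩
  have : Xm j⁻¹ = -Xm j := by simp [← Matrix.ext_iff, all3, Xm, hj.1, hj.2.1, hj.2.2]
  simp [hg, mat_J hj, mat_J (inv_mem hj), fromBlocks_multiply, this]⟩⟩

end Cfsg.Agent.Co
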