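import Cfsg.Agent.Co.B3
import Cfsg.Agent.Co.N0
import Cfsg.Agent.H1.SchurZ

/-! S5227, slice AU: automorphisms of `Sy`. -/

set_option autoImplicit false
set_option linter.unusedSimpArgs false
open Equiv
open scoped commutatorElement

namespace Cfsg.Agent.Co.AU
open Cfsg.Fus Cfsg.FusionSystem

variable {σ : Perm Sy} {A B X : Subgroup Sy} {x y : Sy}

/-- characteristic subgroups -/
def Chr (A : Subgroup Sy) : Prop := ∀ σ ∈ autStab (⊤ : Subgroup Sy), ∀ x ∈ A, σ x ∈ A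

theorem Chr.cmm (hA : Chr A) (hB : Chr B) (h1 : ∀ x ∈ X, ∀ a ∈ A, ⁅x, a⁆ ∈ B)
    (h2 : ∀ x, (∀ a ∈ A, ⁅x, a⁆ ∈ B) → x ∈ X) : Chr X := fun σ hσ x hx => h2 _ fun a ha => by
  have := hB σ hσ _ (h1 x hx _ (hA _ (inv_mem hσ) a ha))
  rwa [hσ.1.map_commutator trivial trivial, perm_apply_inv_self] at this

theorem chr_top : Chr ⊤ := fun _ _ _ _ => trivial

theorem chr_bot : Chr ⊥ := fun σ hσ x hx => by rw [Subgroup.mem_bot.1 hx, hσ.1.map_one]; exact one_mem _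

theorem Chr.set (h : Chr A) (hσ : σ ∈ autStab (⊤ : Subgroup Sy)) : σ ∈ setStab A :=
  mem_setStab_of_finite (h σ hσ)

theorem k3s : ∀ k : K3, (k + k = 0 ↔ k = 0) ∧ (k ^ 2 = 0 ↔ k = 0) := by decide

theorem cm_a (x y : Sy) : ⁅x, y⁆.a = 0 := by simp [commutatorElement_def]
theorem cm_b (x y : Sy) : ⁅x, y⁆.b = 0 := by simp [commutatorElement_def]
theorem cm_u (x y : Sy) : ⁅x, y⁆.u = 0 := by simp [commutatorElement_def]
theorem cm_z (x y : Sy) : ⁅x, y⁆.z = x.a * y.b - y.a * x.b := by simp [commutatorElement_def]; ring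
theorem cm_t (x y : Sy) : ⁅x, y⁆.t = x.b * y.u - y.b * x.u := by simp [commutatorElement_def]; ring

theorem cm_J (hx : x ∈ J) (y : Sy) : ⁅x, y⁆ = jv
    (-(2 * y.a * x.q + y.a ^ 2 * x.r + 2 * y.z * x.s + 2 * y.a * y.z * x.t + y.z ^ 2 * x.u))
    (-(y.a * x.r + y.b * x.s + (y.z + y.a * y.b) * x.t + y.z * y.b * x.u)) (-(2 * y.b * x.t + y.b ^ 2 * x.u))
    (-(y.a * x.t + y.z * x.u)) (-(y.b * x.u)) 0 := by
  obtain ⟨h1, h2, h3⟩ := hx
  ext <;> simp [commutatorElement_def, h1, h2, h3] <;> ring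

theorem cm_J' (hx : x ∈ J) (y : Sy) : ⁅y, x⁆ = jv
    (2 * y.a * x.q + y.a ^ 2 * x.r + 2 * y.z * x.s + 2 * y.a * y.z * x.t + y.z ^ 2 * x.u)
    (y.a * x.r + y.b * x.s + (y.z + y.a * y.b) * x.t + y.z * y.b * x.u) (2 * y.b * x.t + y.b ^ 2 * x.u)
    (y.a * x.t + y.z * x.u) (y.b * x.u) 0 := by
  obtain ⟨h1, h2, h3⟩ := hx
  ext <;> simp [commutatorElement_def, h1, h2, h3] <;> ring

theorem inJ (h : ∀ a, ⁅x, a⁆ ∈ L2) : x ∈ K4 := by
  have h1 := h gu
  have h2 := h gt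
  rw [cm_J' (by simp [gu])] at h1
  rw [cm_J' (by simp [gt])] at h2
  have hb : x.b = 0 := by simpa [gu] using h1.2.2.1
  have ha : x.a = 0 := by simpa [gt] using h2.2.1
  have hz : x.z = 0 := by simpa [gu] using h1.2.1
  have h3 := h gb
  rw [cm_J ⟨ha, hb, hz⟩] at h3
  have hu : x.u = 0 := by simpa [gb] using h3.2.2.1
  have ht : x.t = 0 := by simpa [gb, hu] using h3.1
  exact ⟨ht, hu, ha, hb, hz⟩

theorem chr_ZL : Chr ZL := chr_top.cmm chr_bot (fun x ⟨h1, h2, h3, h4, h5, h6⟩ a _ => by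
    rw [cm_J h6]; simp [Sy.ext_iff, *]) fun x h => by
  obtain ⟨ht, hu, hJ⟩ := inJ (x := x) fun a => by rw [Subgroup.mem_bot.1 (h a trivial)]; exact one_mem _
  have h1 := Subgroup.mem_bot.1 (h ga trivial)
  have h2 := Subgroup.mem_bot.1 (h gb trivial)
  rw [cm_J hJ] at h1 h2
  have hr : x.r = 0 := by simpa [ga, ht, hu] using congrArg Sy.q h1
  have hs : x.s = 0 := by simpa [gb, ht, hu] using congrArg Sy.q h2
  have hq : x.q = 0 := by simpa [ga, ht, hu, hr] using congrArg Sy.p h1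
  exact ⟨hq, hr, hs, ht, hu, hJ⟩

theorem chr_L2 : Chr L2 := chr_top.cmm chr_ZL (fun x ⟨h2, h3, h4, h5, h6⟩ a _ => by
    rw [cm_J h6]; simp [*]) fun x h => by
  obtain ⟨ht, hu, hJ⟩ := inJ (x := x) fun a => (h a trivial).2
  have h1 := h ga trivial
  have h2 := h gb trivial
  rw [cm_J hJ] at h1 h2
  have hr : x.r = 0 := by simpa [ga, ht, hu] using h1.1
  have hs : x.s = 0 := by simpa [gb, ht, hu] using h2.1
  exact ⟨hr, hs, ht, hu, hJ⟩

theorem chr_K4 : Chr K4 := chr_top.cmm chr_L2 (fun x ⟨h4, h5, h6⟩ a _ => by rw [cm_J h6]; simp [*])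
  fun x h => inJ fun a => h a trivial

theorem chr_E1 : Chr E1 := chr_L2.cmm chr_bot (fun x (hx : x.a = 0) a ⟨h2, h3, h4, h5, h6⟩ => by
    rw [cm_J' h6]; simp [Sy.ext_iff, *]) fun x h => by
  have h1 := Subgroup.mem_bot.1 (h gq (by simp [gq]))
  rw [cm_J' (by simp [gq])] at h1
  simpa [gq] using congrArg Sy.p h1

theorem chr_J : Chr J := chr_K4.cmm chr_bot (fun x ⟨e1, e2, e3⟩ a ⟨h4, h5, h6⟩ => by
    rw [cm_J' h6]; simp [Sy.ext_iff, *]) fun x h => by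
  have h1 := Subgroup.mem_bot.1 (h gq (by simp [gq]))
  have h2 := Subgroup.mem_bot.1 (h gs (by simp [gs]))
  rw [cm_J' (by simp [gq])] at h1
  rw [cm_J' (by simp [gs])] at h2
  exact ⟨by simpa [gq] using congrArg Sy.p h1, by simpa [gs] using congrArg Sy.q h2,
    by simpa [gs] using congrArg Sy.p h2⟩

theorem chr_E2 : Chr E2 := chr_J.cmm chr_K4 (fun x (hx : x.b = 0) a ha => by rw [cm_J' ha]; simp [*])
  fun x h => by
  have h1 := h gu (by simp [gu])
  rw [cm_J' (by simp [gu])] at h1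
  simpa [gu] using h1.1

theorem cube_L2 (x : Sy) : x * x * x ∈ L2 ↔ x.b * x.u = 0 := by
  have e : (x * x * x).r = -(x.b * (x.b * x.u)) := by
    simp only [mul_r, mul_b, mul_t, mul_u]; linear_combination (x.r + 2 * x.b * x.t + 2 * x.b ^ 2 * x.u) * h3
  have e2 : (x * x * x).s = x.a * (x.b * x.u) := by
    simp only [mul_s, mul_a, mul_z, mul_t, mul_u]
    linear_combination (x.s + x.a * x.t + x.z * x.u) * h3
  refine ⟨fun h => ?_, fun h => ⟨by rw [e, h]; simp, by rw [e2, h]; simp, ?_, ?_, ?_, ?_, ?_⟩⟩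
  · have := e.symm.trans h.1
    revert this; generalize x.b = b, x.u = u; revert b u; decide
  · simp only [mul_b, mul_t, mul_u]; linear_combination (x.t + x.b * x.u) * h3
  · simp only [mul_u]; linear_combination x.u * h3
  · simp only [mul_a]; linear_combination x.a * h3
  · simp only [mul_b]; linear_combination x.b * h3
  · simp only [mul_z, mul_a, mul_b]; linear_combination (x.z + x.a * x.b) * h3

theorem chr_E3 : Chr E3 := by
  have k : ∀ σ ∈ autStab (⊤ : Subgroup Sy), ∀ x ∈ E3, x ∉ E2 → σ x ∈ E3 := fun σ hσ x hx h2 => by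
    have h1 := chr_L2 σ hσ _ ((cube_L2 x).2 (by simp_all))
    rw [hσ.1.map_mul trivial trivial, hσ.1.map_mul trivial trivial, cube_L2] at h1
    exact (mul_eq_zero.1 h1).resolve_left fun e => h2 ((chr_E2.set hσ x).1 e)
  intro σ hσ x hx
  by_cases h : x ∈ E2
  · rw [← mul_inv_cancel_right x gb, hσ.1.map_mul trivial trivial]
    exact mul_mem (k σ hσ _ (by simp_all [gb]) (by simp_all [gb])) (k σ hσ _ (by simp [gb]) (by simp [gb]))
  · exact k σ hσ x hx h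

theorem chr_PH : Chr PH := fun σ hσ x hx => ⟨chr_E3 σ hσ x hx.1, chr_E1 σ hσ x hx.2.1, chr_E2 σ hσ x hx.2.2⟩

theorem lin (f : Sy → K3) (hf : ∀ x y, f (x * y) = f x + f y) (hσ : σ ∈ autStab (⊤ : Subgroup Sy))
    (h0 : ∀ x, f (σ x) = 0 ↔ f x = 0) {g : Sy} (hg : f g = 1) : ∃ e, ∀ x, f (σ x) = sn e * f x := by
  have h1 : f 1 = 0 := by simpa using hf 1 1
  have hi : ∀ x, f x⁻¹ = -f x := fun x => by have := hf x x⁻¹; rw [mul_inv_cancel, h1] at this; grind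
  have k : ∀ x, f (σ x) = f (σ g) * f x := fun x => by
    rcases k3 (f x) with h | h | h
    · rw [h, mul_zero, h0, h]
    · have := (h0 (x * g⁻¹)).2 (by rw [hf, hi, h, hg, add_neg_cancel])
      rw [hσ.1.map_mul trivial trivial, hσ.1.map_inv trivial, hf, hi] at this
      grind
    · have := (h0 (x * g)).2 (by rw [hf, h, hg, neg_add_cancel])
      rw [hσ.1.map_mul trivial trivial, hf] at this
      grind
  rcases k3 (f (σ g)) with h | h | h
  · exact absurd (hg.symm.trans ((h0 g).1 h)) one_ne_zero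
  · exact ⟨false, fun x => by rw [k, h]; rfl⟩
  · exact ⟨true, fun x => by rw [k, h]; rfl⟩

theorem dec (hσ : σ ∈ autStab (⊤ : Subgroup Sy)) : ∃ e f g, ∀ x, (σ x).a = sn e * x.a ∧ (σ x).b = sn f * x.b ∧
    (σ x).u = sn g * x.u := by
  obtain ⟨e, he⟩ := lin Sy.a mul_a hσ (chr_E1.set hσ) (g := ga) rfl
  obtain ⟨f, hf⟩ := lin Sy.b mul_b hσ (chr_E2.set hσ) (g := gb) rfl
  obtain ⟨g, hg⟩ := lin Sy.u mul_u hσ (chr_E3.set hσ) (g := gu) rfl
  exact ⟨e, f, g, fun x => ⟨he x, hf x, hg x⟩⟩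

end Cfsg.Agent.Co.AU
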