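import Cfsg.Agent.Co.U1

/-! S5227, slice AU: restriction to `J` and the standard position of `Aut_F(S)`. -/

set_option autoImplicit false
set_option linter.unusedSimpArgs false
open Equiv
open scoped commutatorElement Pointwise

namespace Cfsg.Agent.Co
open Cfsg.Fus Cfsg.FusionSystem
namespace AU

variable {σ : Perm Sy} {x y : Sy}

theorem aut_mem (α : MulAut Sy) : α.toEquiv ∈ autStab (⊤ : Subgroup Sy) :=
  ⟨fun x _ y _ => map_mul α x y, fun _ => Iff.rfl⟩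

theorem res0 (δ : MulAut Sy) (ha : ga⁻¹ * δ ga ∈ J) (hb : gb⁻¹ * δ gb ∈ J) (hu : δ gu = gu) :
    ∀ j ∈ J, δ j = j := by
  let D : Subgroup Sy := J ⊓ (δ : Sy →* Sy).eqLocus (MonoidHom.id Sy)
  have c : ∀ g, g⁻¹ * δ g ∈ J → ∀ x ∈ D, g * x * g⁻¹ ∈ D := fun g hg x hx => by
    refine ⟨J_conj hx.1 g, ?_⟩
    have h1 : δ x = x := hx.2
    show δ (g * x * g⁻¹) = g * x * g⁻¹
    rw [map_mul, map_mul, map_inv, h1, ← mul_inv_cancel_left g (δ g), mul_assoc g,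
      J_comm hg hx.1]
    group
  have u : gu ∈ D := ⟨show gu ∈ J by decide, hu⟩
  have h1 := D.mul_mem (c gb hb _ u) (D.inv_mem u)
  have t : gt ∈ D := mem_of_eq (c gb hb _ h1) (by decide)
  have r : gr ∈ D := mem_of_eq (D.mul_mem h1 (D.inv_mem t)) (by decide)
  have s : gs ∈ D := mem_of_eq (D.mul_mem (c ga ha _ t) (D.inv_mem t)) (by decide)
  have q : gq ∈ D := mem_of_eq (D.mul_mem (c gb hb _ s) (D.inv_mem s)) (by decide)
  have p : gp ∈ D := mem_of_eq (D.mul_mem (D.mul_mem (c ga ha _ r) (D.inv_mem r)) (D.inv_mem q))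
    (by decide)
  exact fun j hj => (J_le p q r s t u hj).2

theorem res1 (δ : MulAut Sy) (ha : ga⁻¹ * δ ga ∈ J) (hb : gb⁻¹ * δ gb ∈ J) (hu : (δ gu).u = 1) :
    ∃ (s : Sy) (m : K3), ∀ j ∈ J, δ j = s * tau m j * s⁻¹ := by
  have hJ : δ gu ∈ J := chr_J _ (aut_mem δ) gu (by decide)
  have h1 : ga * δ gu = δ gu * ga := by
    have : δ ga * δ gu = δ gu * δ ga := by
      rw [← map_mul, ← map_mul, show ga * gu = gu * ga by decide]
    have h2 := J_comm ha hJ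
    revert this h2
    generalize δ ga = v
    generalize δ gu = w
    generalize ga = g
    intro this h2
    calc g * w = g * (w * (g⁻¹ * v)) * v⁻¹ * g := by group
      _ = v * w * v⁻¹ * g := by rw [← h2]; group
      _ = w * g := by rw [this]; group
  obtain ⟨w, hw⟩ : ∃ w, δ gu = w := ⟨_, rfl⟩
  rw [hw] at h1 hJ hu
  obtain ⟨e1, e2, e3⟩ := hJ
  have ht : w.t = 0 := by simpa [ga, e1, e2, e3] using congrArg Sy.s h1
  have hr : w.r = 0 := by simpa [ga, e1, e2, e3] using congrArg Sy.q h1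
  have hq : w.q = 0 := by simpa [ga, e1, e2, e3, hr] using congrArg Sy.p h1
  let zc : Sy := ⟨0, 0, 0, 0, 0, 0, 0, 0, w.s⟩
  let m := w.p - w.s ^ 2
  have k := res0 ((tauA m)⁻¹ * MulAut.conj zc⁻¹ * δ)
    (show ga⁻¹ * (tau m)⁻¹ (zc⁻¹ * δ ga * zc⁻¹⁻¹) ∈ J by simpa [tau_inv_apply, zc] using ha)
    (show gb⁻¹ * (tau m)⁻¹ (zc⁻¹ * δ gb * zc⁻¹⁻¹) ∈ J by simpa [tau_inv_apply, zc] using hb)
    (show (tau m)⁻¹ (zc⁻¹ * δ gu * zc⁻¹⁻¹) = gu by
      rw [hw]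
      ext <;> simp [tau_inv_apply, zc, m, e1, e2, e3, ht, hr, hq, hu, gu]
      ring)
  refine ⟨zc, m, fun j hj => ?_⟩
  have : (tauA m)⁻¹ (zc⁻¹ * δ j * zc⁻¹⁻¹) = j := k j hj
  have h2 := congrArg (tauA m) this
  rw [MulAut.apply_inv_self] at h2
  rw [show tau m j = tauA m j from rfl, ← h2]
  group

theorem res2 (δ : MulAut Sy) (h : ∀ x, (δ x).a = x.a ∧ (δ x).b = x.b ∧ (δ x).u = x.u) :
    ∃ (s : Sy) (m : K3), ∀ j ∈ J, δ j = s * tau m j * s⁻¹ := by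
  let s0 : Sy := ⟨0, 0, 0, 0, 0, 0, (δ gb).z, -(δ ga).z, 0⟩
  have k := res1 (MulAut.conj s0⁻¹ * δ)
    (show ga⁻¹ * (s0⁻¹ * δ ga * s0⁻¹⁻¹) ∈ J by
      simp [h, s0, show ga.a = 1 from rfl, show ga.b = 0 from rfl, show ga.z = 0 from rfl]; ring)
    (show gb⁻¹ * (s0⁻¹ * δ gb * s0⁻¹⁻¹) ∈ J by
      simp [h, s0, show gb.a = 0 from rfl, show gb.b = 1 from rfl, show gb.z = 0 from rfl])
    (show (s0⁻¹ * δ gu * s0⁻¹⁻¹).u = 1 by simp [h, s0, show gu.u = 1 from rfl])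
  obtain ⟨s, m, k⟩ := k
  refine ⟨s0 * s, m, fun j hj => ?_⟩
  have : s0⁻¹ * δ j * s0⁻¹⁻¹ = _ := k j hj
  rw [mul_inv_rev, mul_assoc s0, mul_assoc s0, ← mul_assoc _ s⁻¹, ← this]
  group

theorem sn_sn (e : Bool) (k : K3) : sn e * (sn e * k) = k := by rw [← mul_assoc, sn_mul_self, one_mul]

theorem res (α : MulAut Sy) : ∃ (s : Sy) (e f g : Bool) (m : K3), ∀ j ∈ J,
    α j = s * sg e f g (tau m j) * s⁻¹ := by
  obtain ⟨e, f, g, h⟩ := dec (aut_mem α)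
  obtain ⟨s, m, k⟩ := res2 (sgA e f g * α) fun x => by
    obtain ⟨h1, h2, h3⟩ := h x
    exact ⟨(congrArg (sn e * ·) h1).trans (sn_sn _ _), (congrArg (sn f * ·) h2).trans (sn_sn _ _),
      (congrArg (sn g * ·) h3).trans (sn_sn _ _)⟩
  refine ⟨sgA e f g s, e, f, g, m, fun j hj => ?_⟩
  have := congrArg (sgA e f g) (k j hj)
  rw [map_mul, map_mul, map_inv] at this
  exact (sgF_sgF e f g _).symm.trans this

theorem PH_le_comm : PH ≤ commutator Sy := by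
  have h0 : ∀ g x : Sy, ⁅g, x⁆ ∈ commutator Sy := fun g x =>
    Subgroup.commutator_mem_commutator trivial trivial
  have q : gq ∈ commutator Sy := mem_of_eq (h0 gb gs) (by decide)
  have s : gs ∈ commutator Sy := mem_of_eq (h0 ga gt) (by decide)
  have r : gr ∈ commutator Sy := mem_of_eq (h0 gt gb) (by decide)
  have p : gp ∈ commutator Sy := mem_of_eq (h0 gq ga) (by decide)
  have t : gt ∈ commutator Sy := mem_of_eq (mul_mem (h0 gb gu) (inv_mem r)) (by decide)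
  intro x hx
  have := mul_mem (h0 ⟨0, 0, 0, 0, 0, 0, x.z, 0, 0⟩ gb) (H0_le p q r s t (modJ (x := x)
    (h := ⁅(⟨0, 0, 0, 0, 0, 0, x.z, 0, 0⟩ : Sy), gb⁆) ((cm_a _ _).trans hx.2.1.symm)
    ((cm_b _ _).trans hx.2.2.symm) (by simp [cm_z, gb])) (by simpa [cm_u] using hx.1))
  rwa [mul_inv_cancel_left] at this

theorem isP_triv : IsPGroup 3 (trivOn PH ⊤) := fun σ => by
  obtain ⟨k, hk⟩ := H1.aut_pow_eq_one_of_frattini isP_Sy
    (MulEquiv.mk' σ.1 fun x y => σ.2.1.1 trivial trivial) fun x =>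
      H1.commutator_le_frattini_of_isPGroup isP_Sy (PH_le_comm (σ.2.2 x trivial))
  have := congrArg (MulAut.toPerm Sy) hk
  rw [map_pow, map_one] at this
  exact ⟨k, Subtype.ext this⟩

theorem sg_mul (e f g e' f' g' : Bool) :
    sg e f g * sg e' f' g' = sg (xor e e') (xor f f') (xor g g') := Equiv.ext fun x => by
  cases e <;> cases f <;> cases g <;> cases e' <;> cases f' <;> cases g' <;>
    ext <;> simp [sg_apply, sgF]

theorem sg_one : sg false false false = 1 := Equiv.ext fun x => by ext <;> simp [sg_apply, sgF]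

/-- the diagonal automorphisms -/
def Lam : Subgroup (Perm Sy) where
  carrier := {σ | ∃ e f g, σ = sg e f g}
  one_mem' := ⟨_, _, _, sg_one.symm⟩
  mul_mem' := by rintro _ _ ⟨e, f, g, rfl⟩ ⟨e', f', g', rfl⟩; exact ⟨_, _, _, sg_mul ..⟩
  inv_mem' := by rintro _ ⟨e, f, g, rfl⟩; exact ⟨e, f, g, rfl⟩

theorem Lam_le : Lam ≤ autStab ⊤ := by rintro _ ⟨e, f, g, rfl⟩; exact aut_mem _

theorem Lam_disj : trivOn PH ⊤ ⊓ Lam = ⊥ := by
  refine eq_bot_iff.2 ?_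
  rintro _ ⟨h, e, f, g, rfl⟩
  have h1 := (h.2 ga trivial).2.1
  have h2 := (h.2 gb trivial).2.2
  have h3 := (h.2 gu trivial).1
  obtain rfl : e = false := by cases e; rfl; exact absurd h1 (by simp [sg_apply, sgF, ga]; decide)
  obtain rfl : f = false := by cases f; rfl; exact absurd h2 (by simp [sg_apply, sgF, gb]; decide)
  obtain rfl : g = false := by cases g; rfl; exact absurd h3 (by simp [sg_apply, sgF, gu]; decide)
  exact sg_one

theorem norm_triv (h : σ ∈ autStab ⊤) :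
    σ ∈ Subgroup.normalizer (trivOn PH ⊤ : Set (Perm Sy)) :=
  mem_normalizer_of_finite fun _ hτ => conj_mem_trivOn hτ h fun x hx _ => chr_PH σ h x hx

theorem innS_conj {ρ : Perm Sy} (hσ : σ ∈ innS ⊤ ⊤) (hρ : ρ ∈ autStab ⊤) :
    ρ * σ * ρ⁻¹ ∈ innS (⊤ : Subgroup Sy) ⊤ := by
  obtain ⟨g, hg, e⟩ := mem_innS_self.1 hσ
  refine mem_innS_self.2 ⟨ρ g, trivial, fun x _ => ?_⟩
  rw [Perm.mul_apply, Perm.mul_apply, e _ trivial, hρ.1.map_conj trivial trivial]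
  simp

theorem nrm (F : FS) (hF : F.IsSaturated 3) :
    ∃ (θ : MulAut Sy) (F' : FS), L.Transp ⊤ ⊤ θ θ.symm F F' ∧ Nrm F' := by
  have hb : ∀ σ ∈ fixP (⊤ : Subgroup Sy), σ = 1 := fun σ h => Equiv.ext fun x => h x trivial
  have hI : IsPGroup 3 (innS (⊤ : Subgroup Sy) ⊤) := fun σ =>
    (isPMod_innS isP_top ⊤ σ.1 σ.2).imp fun k h => Subtype.ext (hb (σ.1 ^ 3 ^ k) h)
  have hN := isP_triv
  have h1 := ((F.finMod_stab le_rfl).sylMod_iff_not_dvd (inf_le_left.trans (fixP_le_innS _ _))).1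
    (isFullyAutomized_iff_sylMod.1 (F.isFullyNormalized_top.isFullyAutomized hF isP_top)).2
  have hn : F.stab ⊤ ≤ Subgroup.normalizer (innS (⊤ : Subgroup Sy) ⊤ : Set (Perm Sy)) :=
    fun σ hσ => mem_normalizer_of_finite fun x hx => innS_conj hx (F.stab_le_autStab _ hσ)
  obtain ⟨k, hk⟩ := hI.exists_card_eq
  obtain ⟨l, hl⟩ := hN.exists_card_eq
  have ho := (Nat.prime_three.coprime_iff_not_dvd).2 h1.2.2
  obtain ⟨D, d1, d2, -, d3⟩ := H1.exists_complement_rel h1.1 hn (hk ▸ ho.pow_left k)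
  have hD : (Nat.card D).Coprime (Nat.card (trivOn PH ⊤)) := hl ▸ d3 ▸ ho.symm.pow_right l
  have hDn : D ≤ Subgroup.normalizer (trivOn PH ⊤ : Set (Perm Sy)) := fun σ hσ =>
    norm_triv ((mem_stab le_rfl).1 (d1 hσ)).mem_autStab
  obtain ⟨ω, hω, hc⟩ := H1.exists_conj_le_of_le_sup (N := trivOn PH ⊤)
    (H := Lam ⊓ (D ⊔ trivOn PH ⊤)) (K := D) (fun σ hσ => norm_triv (Lam_le hσ.1))
    (fun σ hσ => by
      have hσ' := (mem_stab le_rfl).1 (d1 hσ)
      obtain ⟨e, f, g, h⟩ := dec hσ'.mem_autStab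
      have l1 : sg e f g ∈ Lam := ⟨e, f, g, rfl⟩
      have h2 : σ * (sg e f g)⁻¹ ∈ trivOn PH ⊤ :=
        ⟨mul_mem hσ'.mem_autStab (inv_mem (Lam_le l1)), fun x _ => by
          simp [sg_inv, sg_apply, sgF, h, sn_sn]⟩
      rw [← inv_mul_cancel_right σ (sg e f g)]
      refine mul_mem (Subgroup.mem_sup_right h2) (Subgroup.mem_sup_left ⟨l1, ?_⟩)
      simpa using mul_mem (inv_mem (Subgroup.mem_sup_right h2)) (Subgroup.mem_sup_left hσ))
    (by
      have := H1.relIndex_dvd_card_of_le_sup hDn (inf_le_right : Lam ⊓ (D ⊔ trivOn PH ⊤) ≤ _)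
      rw [← Subgroup.inf_relIndex_right, ← inf_assoc, Lam_disj, bot_inf_eq,
        Subgroup.relIndex_bot_left] at this
      exact hD.coprime_dvd_left this) hD (Or.inl (H1.IsPGroup.isSolvable hN))
  have t0 : L.PIso ⊤ ⊤ ω ⇑ω⁻¹ :=
    ⟨hω.1.1, fun _ _ => trivial, fun _ _ => trivial, fun x _ => ω.symm_apply_apply x,
      fun x _ => ω.apply_symm_apply x⟩
  obtain ⟨F', t⟩ := t0.exists_transp le_rfl F t0.img_self
  refine ⟨MulEquiv.mk' ω fun x y => hω.1.1 trivial trivial, F', t, fun σ hσ => ?_⟩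
  have h2 : F.Iso ⊤ ⊤ (ω⁻¹ * σ * ω) := IsMap.iso_self
    (by have := t.map' hσ.isMap; rw [t.img_eq'] at this; exact this) fun _ _ => trivial
  have h3 := h2.mem_stab
  rw [← d2, ← SetLike.mem_coe, Subgroup.coe_mul_of_left_le_normalizer_right _ _ (d1.trans hn)]
    at h3
  obtain ⟨d, hd, i, hi, e⟩ := h3
  have h4 := (hc (Subgroup.smul_mem_pointwise_smul d _ _ hd)).1
  obtain ⟨g, -, e2⟩ := mem_innS_self.1 (innS_conj (innS_conj hi hω.1) (Lam_le h4))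
  obtain ⟨s, u, γ, e'⟩ := h4
  refine ⟨g, s, u, γ, fun x => ?_⟩
  rw [← e', ← e2 _ trivial, ← Perm.mul_apply, MulAut.smul_def, MulAut.conj_apply,
    show i = d⁻¹ * (ω⁻¹ * σ * ω) from eq_inv_mul_of_mul_eq e]
  congr 1
  group

end AU

instance instAuS : AuS where
  res := AU.res
  e1 α := AU.chr_E1 _ (AU.aut_mem α)
  e2 α := AU.chr_E2 _ (AU.aut_mem α)
  e3 α := AU.chr_E3 _ (AU.aut_mem α)
  nrm := AU.nrm

end Cfsg.Agent.Co
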