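import Cfsg.Agent.Co.N0
import Cfsg.Agent.Co.B3

/-! Matrices of automorphisms of `J` in a basis adapted to a regular unipotent element. -/

set_option autoImplicit false
open Equiv

namespace Cfsg.Agent.Co.W
open Cfsg.Fus Cfsg.FusionSystem

@[ext] structure V6 where
  a : K3
  b : K3
  c : K3
  d : K3
  e : K3
  f : K3
deriving DecidableEq

@[ext] structure LM where
  a : V6
  b : V6
  c : V6
  d : V6
  e : V6
  f : V6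
deriving DecidableEq

def ap (M : LM) (v : V6) : V6 :=
  ⟨v.a * M.a.a + v.b * M.b.a + v.c * M.c.a + v.d * M.d.a + v.e * M.e.a + v.f * M.f.a,
   v.a * M.a.b + v.b * M.b.b + v.c * M.c.b + v.d * M.d.b + v.e * M.e.b + v.f * M.f.b,
   v.a * M.a.c + v.b * M.b.c + v.c * M.c.c + v.d * M.d.c + v.e * M.e.c + v.f * M.f.c,
   v.a * M.a.d + v.b * M.b.d + v.c * M.c.d + v.d * M.d.d + v.e * M.e.d + v.f * M.f.d,
   v.a * M.a.e + v.b * M.b.e + v.c * M.c.e + v.d * M.d.e + v.e * M.e.e + v.f * M.f.e,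
   v.a * M.a.f + v.b * M.b.f + v.c * M.c.f + v.d * M.d.f + v.e * M.e.f + v.f * M.f.f⟩

def I6 : LM := ⟨⟨1,0,0,0,0,0⟩, ⟨0,1,0,0,0,0⟩, ⟨0,0,1,0,0,0⟩, ⟨0,0,0,1,0,0⟩, ⟨0,0,0,0,1,0⟩,
  ⟨0,0,0,0,0,1⟩⟩

def cp (M N : LM) : LM := ⟨ap M N.a, ap M N.b, ap M N.c, ap M N.d, ap M N.e, ap M N.f⟩

theorem ap_cp (M N : LM) (v : V6) : ap (cp M N) v = ap M (ap N v) := by
  ext <;> simp only [ap, cp] <;> ring

theorem ap_I6 (v : V6) : ap I6 v = v := by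
  ext <;> simp [ap, I6]

theorem cp_I6 (M : LM) : cp M I6 = M := by
  ext <;> simp [ap, cp, I6]

instance instMonoidLM : Monoid LM where
  mul := cp
  one := I6
  mul_assoc M N P := by
    change cp (cp M N) P = cp M (cp N P)
    exact LM.ext (ap_cp ..) (ap_cp ..) (ap_cp ..) (ap_cp ..) (ap_cp ..) (ap_cp ..)
  one_mul M := by
    change cp I6 M = M
    simp only [cp, ap_I6]
  mul_one := cp_I6

theorem ap_mul (M N : LM) (v : V6) : ap (M * N) v = ap M (ap N v) := ap_cp M N v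
theorem ap_one (v : V6) : ap 1 v = v := ap_I6 v

/-- coordinates -/
def ka (e : Bool) (x : Sy) : V6 :=
  ⟨x.u, sn e * x.t, 2 * x.r + sn e * x.t, x.s + sn e * x.r + 2 * x.t,
    sn e * x.q + 2 * sn e * x.r + x.t, 2 * sn e * x.p + 2 * sn e * x.r + x.t⟩

def la (e : Bool) (v : V6) : Sy :=
  jv (v.c + 2 * sn e * v.f) (2 * v.c + sn e * v.e) (v.b + 2 * v.c) (sn e * v.c + v.d) (sn e * v.b) v.a

variable {e : Bool}

theorem la_J (e : Bool) (v : V6) : la e v ∈ J := ⟨rfl, rfl, rfl⟩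

theorem ka_la (e : Bool) (v : V6) : ka e (la e v) = v := by
  obtain ⟨a, b, c, d, f, g⟩ := v
  revert e a b c d f g
  decide +kernel

theorem la_ka (e : Bool) {x : Sy} (hx : x ∈ J) : la e (ka e x) = x := by
  obtain ⟨p, q, r, s, t, u, a, b, z⟩ := x
  obtain ⟨rfl, rfl, rfl⟩ : a = 0 ∧ b = 0 ∧ z = 0 := hx
  revert e p q r s t u
  decide +kernel

theorem ka_inj {x y : Sy} (hx : x ∈ J) (hy : y ∈ J) (h : ka e x = ka e y) : x = y := by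
  rw [← la_ka e hx, h, la_ka e hy]

/-- the matrix of a map -/
def mat (e : Bool) (σ : Sy → Sy) : LM :=
  ⟨ka e (σ (la e I6.a)), ka e (σ (la e I6.b)), ka e (σ (la e I6.c)), ka e (σ (la e I6.d)),
    ka e (σ (la e I6.e)), ka e (σ (la e I6.f))⟩

theorem hom_sm {σ : Sy → Sy} (h : HomOn σ J) (hm : ∀ j ∈ J, σ j ∈ J) (k : K3) {x : Sy}
    (hx : x ∈ J) : σ (sm k x) = sm k (σ x) := by
  have e0 : ∀ y ∈ J, sm 0 y = 1 := fun y _ => by ext <;> simp [sm]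
  have e1 : ∀ y ∈ J, sm 1 y = y := fun y hy => by ext <;> simp [sm, hy.1, hy.2.1, hy.2.2]
  have e2 : ∀ y ∈ J, sm (-1) y = y⁻¹ := fun y hy => by ext <;> simp [sm, hy.1, hy.2.1, hy.2.2]
  rcases k3 k with rfl | rfl | rfl
  · rw [e0 _ hx, e0 _ (hm _ hx), h.map_one]
  · rw [e1 _ hx, e1 _ (hm _ hx)]
  · rw [e2 _ hx, e2 _ (hm _ hx), h.map_inv hx]

theorem rep {σ : Sy → Sy} (h : HomOn σ J) (hm : ∀ j ∈ J, σ j ∈ J) (e : Bool) {x : Sy}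
    (hx : x ∈ J) : ka e (σ x) = ap (mat e σ) (ka e x) := by
  have h0 : ∀ v : V6, la e v = sm v.a (la e I6.a) * (sm v.b (la e I6.b) * (sm v.c (la e I6.c) *
      (sm v.d (la e I6.d) * (sm v.e (la e I6.e) * sm v.f (la e I6.f))))) := fun v => by
    ext <;> simp [la, sm, I6] <;> ring
  have m := sm_J
  conv_lhs => rw [← la_ka e hx, h0, h (m _ _) (mul_mem (m _ _) (mul_mem (m _ _) (mul_mem (m _ _)
      (mul_mem (m _ _) (m _ _))))), h (m _ _) (mul_mem (m _ _) (mul_mem (m _ _)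
      (mul_mem (m _ _) (m _ _)))), h (m _ _) (mul_mem (m _ _) (mul_mem (m _ _) (m _ _))),
      h (m _ _) (mul_mem (m _ _) (m _ _)), h (m _ _) (m _ _)]
  simp only [hom_sm h hm _ (la_J _ _), mat]
  generalize ka e x = v
  ext <;> simp [ka, ap, sm] <;> ring

theorem mat_ext {σ : Sy → Sy} {M : LM} (h : ∀ j ∈ J, ka e (σ j) = ap M (ka e j)) :
    mat e σ = M := by
  simp only [mat, h _ (la_J _ _), ka_la]
  exact cp_I6 M

theorem mat_congr {σ τ : Sy → Sy} (h : ∀ j ∈ J, σ j = τ j) : mat e σ = mat e τ := by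
  simp only [mat, h _ (la_J _ _)]

variable {F : FS} {σ τ : Perm Sy} {M N : LM}

theorem mat_mul (hσ : F.Iso J J σ) (hτ : F.Iso J J τ) : mat e ⇑(σ * τ) = mat e σ * mat e τ :=
  mat_ext fun j hj => by
    rw [Perm.mul_apply, rep hσ.homOn (fun _ => hσ.mem) e (hτ.mem hj),
      rep hτ.homOn (fun _ => hτ.mem) e hj, ap_mul]

theorem mat_one : mat e ⇑(1 : Perm Sy) = 1 := mat_ext fun _ _ => (ap_one _).symm

theorem mat_pow (hσ : F.Iso J J σ) (n : ℕ) : mat e ⇑(σ ^ n) = mat e σ ^ n := by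
  induction n with
  | zero => exact mat_one
  | succ n ih => rw [pow_succ, mat_mul (hσ.pow n) hσ, ih, pow_succ]

theorem eq_of_mat (hσ : F.Iso J J σ) {f : Sy → Sy} (h : HomOn f J) (hm : ∀ j ∈ J, f j ∈ J)
    (he : mat e σ = mat e f) {j : Sy} (hj : j ∈ J) : σ j = f j :=
  ka_inj (e := e) (hσ.mem hj) (hm j hj) (by
    rw [rep hσ.homOn (fun _ => hσ.mem) e hj, rep h hm e hj, he])

/-- `M` is the matrix of an element of `Aut_F(J)`. -/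
def Rp (F : FS) (e : Bool) (M : LM) : Prop := ∃ σ, F.Iso J J σ ∧ mat e σ = M

theorem Rp.mul (h : Rp F e M) (h' : Rp F e N) : Rp F e (M * N) := by
  obtain ⟨σ, a, rfl⟩ := h
  obtain ⟨τ, b, rfl⟩ := h'
  exact ⟨σ * τ, b.trans a, mat_mul a b⟩

theorem Rp.one : Rp F e 1 := ⟨1, F.iso_one le_top, mat_one⟩

theorem Rp.pow (h : Rp F e M) (n : ℕ) : Rp F e (M ^ n) := by
  obtain ⟨σ, a, rfl⟩ := h
  exact ⟨σ ^ n, a.pow n, mat_pow a n⟩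

theorem J_norm (g : Sy) : g ∈ Subgroup.normalizer (J : Set Sy) :=
  mem_normalizer_of_finite fun _ hx => J_conj hx g

theorem iso_cj (F : FS) (g : Sy) : F.Iso J J (cj g) := F.iso_cj le_top trivial (J_norm g)

theorem Rp.iso (h : Rp F e (mat e σ)) (hh : HomOn σ J) (hm : ∀ j ∈ J, σ j ∈ J) : F.Iso J J σ := by
  obtain ⟨τ, a, b⟩ := h
  exact (a.isMap.congr fun j hj => (eq_of_mat a hh hm b hj).symm).iso_self hm

theorem fn_J : F.IsFullyNormalized J := F.isFullyNormalized_of_le_normalizer le_top fun g _ => J_norm g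

theorem Rp.cube (hF : F.IsSaturated 3) (h : Rp F e M) (h9 : M ^ 9 = 1) : M ^ 3 = 1 := by
  obtain ⟨σ, a, rfl⟩ := h
  obtain ⟨χ, c1, c2⟩ := (fn_J.isFullyAutomized hF isP_top).exists_conj_elt a (k := 2) fun j hj =>
    eq_of_mat (e := e) (a.pow _) (f := ⇑(1 : Perm Sy)) (fun _ _ _ _ => rfl) (fun _ h => h)
      (by rw [mat_pow a, mat_one]; exact h9) hj
  obtain ⟨g, -, -, c3⟩ := mem_innS.1 c2
  rw [← mat_pow a, ← mat_one (e := e)]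
  refine mat_congr fun j hj => χ.injective ?_
  have h1 := pow_apply_of_eq_conj (J_norm g) c3 3 _ (c1.mem hj)
  have h2 : g ^ 3 ∈ J := by
    simp only [pow_succ, pow_zero, one_mul, mem_J, mul_a, mul_b, mul_z]
    exact ⟨by linear_combination g.a * h3, by linear_combination g.b * h3,
      by linear_combination (g.z + g.a * g.b) * h3⟩
  rw [J_comm h2 (c1.mem hj), mul_inv_cancel_right, conj_pow] at h1
  simpa using h1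

/-- evaluation of words -/
def wd (A B C D : LM) : List ℕ → LM
  | [] => 1
  | n :: l => (match n with | 0 => A | 1 => B | 2 => C | _ => D) * wd A B C D l

theorem Rp.wd {A B C D : LM} (a : Rp F e A) (b : Rp F e B) (c : Rp F e C) (d : Rp F e D) :
    ∀ l, Rp F e (wd A B C D l)
  | [] => Rp.one
  | n :: l => Rp.mul (by split <;> assumption) (Rp.wd a b c d l)

def Am : Bool → LM
  | false => ⟨⟨1,0,0,0,0,0⟩, ⟨0,1,0,1,1,2⟩, ⟨0,0,1,0,2,0⟩, ⟨0,0,0,1,0,0⟩, ⟨0,0,0,0,1,1⟩, ⟨0,0,0,0,0,1⟩⟩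
  | true => ⟨⟨1,0,0,0,0,0⟩, ⟨0,1,0,2,2,1⟩, ⟨0,0,1,0,1,0⟩, ⟨0,0,0,1,0,0⟩, ⟨0,0,0,0,1,1⟩, ⟨0,0,0,0,0,1⟩⟩
def Bm : Bool → LM
  | false => ⟨⟨1,1,0,0,0,0⟩, ⟨0,1,1,2,1,1⟩, ⟨0,0,1,0,1,0⟩, ⟨0,0,0,1,1,0⟩, ⟨0,0,0,0,1,0⟩, ⟨0,0,0,0,0,1⟩⟩
  | true => ⟨⟨1,2,1,1,2,2⟩, ⟨0,1,2,2,1,1⟩, ⟨0,0,1,0,1,0⟩, ⟨0,0,0,1,2,0⟩, ⟨0,0,0,0,1,0⟩, ⟨0,0,0,0,0,1⟩⟩
def Zm : Bool → LM
  | false => ⟨⟨1,0,0,1,0,2⟩, ⟨0,1,0,0,1,0⟩, ⟨0,0,1,0,0,1⟩, ⟨0,0,0,1,0,1⟩, ⟨0,0,0,0,1,0⟩, ⟨0,0,0,0,0,1⟩⟩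
  | true => ⟨⟨1,0,0,1,0,1⟩, ⟨0,1,0,0,1,0⟩, ⟨0,0,1,0,0,1⟩, ⟨0,0,0,1,0,2⟩, ⟨0,0,0,0,1,0⟩, ⟨0,0,0,0,0,1⟩⟩
def Rm : LM :=
  ⟨⟨1,1,0,0,0,0⟩, ⟨0,1,1,0,0,0⟩, ⟨0,0,1,0,0,0⟩, ⟨0,0,0,1,1,0⟩, ⟨0,0,0,0,1,1⟩, ⟨0,0,0,0,0,1⟩⟩

/-- the regular unipotent element -/
def rr (e : Bool) : Sy := ⟨0, 0, 0, 0, 0, 0, 1, sn e, 0⟩

theorem mat_a : ∀ e, mat e (cj ga) = Am e := by decide +kernel
theorem mat_b : ∀ e, mat e (cj gb) = Bm e := by decide +kernel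
theorem mat_z : ∀ e, mat e (cj gz) = Zm e := by decide +kernel
theorem mat_r : ∀ e, mat e (cj (rr e)) = Rm := by decide +kernel

theorem rpA : Rp F e (Am e) := ⟨_, iso_cj F ga, mat_a e⟩
theorem rpB : Rp F e (Bm e) := ⟨_, iso_cj F gb, mat_b e⟩

theorem n1_J' (k : K3) : ∀ j ∈ J, n1 k j ∈ J := fun j hj => by
  simp [n1_apply, hj.1, hj.2.1, hj.2.2]
theorem n2_J' (k : K3) : ∀ j ∈ J, n2 k j ∈ J := fun j hj => by
  simp [n2_apply, hj.1, hj.2.1, hj.2.2]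
theorem J_E1 : J ≤ E1 := fun _ h => h.1
theorem J_E2 : J ≤ E2 := fun _ h => h.2.1

theorem k2 (hF : F.IsSaturated 3) (h1 : F.Iso J J (n1 2)) (h2 : F.Iso J J (n2 0)) : False :=
  absurd ((Rp.wd (e := false) rpA rpB ⟨_, h1, rfl⟩ ⟨_, h2, rfl⟩ [0, 1, 3, 2, 0, 1, 3, 2]).cube hF
    (by decide +kernel)) (by decide +kernel)

theorem k1 (h1 : F.Iso J J (n1 1)) (h2 : F.Iso J J (n2 0)) : I1 F ∧ I2 F := by
  refine ⟨⟨_, (((h1.trans h2).trans (iso_cj F gz)).trans h1).trans h2, gp, by simp only [mem_ZL]; decide +kernel,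
    by simp only [mem_E3]; decide +kernel, by simp only [mem_CC]; decide +kernel⟩, ?_⟩
  obtain ⟨σ, a, b⟩ := (Rp.wd (e := false) rpA rpB ⟨_, h1, rfl⟩ ⟨_, h2, rfl⟩ [0, 2, 3]).pow 6
  exact ⟨σ, a, fun j hj => eq_of_mat (e := false) a (f := fun j => j⁻¹)
    (fun x hx y hy => by simp only [mul_inv_rev]; exact J_comm (inv_mem hy) (inv_mem hx))
    (fun _ h => inv_mem h) (b.trans (by decide +kernel)) hj⟩

/-- shift -/
def sh (v : V6) : V6 := ⟨0, v.a, v.b, 0, v.d, v.e⟩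
/-- the matrices commuting with `Rm` -/
def Nf (U S : V6) : LM := ⟨U, sh U, sh (sh U), S, sh S, sh (sh S)⟩

theorem nf_of (h : M * Rm = Rm * M) : M = Nf M.a M.d := by
  have h1 : ∀ v, ap M (ap Rm v) = ap Rm (ap M v) := fun v => by rw [← ap_mul, h, ap_mul]
  have a := h1 I6.a
  have b := h1 I6.b
  have d := h1 I6.d
  have e := h1 I6.e
  simp only [ap, Rm, I6, V6.mk.injEq, mul_zero, mul_one, zero_mul, one_mul, add_zero,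
    zero_add] at a b d e
  ext <;> simp only [Nf, sh] <;> grind

def w1 : Bool → List ℕ
  | false => [2, 0, 2, 0, 2, 0, 0, 2, 0, 2, 2, 0, 2, 0]
  | true => [2, 1, 2, 0, 1, 2, 0, 2, 1, 2, 1, 2, 1, 0]
def w2 : Bool → List ℕ
  | false => [1, 0, 0, 2, 1, 2, 2, 1, 2, 0, 2, 0, 0, 2, 1, 2]
  | true => [1, 2, 0, 2, 1, 2, 0, 2, 1, 0, 2, 0, 2, 0, 0]
def w3 : Bool → K3 → List ℕ
  | false, _ => [2, 0, 2, 2, 1, 2, 0, 2]
  | true, c => if c = 1 then [2, 1, 1, 2, 2, 0, 2, 1] else [0, 1, 2, 0, 1, 2, 1, 2]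

set_option synthInstance.maxSize 2000 in
set_option synthInstance.maxHeartbeats 200000 in
theorem enum : ∀ (e : Bool) (c0 c1 c2 c3 c4 c5 c6 c7 : K3),
    ap (Zm e) (ap (Nf ⟨1, c0, c1, 0, c2, c3⟩ ⟨2, c4, c5, 1, c6, c7⟩) (Zm e).a) =
      ap (Nf ⟨1, c0, c1, 0, c2, c3⟩ ⟨2, c4, c5, 1, c6, c7⟩) (ap (Zm e) ⟨1, c0, c1, 0, c2, c3⟩) →
    ap (Zm e) (ap (Nf ⟨1, c0, c1, 0, c2, c3⟩ ⟨2, c4, c5, 1, c6, c7⟩) (Zm e).d) =
      ap (Nf ⟨1, c0, c1, 0, c2, c3⟩ ⟨2, c4, c5, 1, c6, c7⟩) (ap (Zm e) ⟨2, c4, c5, 1, c6, c7⟩) →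
    c2 = 0 ∧ c3 = c0 ^ 2 ∧ c4 = 0 ∧ c5 = sn e ∧ c6 = -c0 ∧ c7 = sn e - c1 := by
  decide +kernel

/-- the nine solutions -/
def So (e : Bool) (c d : K3) : LM := Nf ⟨1, c, d, 0, 0, c ^ 2⟩ ⟨2, 0, sn e, 1, -c, sn e - d⟩

theorem good : ∀ (e : Bool) (d : K3), ∃ m : K3,
    wd (Am e) (Bm e) (So e 0 d) 1 (w1 e) = mat e (n1 (1 + m)) ∧
    wd (Am e) (Bm e) (So e 0 d) 1 (w2 e) = mat e (n2 m) := by decide +kernel

theorem bad : ∀ (e : Bool) (c d : K3), c ≠ 0 →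
    (wd (Am e) (Bm e) (So e c d) 1 (w3 e c) ^ 4) ^ 9 = 1 ∧
    (wd (Am e) (Bm e) (So e c d) 1 (w3 e c) ^ 4) ^ 3 ≠ 1 := by decide +kernel

theorem fin (hF : F.IsSaturated 3) (h : Rp F e M) (h1 : M * Rm = Rm * M)
    (h2 : Zm e * M * Zm e = M * Zm e * M) (a : M.a.a = 1) (b : M.a.d = 0) (c : M.d.a = 2)
    (d : M.d.d = 1) : ∃ m, F.Iso J J (n1 (1 + m)) ∧ F.Iso J J (n2 m) := by
  have h3 := nf_of h1
  have e1 : M.a = ⟨1, M.a.b, M.a.c, 0, M.a.e, M.a.f⟩ := by rw [← a, ← b]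
  have e2 : M.d = ⟨2, M.d.b, M.d.c, 1, M.d.e, M.d.f⟩ := by rw [← c, ← d]
  rw [e1, e2] at h3
  have k := enum e M.a.b M.a.c M.a.e M.a.f M.d.b M.d.c M.d.e M.d.f
  rw [← h3, ← e1, ← e2, ← ap_mul, ← ap_mul, ← ap_mul, ← ap_mul] at k
  obtain ⟨k1, k2, k3, k4, k5, k6⟩ := k (congrArg LM.a h2) (congrArg LM.d h2)
  rw [k1, k2, k3, k4, k5, k6] at h3
  replace h : Rp F e (So e M.a.b M.a.c) := (show M = So e M.a.b M.a.c from h3) ▸ h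
  by_cases h0 : M.a.b = 0
  · obtain ⟨m, m1, m2⟩ := good e M.a.c
    rw [h0] at h
    exact ⟨m, Rp.iso (m1 ▸ Rp.wd rpA rpB h Rp.one _) ((homOn_n1 _).mono J_E1) (n1_J' _),
      Rp.iso (m2 ▸ Rp.wd rpA rpB h Rp.one _) ((homOn_n2 _).mono J_E2) (n2_J' _)⟩
  · exact absurd (((Rp.wd rpA rpB h Rp.one _).pow 4).cube hF (bad e _ _ h0).1) (bad e _ _ h0).2

end Cfsg.Agent.Co.W
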