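import Cfsg.Agent.Co.W1
import Cfsg.Agent.Co.N2
import Cfsg.Agent.Co.G1

/-! The essential subgroups `E4`: the slice `Wd`. -/

set_option autoImplicit false
open Equiv

namespace Cfsg.Agent.Co.W
open Cfsg.Fus Cfsg.FusionSystem

abbrev EE (e : Bool) : Subgroup Sy := E4 e (sn e)

variable {e : Bool} {F F' : FS} {σ τ : Perm Sy} {M N : LM} {g : Sy} {Y : Subgroup (Perm Sy)}

theorem J_EE : J ≤ EE e := fun x hx => by simp [mem_E4, hx.1, hx.2.1, hx.2.2]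
theorem rr_EE : rr e ∈ EE e := by simp [mem_E4, rr]
theorem gen_EE (hg : g ∈ EE e) : ∃ n : ℕ, (rr e ^ n)⁻¹ * g ∈ J := by
  obtain ⟨h1, h2⟩ := mem_E4.1 hg
  rcases k3 g.a with h | h | h
  · exact ⟨0, by simp [h1, h2, h]⟩
  · exact ⟨1, by simp [h1, h2, h, rr]⟩
  · exact ⟨2, by cases e <;> simp [h1, h2, h, rr, pow_two] <;> decide⟩

theorem isoJ {T : Subgroup Sy} (h : F.Iso T T σ) (hT : J ≤ T) : F.Iso J J σ :=
  (h.isMap.mono hT).iso_self (hom_J (h.homOn.mono hT))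

theorem cenJ (h : ∀ y ∈ J, g * y * g⁻¹ = y) : g ∈ J :=
  G.cent_J (mul_inv_eq_iff_eq_mul.1 (h gr (by decide))) (mul_inv_eq_iff_eq_mul.1 (h gu (by decide)))

theorem ka_mul {x : Sy} (hx : x ∈ J) (y : Sy) : ka e (x * y) =
    ⟨(ka e x).a + (ka e y).a, (ka e x).b + (ka e y).b, (ka e x).c + (ka e y).c,
      (ka e x).d + (ka e y).d, (ka e x).e + (ka e y).e, (ka e x).f + (ka e y).f⟩ := by
  ext <;> simp [ka, hx.1, hx.2.1, hx.2.2] <;> ring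

theorem ka_inv {x : Sy} (hx : x ∈ J) : ka e x⁻¹ =
    ⟨-(ka e x).a, -(ka e x).b, -(ka e x).c, -(ka e x).d, -(ka e x).e, -(ka e x).f⟩ := by
  ext <;> simp [ka, hx.1, hx.2.1, hx.2.2] <;> ring

def vz (n : ℕ) (v : V6) : Prop := (1 ≤ n → v.a = 0) ∧ (2 ≤ n → v.d = 0) ∧ (3 ≤ n → v.b = 0) ∧
  (4 ≤ n → v.e = 0) ∧ (5 ≤ n → v.c = 0) ∧ (6 ≤ n → v.f = 0)

/-- the flag of `J` -/
def kk (e : Bool) (n : ℕ) : Subgroup Sy :=
  csub (fun x => x ∈ J ∧ vz n (ka e x)) ⟨J.one_mem, by simp [vz, ka]⟩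
    (fun x y hx hy => ⟨J.mul_mem hx.1 hy.1, by
      have a := hx.2; have b := hy.2
      rw [ka_mul hx.1]; simp only [vz] at a b ⊢; simp +contextual [a, b]⟩)
    (fun x hx => ⟨J.inv_mem hx.1, by
      have a := hx.2
      rw [ka_inv hx.1]; simp only [vz] at a ⊢; simp +contextual [a]⟩)

theorem mem_kk {n : ℕ} {x : Sy} : x ∈ kk e n ↔ x ∈ J ∧ vz n (ka e x) := Iff.rfl

/-- automorphisms of `E4` trivial modulo `J` -/
def TrS (F : FS) (e : Bool) : Subgroup (Perm Sy) := F.stab (EE e) ⊓ trivOn J (EE e)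

theorem TrS.iso (h : σ ∈ TrS F e) : F.Iso (EE e) (EE e) σ := (mem_stab le_top).1 h.1
theorem TrS.isoJ (h : σ ∈ TrS F e) : F.Iso J J σ := W.isoJ (TrS.iso h) J_EE

theorem TrS.comm (h : σ ∈ TrS F e) : mat e σ * Rm = Rm * mat e σ := by
  rw [← mat_r e, ← mat_mul (TrS.isoJ h) (iso_cj F _), ← mat_mul (iso_cj F _) (TrS.isoJ h)]
  refine mat_congr fun j hj => ?_
  have h1 := J_comm (h.2.2 _ rr_EE) ((TrS.isoJ h).mem hj)
  simp only [Perm.mul_apply, cj_apply]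
  rw [(TrS.iso h).homOn.map_conj rr_EE (J_EE hj), mul_inv_eq_iff_eq_mul, mul_assoc (rr e * σ j),
    mul_assoc (rr e), ← h1]
  group

abbrev chL (e : Bool) : List (Subgroup Sy) := [J, kk e 0, kk e 1, kk e 2, kk e 3, kk e 4, kk e 5, kk e 6]

theorem TrS.ch (h : σ ∈ TrS F e) (a : (mat e σ).a.a = 1) (b : (mat e σ).d.a = 0)
    (c : (mat e σ).d.d = 1) : Ch σ (EE e) (chL e) := by
  have i := TrS.isoJ h
  have le : ∀ n, kk e (n + 1) ≤ kk e n := fun n x hx => ⟨hx.1, by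
    have := hx.2; simp only [vz] at this ⊢; grind⟩
  have st : ∀ n, ∀ x ∈ kk e n, x⁻¹ * σ x ∈ kk e (n + 1) := fun n x hx =>
    ⟨J.mul_mem (J.inv_mem hx.1) (i.mem hx.1), by
      have k := hx.2
      rw [ka_mul (J.inv_mem hx.1), ka_inv hx.1, rep i.homOn (fun _ => i.mem) e hx.1,
        nf_of (TrS.comm h)]
      simp only [vz, ap, Nf, sh, a, b, c] at k ⊢
      grind⟩
  refine ⟨J_EE, h.2.2, fun _ hx => hx.1, fun x hx => ⟨J.mul_mem (J.inv_mem hx) (i.mem hx),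
    by simp [vz]⟩, le 0, st 0, le 1, st 1, le 2, st 2, le 3, st 3, le 4, st 4, le 5, st 5,
    fun x hx => ?_⟩
  have : x = 1 := ka_inj (e := e) hx.1 J.one_mem (by
    have k := hx.2
    simp only [vz, le_refl, Nat.one_le_ofNat, Nat.reduceLeDiff, forall_const] at k
    ext <;> simp only [k] <;> simp [ka])
  rw [this, i.homOn.map_one]

theorem nb (hg : g ∈ Subgroup.normalizer (EE e : Set Sy)) : g.b = sn e * g.a := by
  have := (mem_E4.1 (conj_mem_of_mem_normalizer hg (rr_EE (e := e)))).2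
  simp [rr] at this
  linear_combination -this

theorem cjT (F : FS) (hb : g.b = sn e * g.a) : cj g ∈ TrS F e := by
  have h : ∀ x ∈ EE e, x⁻¹ * cj g x ∈ J := fun x hx => by
    simp [hb, (mem_E4.1 hx).1]; ring
  have i := F.iso_cj le_top trivial (mem_norm_of_bt fun x hx => J_EE (h x hx))
  exact ⟨i.mem_stab, i.mem_autStab, h⟩

theorem mat_cj (g : Sy) : mat e (cj g) = mat e (cj (⟨0, 0, 0, 0, 0, 0, g.a, g.b, g.z⟩ : Sy)) :=
  mat_congr fun j hj => by rw [cj_apply, cj_apply, cj_J hj, cj_J hj]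

theorem dec_g : ∀ (e : Bool) (a z : K3),
    (mat e (cj (⟨0, 0, 0, 0, 0, 0, a, sn e * a, z⟩ : Sy))).a.a = 1 ∧
    (mat e (cj (⟨0, 0, 0, 0, 0, 0, a, sn e * a, z⟩ : Sy))).d.a = 0 ∧
    (mat e (cj (⟨0, 0, 0, 0, 0, 0, a, sn e * a, z⟩ : Sy))).d.d = 1 ∧
    ((mat e (cj (⟨0, 0, 0, 0, 0, 0, a, sn e * a, z⟩ : Sy))).a.d = 0 →
      ∃ l : Fin 3, mat e (cj (⟨0, 0, 0, 0, 0, 0, a, sn e * a, z⟩ : Sy)) = Rm ^ l.1) := by
  decide +kernel

theorem chN (F : FS) (hb : g.b = sn e * g.a) : Ch (cj g) (EE e) (chL e) := by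
  have k := dec_g e g.a g.z
  rw [← hb, ← mat_cj] at k
  exact TrS.ch (cjT F hb) k.1 k.2.1 k.2.2.1

theorem TrS.inn (hF : F.IsFullyAutomized 3 (EE e)) (h : σ ∈ TrS F e) (a : (mat e σ).a.a = 1)
    (b : (mat e σ).d.a = 0) (c : (mat e σ).d.d = 1) :
    ∃ g : Sy, g.b = sn e * g.a ∧ ∀ x ∈ EE e, σ x = g * x * g⁻¹ := by
  obtain ⟨g, h1, h2⟩ := innS_of_ch hF (fun g hg => chN F (nb hg)) (TrS.iso h) (TrS.ch h a b c)
  exact ⟨g, nb h1, h2⟩

def KK (a d a' d' : K3) : LM := Nf ⟨a, 0, 0, d, 0, 0⟩ ⟨a', 0, 0, d', 0, 0⟩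
/-- the constant part -/
def cst (M : LM) : LM := KK M.a.a M.a.d M.d.a M.d.d

theorem cst_mul (h : M * Rm = Rm * M) (N : LM) : cst (M * N) = cst M * cst N := by
  obtain ⟨U, S, rfl⟩ : ∃ U S, M = Nf U S := ⟨_, _, nf_of h⟩
  change cst (cp (Nf U S) N) = cp (cst (Nf U S)) (cst N)
  simp only [cst, KK, cp, ap, Nf, sh, mul_zero, zero_mul, add_zero, zero_add]

def mt (F : FS) (e : Bool) : TrS F e →* LM where
  toFun σ := mat e σ.1
  map_one' := mat_one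
  map_mul' σ τ := mat_mul (TrS.isoJ σ.2) (TrS.isoJ τ.2)

def ct (F : FS) (e : Bool) : TrS F e →* LM where
  toFun σ := cst (mt F e σ)
  map_one' := by rw [map_one]; decide +kernel
  map_mul' σ τ := by rw [map_mul]; exact cst_mul (TrS.comm σ.2) _

theorem cube1 : ∀ a d a' d' : K3, KK a d a' d' ^ 3 = 1 → a' = 0 → a = 1 ∧ d' = 1 := by
  decide +kernel
theorem cube2 : ∀ a d a' d' : K3, KK a d a' d' ^ 3 = 1 → a' ≠ 0 → ∃ k s : Fin 3,
    KK 1 1 0 1 ^ k.1 * KK a d a' d' ^ s.1 * KK 1 1 0 1 ^ (2 * k.1) = KK 1 0 2 1 := by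
  decide +kernel

theorem zT (F : FS) (e : Bool) : cj gz ∈ TrS F e := cjT F (by simp [gz])

theorem conjT (h : F.Iso (EE e) (EE e) σ) : σ * cj gz * σ⁻¹ ∈ TrS F e :=
  ⟨(h.conj (TrS.iso (zT F e))).mem_stab, conj_mem_trivOn (zT F e).2 h.mem_autStab
    fun _ hx _ => (isoJ h J_EE).mem hx⟩

theorem conj3 (h : F.Iso (EE e) (EE e) σ) : ct F e ⟨_, conjT h⟩ ^ 3 = 1 := by
  rw [← map_pow, ← (ct F e).map_one]
  congr 1
  refine Subtype.ext ?_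
  change (σ * cj gz * σ⁻¹) ^ 3 = 1
  rw [conj_pow, ← map_pow, show gz ^ 3 = 1 by decide +kernel, map_one, mul_one, mul_inv_cancel]

theorem braid {G : Type} [Monoid G] {Z M P : G} (h1 : Commute P M) (h2 : Commute P Z)
    (h3 : P * (P * P) = 1) (hb : Z * M * Z * P = M * Z * M) :
    Z * (M * (P * P)) * Z = M * (P * P) * Z * (M * (P * P)) := by
  simp only [mul_assoc, h1.left_comm, h2.left_comm, h1.eq, h2.eq, h3, mul_one]
  rw [← mul_assoc, ← mul_assoc, ← mul_assoc, ← mul_assoc, ← mul_assoc, hb]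

theorem dec_r : ∀ (e : Bool) (l : Fin 3), Rm ^ l.1 * Zm e = Zm e * Rm ^ l.1 ∧
    Rm ^ l.1 * (Rm ^ l.1 * Rm ^ l.1) = 1 ∧ cst (Rm ^ l.1 * Rm ^ l.1) = 1 := by decide +kernel

theorem e4' (h : Es F (EE e) Y) : ∃ m, F.Iso J J (n1 (1 + m)) ∧ F.Iso J J (n2 m) := by
  obtain ⟨φ, hφ, hY⟩ := h.exists_out
  have c3 := conj3 hφ
  have zn : gz ∈ Subgroup.normalizer (EE e : Set Sy) := cj_mem_setStab.1 (TrS.iso (zT F e)).mem_setStab
  have zE : gz ∉ EE e := by simp [mem_E4, gz]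
  by_cases h0 : (mat e ⇑(φ * cj gz * φ⁻¹)).d.a = 0
  · have k := cube1 _ _ _ _ c3 h0
    exact (h.off zn zE zn zE hφ hY _ (chN F (nb zn)) (TrS.ch (conjT hφ) k.1 h0 k.2)).elim
  obtain ⟨k, s, hk⟩ := cube2 _ _ _ _ c3 h0
  have mz : mt F e ⟨_, zT F e⟩ = Zm e := mat_z e
  have hz : ct F e ⟨_, zT F e⟩ = KK 1 1 0 1 := (congrArg cst mz).trans (by cases e <;> decide +kernel)
  obtain ⟨t, ht⟩ : ∃ t, ct F e t = KK 1 0 2 1 :=
    ⟨⟨_, zT F e⟩ ^ k.1 * ⟨_, conjT hφ⟩ ^ s.1 * ⟨_, zT F e⟩ ^ (2 * k.1), by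
      simp only [map_mul, map_pow, hz]; exact hk⟩
  generalize (⟨_, zT F e⟩ : TrS F e) = z at mz hz
  have hd : ct F e ((z * t * z)⁻¹ * (t * z * t)) = 1 := by
    rw [map_mul, show ct F e (t * z * t) = ct F e (z * t * z) by
      simp only [map_mul, ht, hz]; decide +kernel, ← map_mul, inv_mul_cancel, map_one]
  obtain ⟨g, g1, g2⟩ := TrS.inn h.fa ((z * t * z)⁻¹ * (t * z * t)).2 (congrArg (·.a.a) hd)
    (congrArg (·.d.a) hd) (congrArg (·.d.d) hd)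
  have g3 : mt F e ((z * t * z)⁻¹ * (t * z * t)) = mat e (cj g) :=
    mat_congr fun j hj => g2 j (J_EE hj)
  have g4 := (dec_g e g.a g.z).2.2.2
  rw [← g1, ← mat_cj, ← g3] at g4
  obtain ⟨l, hl⟩ := g4 (congrArg (·.a.d) hd)
  have hb : Zm e * mt F e t * Zm e * Rm ^ l.1 = mt F e t * Zm e * mt F e t := by
    rw [← hl, ← mz, ← map_mul, ← map_mul, ← map_mul, ← map_mul, ← map_mul, mul_inv_cancel_left]
  have cM : Commute (mt F e t) Rm := TrS.comm t.2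
  have rp : Rp F e (Rm ^ l.1) := Rp.pow ⟨_, iso_cj F _, mat_r e⟩ _
  obtain ⟨r1, r2, r3⟩ := dec_r e l
  have hc : cst (mt F e t * (Rm ^ l.1 * Rm ^ l.1)) = KK 1 0 2 1 := by
    rw [cst_mul cM, r3, mul_one]; exact ht
  exact fin h.sat (Rp.mul ⟨t.1, TrS.isoJ t.2, rfl⟩ (rp.mul rp))
    (cM.mul_left (((Commute.refl Rm).pow_left _).mul_left ((Commute.refl Rm).pow_left _)))
    (braid (cM.symm.pow_left _) r1 r2 hb) (congrArg (·.a.a) hc) (congrArg (·.a.d) hc)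
    (congrArg (·.d.a) hc) (congrArg (·.d.d) hc)

theorem isoE (F : FS) (e : Bool) (i : K3) :
    F.Iso (E4 e i) (EE e) (cj (⟨0, 0, 0, 0, 0, 0, 1 - sn e * i, 0, 0⟩ : Sy)) := by
  refine ⟨F.isMap_cj le_top trivial, fun x => ?_⟩
  simp only [mem_E4, cj_apply, mul_a, mul_b, mul_z, inv_a, inv_b, inv_z]
  cases e <;> simp only [sn_true, sn_false] <;> grind

theorem essE {i : K3} (hF : F.IsSaturated 3) (h : F.IsEssential 3 (E4 e i)) : ∃ Y, Es F (EE e) Y :=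
  exists_es hF ((isoE F e i).img_eq ▸ H4.Sp.essential_img h
    (F.iso_cj le_top trivial (mem_normalizer_of_finite fun _ _ => trivial)))

theorem extJ (hF : F.IsSaturated 3) (hσ : F.Iso J J σ) {T : Subgroup Sy} (hJ : J ≤ T) {w w' : Sy}
    (hw : w' ∈ T) (gen : ∀ g ∈ T, ∃ n : ℕ, (w ^ n)⁻¹ * g ∈ J)
    (h : ∀ y ∈ J, σ (w * y * w⁻¹) = w' * σ y * w'⁻¹) : ∃ α, F.Iso T T α ∧ ∀ y ∈ J, α y = σ y := by
  have k1 : ∀ n : ℕ, ∀ y ∈ J, σ (w ^ n * y * (w ^ n)⁻¹) = w' ^ n * σ y * (w' ^ n)⁻¹ := fun n => by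
    induction n with
    | zero => simp
    | succ n ih =>
      intro y hy
      rw [pow_succ', pow_succ', show w * w ^ n * y * (w * w ^ n)⁻¹ = w * (w ^ n * y * (w ^ n)⁻¹) * w⁻¹
        by group, h _ (J_conj hy _), ih y hy]
      group
  have k2 : ∀ g ∈ T, ∃ g' ∈ T, ∀ y ∈ J, σ (g * σ⁻¹ y * g⁻¹) = g' * y * g'⁻¹ := fun g hg => by
    obtain ⟨n, hn⟩ := gen g hg
    refine ⟨w' ^ n, T.pow_mem hw n, fun y hy => ?_⟩
    have h1 := k1 n _ (J_conj (hσ.inv_mem hy) ((w ^ n)⁻¹ * g))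
    rw [J_comm hn (hσ.inv_mem hy), mul_inv_cancel_right, perm_apply_inv_self] at h1
    rw [← h1]
    congr 1
    have := J_comm hn (hσ.inv_mem hy)
    rw [mul_assoc, inv_mul_eq_iff_eq_mul] at this
    rw [this]; group
  obtain ⟨α, a1, a2⟩ := (fn_J.isReceptive hF isP_top).exists_ext_of_le hσ (T := T)
    (fun g _ => ⟨trivial, J_norm g⟩) fun g hg => by
      obtain ⟨g', -, b⟩ := k2 g hg
      exact mem_innS.2 ⟨g', trivial, J_norm g', b⟩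
  rw [sup_eq_right.2 hJ] at a1
  refine ⟨α, a1.iso_self fun g hg => ?_, a2⟩
  obtain ⟨g', b1, b2⟩ := k2 g hg
  have : g'⁻¹ * α g ∈ J := cenJ fun y hy => by
    have h1 := hσ.inv_mem hy
    have h2 := b2 y hy
    rw [← a2 _ (J_conj h1 g), a1.homOn.map_conj hg (hJ h1), a2 _ h1, perm_apply_inv_self] at h2
    rw [mul_inv_rev, inv_inv, mul_assoc g'⁻¹, ← mul_assoc, mul_assoc g'⁻¹, h2]; group
  simpa using T.mul_mem b1 (hJ this)

def yv (v : V6) : V6 := ⟨-v.b, -v.b - v.c, 0, -v.e, -v.e - v.f, 0⟩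

theorem dec_n (e : Bool) (v : V6) : (rr e * la e v) ^ 3 = 1 →
    rr e * la e v = la e (yv v) * rr e * (la e (yv v))⁻¹ := by
  obtain ⟨a, b, c, d, f, g⟩ := v
  revert e a b c d f g
  decide +kernel

theorem dec_h (e : Bool) (v : V6) : v.a = 0 →
    la e v = sm v.d (la e I6.d) * bt (la e (yv v)) (rr e) := by
  obtain ⟨a, b, c, d, f, g⟩ := v
  revert e a b c d f g
  decide +kernel

theorem stepA (hF : F'.IsSaturated 3) (h : F.Iso (EE e) (EE e) σ) (h' : F'.Iso J J σ) :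
    F'.IsMap (EE e) σ := by
  obtain ⟨α, a1, a2⟩ := extJ hF h' J_EE (h.mem rr_EE) (fun _ => gen_EE)
    fun y hy => h.homOn.map_conj rr_EE (J_EE hy)
  have b : HomOn ⇑(α⁻¹ * σ) (EE e) := h.homOn.comp a1.symm.homOn fun _ hx => h.mem hx
  have b1 : ∀ y ∈ J, (α⁻¹ * σ) y = y := fun y hy => by
    rw [Perm.mul_apply, ← a2 y hy, perm_inv_apply_self]
  have j : (rr e)⁻¹ * (α⁻¹ * σ) (rr e) ∈ J := cenJ fun y hy => by
    have h2 := b.map_conj rr_EE (J_EE hy)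
    rw [b1 _ (J_conj hy _), b1 y hy] at h2
    rw [mul_inv_rev, inv_inv, mul_assoc (rr e)⁻¹, ← mul_assoc, mul_assoc (rr e)⁻¹, ← h2]; group
  have k := dec_n e (ka e ((rr e)⁻¹ * (α⁻¹ * σ) (rr e)))
  rw [la_ka e j, mul_inv_cancel_left, ← b.map_pow rr_EE,
    show rr e ^ 3 = 1 by cases e <;> decide +kernel, b.map_one] at k
  replace k := k rfl
  have yJ := la_J e (yv (ka e ((rr e)⁻¹ * (α⁻¹ * σ) (rr e))))
  generalize la e (yv _) = y at k yJ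
  refine ((F'.isMap_cj (P := EE e) le_top (g := y) trivial).mul a1.isMap fun x hx =>
    conj_mem_of_mem_normalizer ((EE e).le_normalizer (J_EE yJ)) hx).congr fun x hx => ?_
  obtain ⟨n, hn⟩ := gen_EE hx
  have m : x ∈ eqz b (homOn_cj y (EE e)) := by
    simpa using (eqz b (homOn_cj y (EE e))).mul_mem ((eqz b (homOn_cj y (EE e))).pow_mem
      (x := rr e) ⟨rr_EE, k⟩ n) (y := (rr e ^ n)⁻¹ * x)
      ⟨J_EE hn, by rw [b1 _ hn, cj_apply, J_comm yJ hn, mul_inv_cancel_right]⟩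
  rw [Perm.mul_apply, ← m.2, Perm.mul_apply, perm_apply_inv_self]

theorem dec_z : ∀ y ∈ H0, y * (gz * y * gz⁻¹) * (gz * (gz * y * gz⁻¹) * gz⁻¹) = 1 := fun y hy => by
  rw [cj_J (J_conj hy.2 gz), cj_J hy.2]
  rw [mem_H0] at hy
  ext <;> simp [hy, gz]
  · linear_combination (y.p + 2 * y.s) * h3
  · linear_combination (y.q + y.t) * h3
  · linear_combination y.r * h3
  · linear_combination y.s * h3
  · linear_combination y.t * h3

theorem caseC (hF : F.IsSaturated 3) (hE : F.IsFullyAutomized 3 (EE e))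
    (h : F.Iso (EE e) (EE e) σ) (h0 : (mat e σ).d.a = 0) :
    ∃ α, F.Iso ⊤ ⊤ α ∧ ∀ y ∈ J, α y = σ y := by
  have i := isoJ h J_EE
  have k : ∀ x ∈ H0, σ x ∈ H0 := fun x hx => ⟨by
    have a := la_J e
    rw [← la_ka e hx.2, dec_h e _ hx.1, i.homOn (sm_J _ _) (bt_mem (a _) _),
      hom_sm i.homOn (fun _ => i.mem) _ (a _), hom_bt h.homOn (J_EE (a _)) rr_EE, mul_u,
      bt_eq (i.mem (a _))]
    change _ * (mat e σ).d.a + 0 = 0
    rw [h0, mul_zero, add_zero], i.mem hx.2⟩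
  have k' : ∀ x ∈ H0, σ⁻¹ x ∈ H0 := fun x hx =>
    ((setStab H0).inv_mem (mem_setStab_of_finite k) x).2 hx
  have kz : ∀ x ∈ H0, gz * x * gz⁻¹ ∈ H0 := fun x hx => ⟨by simpa using hx.1, J_conj hx.2 _⟩
  have h1 : (mat e ⇑(σ * cj gz * σ⁻¹)).d.a = 0 :=
    (k _ (kz _ (k' (la e I6.d) ⟨rfl, rfl, rfl, rfl⟩))).1
  have c := cube1 _ _ _ _ (conj3 h) h1
  obtain ⟨g, g1, g2⟩ := TrS.inn hE (conjT h) c.1 h1 c.2
  have g3 : ∀ y ∈ J, σ (gz * y * gz⁻¹) = g * σ y * g⁻¹ := fun y hy => by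
    simpa using g2 _ (J_EE (i.mem hy))
  have ga : g.a = 0 := by
    have r : gr ∈ J := by decide
    have m := k' gr (by simp [gr])
    have d := congrArg σ (dec_z _ m)
    rw [i.homOn (J.mul_mem m.2 (J_conj m.2 _)) (J_conj (J_conj m.2 _) _), i.homOn m.2 (J_conj m.2 _),
      g3 _ (J_conj m.2 _), g3 _ m.2, perm_apply_inv_self, i.homOn.map_one, cj_J (J_conj r g),
      cj_J r] at d
    have := congrArg Sy.p d
    simp [gr] at this
    revert this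
    generalize g.a = a
    revert a
    decide
  obtain ⟨α, a1, a2⟩ := extJ hF i (T := JZ) (fun _ hx => ⟨hx.1, hx.2.1⟩) (w := gz) (w' := g)
    ⟨ga, by rw [g1, ga, mul_zero]⟩ (fun x hx => by
      rcases k3 x.z with c | c | c
      · exact ⟨0, by simp [hx.1, hx.2, c]⟩
      · exact ⟨1, by simp [hx.1, hx.2, c, gz]⟩
      · exact ⟨2, by simp [hx.1, hx.2, c, gz, pow_two]; decide⟩) g3
  obtain ⟨β, b1, b2⟩ := extJZ hF (fun g => mem_norm_of_bt fun x hx => by simp [bt]) le_rfl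
    (fun g x hx => by simp) a1 fun _ hx => a1.mem hx
  exact ⟨β, b1, fun y hy => (b2 y ⟨hy.1, hy.2.1⟩).trans (a2 y hy)⟩

def Pm : Bool → LM
  | false => ⟨⟨1,0,1,2,0,1⟩, ⟨0,1,0,0,2,0⟩, ⟨0,0,1,0,0,2⟩, ⟨1,0,1,0,0,1⟩, ⟨0,1,0,0,0,0⟩, ⟨0,0,1,0,0,0⟩⟩
  | true => ⟨⟨1,0,1,0,0,0⟩, ⟨0,1,0,0,0,0⟩, ⟨0,0,1,0,0,0⟩, ⟨2,0,2,1,0,1⟩, ⟨0,2,0,0,1,0⟩, ⟨0,0,2,0,0,1⟩⟩
def w4 : Bool → List ℕ
  | false => [0, 2, 3, 1, 2, 3, 1, 2, 2, 2, 3]
  | true => [0, 2, 3, 1, 3, 2, 3, 1, 1, 2, 3]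

theorem dec_p : ∀ e, wd (Am e) (Bm e) (mat e (n1 1)) (mat e (n2 0)) (w4 e) = Pm e ∧
    Pm e * Rm = Rm * Pm e := by decide +kernel

theorem rpP (h : NF F 1) : Rp F e (Pm e) :=
  (dec_p e).1 ▸ Rp.wd rpA rpB ⟨_, isoJ h.m1 J_E1, rfl⟩ ⟨_, isoJ h.m2 J_E2, rfl⟩ _

theorem dec_k (e : Bool) (v : V6) : v.a = 0 ∨ ∃ k : Fin 3, (ap (Pm e) (ap (Zm e ^ k.1) v)).a = 0 := by
  obtain ⟨a, b, c, d, f, g⟩ := v
  revert e a b c d f g
  decide +kernel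

theorem u4' (h : NF F 1) (h' : NF F' 1) (hS : ∀ α, F.Iso ⊤ ⊤ α → F'.Iso ⊤ ⊤ α)
    (hE : F.IsFullyAutomized 3 (EE e)) (hσ : F.Iso (EE e) (EE e) σ) : F'.IsMap (EE e) σ := by
  have cC : ∀ τ, F.Iso (EE e) (EE e) τ → (mat e τ).d.a = 0 → F'.Iso J J τ := fun τ a b => by
    obtain ⟨α, a1, a2⟩ := caseC h.sat hE a b
    exact (iso_top_mono (hS α a1) a2).iso_self fun _ => (isoJ a J_EE).mem
  refine stepA h'.sat hσ ?_
  rcases dec_k e (mat e σ).d with h0 | ⟨k, h0⟩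
  · exact cC σ hσ h0
  obtain ⟨ψ, p1, p2⟩ := rpP (e := e) h
  obtain ⟨α, a1, a2⟩ := extJ h.sat p1 J_EE rr_EE (fun _ => gen_EE) fun y hy =>
    eq_of_mat (e := e) ((iso_cj F (rr e)).trans p1) (p1.trans (iso_cj F (rr e))).homOn
      (fun _ => (p1.trans (iso_cj F (rr e))).mem) (by
        rw [mat_mul p1 (iso_cj F _), mat_mul (iso_cj F _) p1, p2, mat_r]; exact (dec_p e).2) hy
  have a3 := isoJ a1 J_EE
  have a4 : mat e α = Pm e := (mat_congr a2).trans p2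
  have a5 : F'.Iso J J α := Rp.iso (a4 ▸ rpP h') a3.homOn fun _ => a3.mem
  have z := (iso_cj F gz).pow k
  have c := cC _ ((hσ.trans ((TrS.iso (zT F e)).pow k)).trans a1) (by
    rw [mat_mul a3 ((isoJ hσ J_EE).trans z), mat_mul z (isoJ hσ J_EE), mat_pow (iso_cj F gz), mat_z,
      a4]
    exact h0)
  simpa using (c.trans a5.symm).trans ((iso_cj F' gz).pow k).symm

instance instWd : Wd where
  e4 h := by
    obtain ⟨Y, hY⟩ := essE h.sat h.ess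
    exact e4' hY
  k2 := k2
  k1 := k1
  u4 := fun {F F' e i σ} h h' hS hE hσ => by
    obtain ⟨Y, hY⟩ := essE h.sat hE
    have c := u4' h h' hS hY.fa ((isoE F e i).conj hσ)
    simpa [mul_assoc] using (((isoE F' e i).trans (c.iso_self fun _ =>
      ((isoE F e i).conj hσ).mem)).trans (isoE F' e i).symm).isMap

end Cfsg.Agent.Co.W
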