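import Cfsg.Agent.Co.N2

/-! Existence and uniqueness of the normal form. -/

set_option autoImplicit false
set_option linter.unusedSimpArgs false
open Equiv
open scoped commutatorElement

namespace Cfsg.Agent.Co
open Cfsg.Fus Cfsg.FusionSystem

variable {F F' : FS} {E : Subgroup Sy} {σ τ : Perm Sy} {Y : Subgroup (Perm Sy)}

theorem Es.not_ext (h : Es F E Y) {g : Sy} (hn : g ∈ Subgroup.normalizer (E : Set Sy)) (hg : g ∉ E)
    (hx : ∀ σ, F.Iso E E σ → ∃ α, F.Iso ⊤ ⊤ α ∧ ∀ x ∈ E, α x = σ x) : False := by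
  obtain ⟨φ, hφ, hY⟩ := h.exists_out
  obtain ⟨α, a, b⟩ := hx φ hφ
  have i := hφ.conj (F.iso_cj le_top trivial hn)
  have e : ∀ x ∈ E, (φ * cj g * φ⁻¹) x = α g * x * (α g)⁻¹ := fun x hx => by
    have y := hφ.inv_mem hx
    rw [Perm.mul_apply, Perm.mul_apply, ← b _ ((F.iso_cj le_top trivial hn).mem y), cj_apply,
      a.homOn.map_conj trivial trivial, b _ y, perm_apply_inv_self]
  exact h.conj_not hn hg hφ hY (h.le (mem_innS.2 ⟨α g, trivial,
    mem_normalizer_of_finite fun x hx => e x hx ▸ i.mem hx, e⟩))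

theorem keep_cen {A : Subgroup Sy} (h : HomOn σ E) (hs : σ ∈ setStab A) (hA : A ≤ E) {x : Sy}
    (hx : x ∈ E) (c : ∀ y ∈ A, y * x = x * y) : ∀ y ∈ A, y * σ x = σ x * y := fun y hy => by
  obtain ⟨y, rfl⟩ := σ.surjective y
  have := (hs y).1 hy
  rw [← h (hA this) hx, ← h hx (hA this), c y this]

theorem keepZ3 (h : HomOn σ E) (hs : σ ∈ setStab E) (a : ga ∈ E) (b : gb ∈ E) (t : gt ∈ E)
    (hZ : ZL ≤ E) : ∀ x ∈ ZL, σ x ∈ ZL := fun x hx => by
  have c := keep_cen h hs le_rfl (hZ hx) fun y _ => by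
    rw [mem_ZL] at hx; ext <;> simp [hx] <;> ring
  have c1 := c _ a; have c2 := c _ b; have c3 := c _ t
  generalize σ x = v at c1 c2 c3
  simp only [Sy.ext_iff, ga, gb, gt, mul_p, mul_q, mul_r, mul_s, mul_t, mul_u, mul_z] at c1 c2 c3
  have va : v.a = 0 := by linear_combination -c3.2.2.2.1
  have vb : v.b = 0 := by linear_combination c1.2.2.2.2.2.2.2.2
  have vr : v.r = 0 := by linear_combination c1.2.1
  exact ⟨by linear_combination -c1.1 + vr + v.q * h3, vr, by linear_combination c2.2.1,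
    by linear_combination c1.2.2.2.1, by linear_combination c2.2.2.2.2.1, va, vb,
    by linear_combination -c3.2.1 - v.a * vb⟩

theorem keepC3 (h : HomOn σ E3) (hs : σ ∈ setStab E3) : ∀ x ∈ CC, σ x ∈ CC := by
  have a : ga ∈ E3 := by simp [ga]
  have b : gb ∈ E3 := by simp [gb]
  have t : gt ∈ E3 := by simp [gt]
  have kz := keepZ3 h hs a b t fun _ hx => hx.2.2.2.2.1
  have kl : ∀ x ∈ L2, σ x ∈ L2 := fun x hx => by
    have xE : x ∈ E3 := hx.2.2.2.1
    have c : ∀ y ∈ E3, bt (σ x) y ∈ ZL := fun y hy => by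
      obtain ⟨y, rfl⟩ := σ.surjective y
      rw [← hom_bt h xE ((hs y).1 hy)]
      refine kz _ ?_
      rw [bt_eq hx.2.2.2.2]; rw [mem_L2] at hx; simp [hx]
    have c1 := c _ a; have c2 := c _ b; have c3 := c _ t
    have u := mem_E3.1 ((hs x).2 xE)
    generalize σ x = v at c1 c2 c3 u
    have va : v.a = 0 := by
      have := c2.2.2.2.2.2.2.2; simp [bt, gb] at this; linear_combination this
    have vb : v.b = 0 := by simpa [bt, ga, va] using c1.2.2.2.2.2.2.2
    have vz : v.z = 0 := by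
      have := c3.1; simp [bt, gt, va, vb, u] at this; linear_combination this
    rw [bt_eq ⟨va, vb, vz⟩] at c1 c2
    simp [ga, gb, u] at c1 c2
    exact ⟨c1.1, c2.1, c1.2, u, va, vb, vz⟩
  have kv : ∀ x ∈ VV, σ x ∈ VV := fun x hx => by
    have c := keep_cen h (mem_setStab_of_finite kl) (fun _ hx => hx.2.2.2.1) hx.1 (fun y hy => by
      rw [mem_L2] at hy; rw [mem_VV] at hx; ext <;> simp [hx, hy] <;> ring) gq (by simp [gq])
    refine ⟨(hs x).2 hx.1, ?_⟩
    have := congrArg Sy.p c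
    simp only [mul_p, gq] at this
    linear_combination this + (σ x).a * h3
  intro x hx
  have v := kv x ⟨hx.2.2.1, hx.2.2.2.1⟩
  have c := keep_cen h (mem_setStab_of_finite kv) (fun _ hx => hx.1) hx.2.2.1 fun y hy => by
    rw [mem_CC] at hx; rw [mem_VV] at hy; ext <;> simp [hx, hy] <;> ring
  have c1 := congrArg Sy.r (c gt (by simp [gt])); have c2 := congrArg Sy.p (c gs (by simp [gs]))
  simp only [mul_p, mul_r, gt, gs, v.2] at c1 c2
  exact CC_of_comm ⟨v.2, by linear_combination c1 + (σ x).b * h3,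
    by linear_combination c2 + (σ x).z * h3⟩ (y := gz) rfl (by decide) (c gz (by simp [gz]))

theorem recJ (F : FS) : F.IsFullyNormalized J :=
  F.isFullyNormalized_of_le_normalizer le_top fun g _ => nJ g

theorem cenJ {y : Sy} (h : ∀ j ∈ J, y * j = j * y) : y ∈ J := by
  have e1 := h gu (by decide); have e2 := congrArg Sy.s (h gt (by decide))
  have e3 := congrArg Sy.s e1; have e4 := congrArg Sy.t e1
  simp only [mul_s, mul_t, gu, gt] at e2 e3 e4
  have z : y.z = 0 := by linear_combination e3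
  exact ⟨by linear_combination e2, by linear_combination e4, z⟩

theorem ext_J (hF : F.IsSaturated 3) (hJ : J ≤ E) {n : Perm Sy} (hn : HomOn n E)
    (hE : ∀ x ∈ E, n x ∈ E) (h : F.Iso J J n) :
    ∃ τ, F.Iso E E τ ∧ ∀ x ∈ E, (n x)⁻¹ * τ x ∈ J := by
  have e : ∀ g ∈ E, ∀ x ∈ J, (n * cj g * n⁻¹) x = n g * x * (n g)⁻¹ := fun g hg x hx => by
    rw [Perm.mul_apply, Perm.mul_apply, cj_apply, hn.map_conj hg (hJ (h.inv_mem hx)),
      perm_apply_inv_self]
  obtain ⟨τ, t, c⟩ := ((recJ F).isReceptive hF isP_top).exists_ext_of_le h (T := E)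
    (fun g _ => ⟨trivial, nJ g⟩) fun g hg => mem_innS.2 ⟨n g, trivial, nJ _, e g hg⟩
  rw [sup_eq_right.2 hJ] at t
  have k : ∀ x ∈ E, (n x)⁻¹ * τ x ∈ J := fun x hx => cenJ fun j hj => by
    obtain ⟨j, rfl⟩ := n.surjective j
    have j' := (h.mem_iff j).1 hj
    have a := t.homOn.map_conj hx (hJ j')
    rw [c _ (J_conj j' x), c _ j', hn.map_conj hx (hJ j')] at a
    calc _ = (n x)⁻¹ * (τ x * n j * (τ x)⁻¹) * τ x := by group
      _ = _ := by rw [← a]; group
  exact ⟨τ, t.iso_self fun x hx => by simpa using E.mul_mem (hE x hx) (hJ (k x hx)), k⟩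

theorem nt1 (hF : F.IsSaturated 3) {k : K3} (h : F.Iso J J (n1 k)) :
    ∃ σ, F.Iso E1 E1 σ ∧ ∃ x ∈ JZ, σ x ∉ JZ := by
  obtain ⟨τ, t, c⟩ := ext_J hF JE1 (homOn_n1 k) (fun _ hx => hx) h
  refine ⟨τ, t, gz, by simp [gz], fun e => ?_⟩
  have := (c gz (by simp [gz])).2.1
  simp [n1_apply, gz] at this; rw [gz, mem_JZ] at e; simp [e.2] at this

theorem nt2 (hF : F.IsSaturated 3) {k : K3} (h : F.Iso J J (n2 k)) :
    ∃ σ, F.Iso E2 E2 σ ∧ ∃ x ∈ JZ, σ x ∉ JZ := by
  obtain ⟨τ, t, c⟩ := ext_J hF JE2 (homOn_n2 k) (fun _ hx => hx) h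
  refine ⟨τ, t, gz, by simp [gz], fun e => ?_⟩
  have := (c gz (by simp [gz])).1
  simp [n2_apply, gz] at this; rw [gz, mem_JZ] at e; simp [e.1] at this

theorem nE3 (g : Sy) : g ∈ Subgroup.normalizer (E3 : Set Sy) :=
  mem_normalizer_of_finite fun e he => by rw [mem_E3] at he; simp [he]

theorem not_normal (hF : F.IsSaturated 3) (hc : F.core = ⊥) {Q : Subgroup Sy} (hQ : gp ∈ Q)
    (h : ∀ R, (R = ⊤ ∨ ∃ Y, Es F R Y) → Q ≤ R ∧ ∀ τ, F.Iso R R τ → ∀ x ∈ Q, τ x ∈ Q) : False := by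
  have := (hF.isNormal_of_essential isP_top fun R hR =>
    h R (hR.imp id (exists_es hF))).le_core hQ
  rw [hc, Subgroup.mem_bot] at this
  exact absurd this (by decide)

theorem resJ (h : F.Iso E E σ) (hJ : J ≤ E) : F.Iso J J σ :=
  (h.isMap.mono hJ).iso_self (hom_J (h.homOn.mono hJ))

variable [BJ] [Wd] [NFC]

theorem nts (hF : F.IsSaturated 3) (hN : Nrm F) (hc : F.core = ⊥) :
    (∃ σ, F.Iso E1 E1 σ ∧ ∃ x ∈ JZ, σ x ∉ JZ) ∧ (∃ σ, F.Iso E2 E2 σ ∧ ∃ x ∈ JZ, σ x ∉ JZ) ∧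
      ∃ σ, F.Iso E3 E3 σ ∧ ∃ x ∈ PH, σ x ∉ PH := by
  refine ⟨by_contra fun hn => ?_, by_contra fun hn => ?_, by_contra fun hn => ?_⟩
  · refine not_normal hF hc (Q := ZL) (by simp [gp]) ?_
    rintro R (rfl | ⟨Y, h⟩)
    · exact ⟨le_top, fun τ t => keepZ3 t.homOn t.mem_setStab trivial trivial trivial le_top⟩
    rcases EssL.out h with rfl | rfl | rfl | rfl | ⟨e, i, rfl⟩
    · exact (BJ.out _ _ h).elim
    · push Not at hn
      exact (h.not_ext (nE1 ga) (by simp [ga]) fun σ s => x1 hF s (hn σ s)).elim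
    · exact ⟨(cf2 F).ae, fun τ t => ((cf2 F).iv τ t).2.2.1⟩
    · exact ⟨fun _ hx => hx.2.2.2.2.1, fun τ t => keepZ3 t.homOn t.mem_setStab (by simp [ga])
        (by simp [gb]) (by simp [gt]) fun _ hx => hx.2.2.2.2.1⟩
    · obtain ⟨m, a, -⟩ := Wd.e4 h
      exact (hn (nt1 hF a)).elim
  · refine not_normal hF hc (Q := CC) (by simp [gp]) ?_
    rintro R (rfl | ⟨Y, h⟩)
    · refine ⟨le_top, fun τ t x hx => ?_⟩
      obtain ⟨g, e, f, k, c⟩ := hN τ t
      rw [mem_CC] at hx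
      rw [c, cj_J (by simp [sg_apply, sgF, hx])]; simp [sg_apply, sgF, hx]
    rcases EssL.out h with rfl | rfl | rfl | rfl | ⟨e, i, rfl⟩
    · exact (BJ.out _ _ h).elim
    · exact ⟨fun _ hx => hx.2.2.2.1, fun τ t => keep_CC t.homOn (fun _ hx => t.mem hx) JE1 le_rfl
        (y := gz) (by simp [gz]) (by decide)⟩
    · push Not at hn
      exact (h.not_ext (nE2 gb) (by simp [gb]) fun σ s => x2 hF s (hn σ s)).elim
    · exact ⟨fun _ hx => hx.2.2.1, fun τ t => keepC3 t.homOn t.mem_setStab⟩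
    · obtain ⟨m, -, a⟩ := Wd.e4 h
      exact (hn (nt2 hF a)).elim
  · refine not_normal hF hc (Q := J) (by decide) fun R hR => ?_
    suffices J ≤ R from ⟨this, fun τ t => hom_J (t.homOn.mono this)⟩
    obtain rfl | ⟨Y, h⟩ := hR
    · exact le_top
    by_contra hJ
    obtain rfl := ess_notJ h hJ
    push Not at hn
    exact h.not_ext (nE3 gu) (by simp [gu]) fun σ s => NFC.x3 hF s (hn σ s)

omit [BJ] [Wd] [NFC] in
theorem triv_u (hF : F.IsSaturated 3) (h : F.Iso J J σ) {P R : K3}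
    (e : ∀ x ∈ J, σ x = jv (x.p + P * x.u) x.q (x.r + R * x.u) x.s x.t x.u ∨
      σ x = jv (x.p + P * (x.u - x.r)) x.q x.r x.s x.t x.u ∧ R = 0) : P = 0 := by
  obtain ⟨g, -, c⟩ := innS_of_ch ((recJ F).isFullyAutomized hF isP_top) (fun g _ => chJ g) h (by
    refine ⟨fun x hx => hx.2, fun x hx => ?_, fun x hx => hx.2, fun x hx => ?_, fun x hx => hx.2,
      fun x hx => ?_, fun x hx => ⟨hx.1, hx.2.2⟩, fun x hx => ?_, fun x hx => hx.2, fun x hx => ?_,
      fun x hx => ?_⟩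
    · rcases e x hx with c | ⟨c, -⟩ <;> rw [c] <;> rw [mem_J] at hx <;> simp [hx]
    · rcases e x hx.2 with c | ⟨c, -⟩ <;> rw [c] <;> rw [mem_H0] at hx <;> simp [hx]
    · rcases e x hx.2.2 with c | ⟨c, -⟩ <;> rw [c] <;> rw [mem_K4] at hx <;> simp [hx]
    · rcases e x hx.2.2.2 with c | ⟨c, -⟩ <;> rw [c] <;> rw [mem_UU] at hx <;> simp [hx]
    · rcases e x hx.2.2.2.2 with c | ⟨c, -⟩ <;> rw [c] <;> rw [mem_L2] at hx <;> simp [hx]
    · rcases e x hx.2.2.2.2.2 with c | ⟨c, -⟩ <;> rw [c] <;> rw [mem_ZL] at hx <;> ext <;> simp [hx])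
  refine (fixu (g := g) (e := false) (f := false) (h := false) (Q := 0) (R := R) ?_).1
  rw [show sg false false false gu = gu by decide, ← c gu (by decide)]
  rcases e gu (by decide) with c | ⟨c, r⟩ <;> rw [c] <;> simp [gu, *]

omit [BJ] [Wd] [NFC] in
theorem sg_mul (e f g e' f' g' : Bool) (x : Sy) :
    sg e f g (sg e' f' g' x) = sg (xor e e') (xor f f') (xor g g') x := by
  cases e <;> cases f <;> cases g <;> cases e' <;> cases f' <;> cases g' <;> ext <;>
    simp [sg_apply, sgF]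

omit [BJ] [Wd] [NFC] in
theorem NF.sg0 {k : K3} (h : NF F k) (e f : Bool) : F.Iso ⊤ ⊤ (sg e f false) := by
  have := h.t1.trans h.t1
  cases e <;> cases f
  exacts [this.congr fun x _ => (sg_mul false true false false true false x).symm, h.t1, h.t2,
    (h.t1.trans h.t2).congr fun x _ => (sg_mul true false false false true false x).symm]

omit [BJ] [Wd] [NFC] in
theorem NF.i2 {k : K3} (h : NF F k) : I2 F ↔ F.Iso ⊤ ⊤ (sg false false true) := by
  refine ⟨fun ⟨σ, s, c⟩ => ?_, fun t => ⟨_, resJ t le_top, fun j hj => ?_⟩⟩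
  · obtain ⟨α, a, b⟩ := H4.Sp.exists_ext_top ((recJ F).isReceptive h.sat isP_top)
      (fun g _ => nJ g) s fun g _ => mem_innS.2 ⟨g, trivial, nJ g, fun x hx => by
        have y := s.inv_mem hx
        have : σ⁻¹ x = x⁻¹ := by
          rw [← inv_inv (σ⁻¹ x), ← c _ y, perm_apply_inv_self]
        rw [Perm.mul_apply, Perm.mul_apply, cj_apply, c _ (J_conj y g), this]; group⟩
    obtain ⟨g, e, f, k, d⟩ := h.nrm α a
    have := congrArg Sy.u ((d gu).symm.trans ((b gu (by decide)).trans (c gu (by decide))))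
    obtain rfl : k = true := sn_neg (by simpa [sg_apply, sgF, gu] using this)
    exact ((h.sg0 e f).trans (iso_sg a d)).congr fun x _ => by
      rw [Perm.mul_apply, sg_mul]; simp
  · rw [mem_J] at hj; ext <;> simp [sg_apply, sgF, hj]

theorem NF.le {k : K3} (h : NF F k) (h' : NF F' k) (hi : I2 F → I2 F') : F ≤ F' := by
  have hS : ∀ α, F.Iso ⊤ ⊤ α → F'.Iso ⊤ ⊤ α := fun α a => by
    obtain ⟨g, e, f, k, d⟩ := h.nrm α a
    have : F'.Iso ⊤ ⊤ (sg e f k) := by
      cases k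
      · exact h'.sg0 e f
      · have t := h'.i2.1 (hi (h.i2.2 (((h.sg0 e f).trans (iso_sg a d)).congr fun x _ => by
          rw [Perm.mul_apply, sg_mul]; simp)))
        exact (t.trans (h'.sg0 e f)).congr fun x _ => by rw [Perm.mul_apply, sg_mul]; simp
    exact (this.trans (F'.iso_cj le_top trivial (g := g)
      (mem_normalizer_of_finite fun _ _ => trivial))).congr fun x _ => d x
  refine h.sat.le_of_essential isP_top ?_
  rintro P σ (rfl | hP) s
  · exact (hS σ s).isMap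
  obtain ⟨Y, es⟩ := exists_es h.sat hP
  rcases EssL.out es with rfl | rfl | rfl | rfl | ⟨e, i, rfl⟩
  · exact (BJ.out _ _ es).elim
  · exact u1 h h' hS s
  · exact u2 h h' hS s
  · exact NFC.u3 h h' hS s
  obtain ⟨m, a, b⟩ := Wd.e4 es
  have m0 : m = 0 := triv_u h.sat ((resJ h.m2 JE2).symm.trans b) (R := 0) fun x hx => .inr ⟨by
    rw [mem_J] at hx; rw [Perm.mul_apply, n2_inv_apply, n2_apply]; ext <;> simp [hx], rfl⟩
  have k1 : 1 + m - k = 0 := triv_u h.sat ((resJ h.m1 JE1).symm.trans a) (R := -(1 + m - k))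
    fun x hx => .inl (by
      rw [mem_J] at hx; rw [Perm.mul_apply, n1_inv_apply, n1_apply]; ext <;> simp [hx] <;> ring)
  obtain rfl : k = 1 := by rw [m0] at k1; linear_combination -k1
  exact Wd.u4 h h' hS hP s

end Cfsg.Agent.Co
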