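import Cfsg.Agent.Co.Z1

/-! The main theorem over the model. -/

set_option autoImplicit false
set_option linter.unusedSimpArgs false
open Equiv
open scoped commutatorElement

namespace Cfsg.Agent.Co
open Cfsg.Fus Cfsg.FusionSystem

variable {F F' : FS} {P : Subgroup Sy} {σ τ : Perm Sy} {θ : MulAut Sy}

theorem tr_iso (t : L.Transp ⊤ ⊤ θ θ.symm F F') (hP : ∀ x ∈ P, θ x ∈ P) (h : F.Iso P P σ)
    (e : ∀ x ∈ P, τ (θ x) = θ (σ x)) : F'.Iso P P τ := by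
  have s : θ.toEquiv ∈ setStab P := mem_setStab_of_finite hP
  have i : img θ P = P := by
    ext y; rw [t.piso.mem_img le_top]
    exact ⟨fun ⟨x, hx, e⟩ => e ▸ hP x hx, fun hy => ⟨θ.symm y, (s _).1 (by simpa using hy), by simp⟩⟩
  have := t.map_of_rep h.isMap e
  rw [i] at this
  refine this.iso_self fun y hy => ?_
  obtain ⟨x, rfl⟩ := θ.surjective y
  have hx := (s x).1 hy
  rw [e x hx]; exact hP _ (h.mem hx)

/-- what a change of coordinates preserves -/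
structure Eqv (F F' : FS) : Prop where
  real : F.IsRealizable 3 → F'.IsRealizable 3
  real' : F'.IsRealizable 3 → F.IsRealizable 3
  i1 : I1 F ↔ I1 F'
  i2 : I2 F ↔ I2 F'

variable [AuS]

theorem aut_keep (θ : MulAut Sy) : (∀ x ∈ J, θ x ∈ J) ∧ (∀ x ∈ ZL, θ x ∈ ZL) ∧
    ∀ x ∈ CC, θ x ∈ CC := by
  obtain ⟨s, e, f, g, m, c⟩ := AuS.res θ
  refine ⟨fun x hx => ?_, fun x hx => ?_, fun x hx => ?_⟩
  · rw [c x hx]; rw [mem_J] at hx; exact J_conj (by simp [sg_apply, sgF, tau_apply, hx]) s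
  · rw [c x hx.2.2.2.2.2]; rw [mem_ZL] at hx
    rw [cj_J (by simp [sg_apply, sgF, tau_apply, hx])]; simp [sg_apply, sgF, tau_apply, hx]
  · rw [c x hx.2.2.2]; rw [mem_CC] at hx
    rw [cj_J (by simp [sg_apply, sgF, tau_apply, hx])]; simp [sg_apply, sgF, tau_apply, hx]

theorem tr_i (t : L.Transp ⊤ ⊤ θ θ.symm F F') : (I1 F → I1 F') ∧ (I2 F → I2 F') := by
  have k := aut_keep θ
  refine ⟨fun ⟨σ, s, x, hx, a, b⟩ => ⟨θ.toEquiv * σ * θ.toEquiv⁻¹, tr_iso t k.1 s fun x _ => by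
    simp, θ x, k.2.1 x hx, by simpa using AuS.e3 θ _ a, fun c => b ?_⟩,
    fun ⟨σ, s, c⟩ => ⟨θ.toEquiv * σ * θ.toEquiv⁻¹, tr_iso t k.1 s fun x _ => by simp, fun j hj => ?_⟩⟩
  · simpa using (aut_keep θ.symm).2.2 _ c
  · have := c _ ((aut_keep θ.symm).1 j hj)
    simp [this]

theorem tr_eqv (t : L.Transp ⊤ ⊤ θ θ.symm F F') : Eqv F F' :=
  ⟨t.isRealizable', t.symm.isRealizable', ⟨(tr_i t).1, (tr_i (θ := θ.symm) t.symm).1⟩,
    ⟨(tr_i t).2, (tr_i (θ := θ.symm) t.symm).2⟩⟩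

omit [AuS] in
theorem tau_sg (k : K3) (e f g : Bool) (x : Sy) : sg e f g (tauA k x) = tauA k (sg e f g x) := by
  ext <;> simp [sg_apply, sgF, tauA]; ring

omit [AuS] in
theorem tr_core {Ω : Type*} [Group Ω] {S U : Subgroup Ω} {G : FusionSystem S} {η : Ω → Sy}
    {η' : Sy → Ω} (t : L.Transp U ⊤ η η' G F') (h : G.core = ⊥) : F'.core = ⊥ := by
  rw [← t.img_core, h, eq_bot_iff]
  intro y hy
  obtain ⟨x, hx, rfl⟩ := (t.piso.mem_img bot_le).1 hy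
  rw [Subgroup.mem_bot.1 hx]; exact t.piso.hom.map_one

variable [BJ] [Wd] [NFC]

theorem exists_nf (hF : F.IsSaturated 3) (hc : F.core = ⊥) :
    ∃ F' k, NF F' k ∧ (k = 0 ∨ k = 1) ∧ Eqv F F' := by
  obtain ⟨θ, F1, t, N⟩ := AuS.nrm F hF
  have s1 := t.isSaturated hF
  obtain ⟨a1, a2, a3⟩ := nts s1 N (tr_core t hc)
  obtain ⟨t1, i, m1⟩ := nf1 s1 N a1
  obtain ⟨t2, j, m2⟩ := nf2 s1 N a2
  have m3 := NFC.nf3 s1 N a3
  have p : L.PIso ⊤ ⊤ (tauA (-j)) (tauA (-j)).symm :=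
    ⟨fun _ _ _ _ => map_mul _ _ _, fun _ _ => trivial, fun _ _ => trivial, fun _ _ => by simp,
      fun _ _ => by simp⟩
  obtain ⟨F2, t'⟩ := p.exists_transp le_rfl F1 p.img_self
  have nf : NF F2 (i - j) := by
    refine ⟨t'.isSaturated s1, fun α a => ?_, tr_iso t' (fun _ _ => trivial) t1 fun x _ => tau_sg .., 
      tr_iso t' (fun _ _ => trivial) t2 fun x _ => tau_sg ..,
      tr_iso t' (fun _ h => h) m1 fun x _ => ?_, tr_iso t' (fun _ h => h) m2 fun x _ => ?_,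
      tr_iso t' (fun _ h => h) m3 fun x hx => ?_⟩
    · obtain ⟨g, e, f, h, c⟩ := N _ (tr_iso (θ := (tauA (-j)).symm) (τ := (tauA (-j)).toEquiv⁻¹ * α *
        (tauA (-j)).toEquiv) t'.symm (fun _ _ => trivial) a fun x _ => by simp)
      refine ⟨tauA (-j) g, e, f, h, fun x => ?_⟩
      obtain ⟨x, rfl⟩ := (tauA (-j)).surjective x
      rw [tau_sg, ← map_inv, ← map_mul, ← map_mul, ← c]; simp
    · ext <;> simp [n1_apply, tauA] <;> ring
    · ext <;> simp [n2_apply, tauA]; ring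
    · rw [mem_E3] at hx; ext <;> simp [n3_apply, tauA, hx]
  have e1 := tr_eqv t; have e2 := tr_eqv t'
  refine ⟨F2, _, nf, ?_, e2.real ∘ e1.real, e1.real' ∘ e2.real', e1.i1.trans e2.i1,
    e1.i2.trans e2.i2⟩
  rcases k3 (i - j) with c | c | c
  exacts [.inl c, .inr c, (Wd.k2 nf.sat (by
    have := resJ nf.m1 JE1; rwa [c] at this) (resJ nf.m2 JE2)).elim]

theorem main [Mdl] (hF : F.IsSaturated 3) (hc : F.core = ⊥) : F.IsRealizable 3 := by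
  have uq : ∀ {A B : FS} {k}, NF A k → NF B k → (I2 A ↔ I2 B) → A = B := fun a b i =>
    eq_of_le_of_ge (a.le b i.1) (b.le a i.2)
  have k1 : ∀ {A : FS}, NF A 1 → I1 A ∧ I2 A := fun a => Wd.k1 (resJ a.m1 JE1) (resJ a.m2 JE2)
  have k0 : ∀ {A : FS}, NF A 0 → A.IsRealizable 3 ∧ ¬ I1 A := fun {A} a => by
    obtain ⟨B, ⟨s, r, c⟩, n, i⟩ : ∃ B : FS, Good B ∧ ¬ I1 B ∧ (I2 A ↔ I2 B) := by
      by_cases h : I2 A
      · obtain ⟨B, g, n, i⟩ := Mdl.b; exact ⟨B, g, n, by simp [h, i]⟩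
      · obtain ⟨B, g, n, i⟩ := Mdl.a; exact ⟨B, g, n, by simp [h, i]⟩
    obtain ⟨B', k, b, rfl | rfl, e⟩ := exists_nf s c
    · rw [uq a b (i.trans e.i2)]; exact ⟨e.real r, fun h => n (e.i1.2 h)⟩
    · exact (n (e.i1.2 (k1 b).1)).elim
  obtain ⟨A, k, a, rfl | rfl, e⟩ := exists_nf hF hc
  · exact e.real' (k0 a).1
  obtain ⟨B, ⟨s, r, c⟩, i⟩ := Mdl.c
  obtain ⟨B', k, b, rfl | rfl, e'⟩ := exists_nf s c
  · exact ((k0 b).2 (e'.i1.1 i)).elim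
  · exact e.real' (uq a b (by simp [(k1 a).2, (k1 b).2]) ▸ e'.real r)

end Cfsg.Agent.Co
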