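import Cfsg.Agent.Co.Z2
import Cfsg.Agent.Co.N3
import Cfsg.Agent.Co.U2
import Cfsg.Agent.Co.G1
import Cfsg.Agent.Co.A5
import Cfsg.Agent.Co.P1

/-! Collecting the slices. -/

set_option autoImplicit false

namespace Cfsg.Agent.Co

instance instNFC : NFC := ⟨nf1, nf2, nf3, x1, x2, x3, u1, u2, u3⟩

theorem mdl : Mdl := inferInstance

end Cfsg.Agent.Co
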